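import Cfsg.Agent.FGS75.L33.Pairs
import Cfsg.Agent.GLTwoThree.Parabolic
import Mathlib.GroupTheory.Index

/-!
# The Sylow 3-subgroup of an involution centralizer is not normal

In a simple group of order 5616 with the facts of `InvFacts`, some involution centralizer has more than one
subgroup of order 3.
-/

set_option autoImplicit false
set_option linter.style.haveILetI false
set_option linter.unusedSectionVars false

namespace Cfsg.Agent.FGS75.L33

open Subgroup

universe u

variable {G : Type u} [Group G] [Finite G]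

theorem eq_or_inv {h y : G} (h3 : orderOf h = 3) (hy : y ∈ zpowers h) (hy1 : y ≠ 1) :
    y = h ∨ y = h⁻¹ := by
  obtain ⟨i, rfl⟩ := mem_zpowers_iff.1 hy
  rw [← zpow_mod_orderOf, h3] at hy1 ⊢
  have h0 := Int.emod_nonneg i (show ((3 : ℕ) : ℤ) ≠ 0 by norm_num)
  have h1 := Int.emod_lt_of_pos i (show (0 : ℤ) < ((3 : ℕ) : ℤ) by norm_num)
  interval_cases hi : i % ((3 : ℕ) : ℤ)
  · simp at hy1
  · left; simp
  · right
    rw [eq_inv_iff_mul_eq_one, show ((2 : ℤ)) = ((2 : ℕ) : ℤ) from rfl, zpow_natCast, ← pow_succ,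
      show 2 + 1 = orderOf h by rw [h3], pow_orderOf_eq_one]

theorem mem_norm_zpowers {h n : G} (h3 : orderOf h = 3) (hn : n * h * n⁻¹ ∈ zpowers h) :
    n ∈ normalizer (zpowers h : Set G) := by
  have hn1 : n * h * n⁻¹ ≠ 1 := fun e => by
    rw [conj_eq_one_iff] at e
    rw [e, orderOf_one] at h3
    omega
  rw [Subgroup.mem_normalizer_iff]
  intro x
  constructor
  · intro hx
    obtain ⟨i, rfl⟩ := mem_zpowers_iff.1 hx
    rw [← conj_zpow]
    exact zpow_mem hn i
  · intro hx
    obtain ⟨i, hi⟩ := mem_zpowers_iff.1 hx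
    rcases eq_or_inv h3 hn hn1 with e | e
    · rw [← e, conj_zpow] at hi
      exact mem_zpowers_iff.2 ⟨i, mul_left_cancel (mul_right_cancel hi)⟩
    · have e' : (n * h * n⁻¹) ^ (-i) = h ^ i := by rw [e, inv_zpow', neg_neg]
      rw [← e', conj_zpow] at hi
      exact mem_zpowers_iff.2 ⟨-i, mul_left_cancel (mul_right_cancel hi)⟩

theorem conj_of_mem_norm {h n : G} (h3 : orderOf h = 3) (hn : n ∈ normalizer (zpowers h : Set G)) :
    n * h * n⁻¹ = h ∨ n * h * n⁻¹ = h⁻¹ :=
  eq_or_inv h3 (((Subgroup.mem_normalizer_iff.1 hn) h).1 (mem_zpowers h)) fun e => by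
    rw [conj_eq_one_iff] at e
    rw [e, orderOf_one] at h3
    omega

theorem card_le_two_centralizer {h : G} (h3 : orderOf h = 3) {M : Subgroup G}
    (hM : M ≤ normalizer (zpowers h : Set G)) :
    Nat.card M ≤ 2 * Nat.card (M ⊓ centralizer ({h} : Set G) : Subgroup G) := by
  refine card_le_two_mul M _ fun x hx y hy hxC hyC => mem_centralizer_singleton_iff.2 ?_
  have key : ∀ z ∈ M, z ∉ centralizer ({h} : Set G) → z * h * z⁻¹ = h⁻¹ := fun z hz hzC =>
    (conj_of_mem_norm h3 (hM hz)).resolve_left fun e =>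
      hzC (mem_centralizer_singleton_iff.2 (mul_inv_eq_iff_eq_mul.1 e))
  have h1 := key x hx hxC
  have h2 := key y hy hyC
  have : (x⁻¹ * y) * h * (x⁻¹ * y)⁻¹ = h := by
    calc (x⁻¹ * y) * h * (x⁻¹ * y)⁻¹ = x⁻¹ * (y * h * y⁻¹) * x := by group
      _ = x⁻¹ * (x * h * x⁻¹) * x := by rw [h1, h2]
      _ = h := by group
  exact mul_inv_eq_iff_eq_mul.1 this

/-- The conjugates of `t` by elements of `N` are counted by the index of its stabilizer. -/
theorem ncard_conj_mul (N : Subgroup G) (t : G) :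
    {x : G | ∃ n ∈ N, n * t * n⁻¹ = x}.ncard * Nat.card (N ⊓ centralizer ({t} : Set G) : Subgroup G)
      = Nat.card N := by
  letI : MulAction N G := MulAction.compHom G ((MulAut.conj (G := G)).comp N.subtype)
  have horb : {x : G | ∃ n ∈ N, n * t * n⁻¹ = x} = MulAction.orbit N t := by
    ext x
    exact ⟨fun ⟨n, hn, e⟩ => ⟨⟨n, hn⟩, e⟩, fun ⟨n, e⟩ => ⟨n, n.2, e⟩⟩
  have e : (N ⊓ centralizer ({t} : Set G) : Subgroup G) ≃ MulAction.stabilizer N t :=
    { toFun := fun c => ⟨⟨c, (mem_inf.1 c.2).1⟩, by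
        show (c : G) * t * (c : G)⁻¹ = t
        rw [mem_centralizer_singleton_iff.1 (mem_inf.1 c.2).2, mul_inv_cancel_right]⟩
      invFun := fun c => ⟨(c : N), mem_inf.2 ⟨(c : N).2, mem_centralizer_singleton_iff.2
        (mul_inv_eq_iff_eq_mul.1 (show ((c : N) : G) * t * ((c : N) : G)⁻¹ = t from c.2))⟩⟩
      left_inv := fun c => rfl
      right_inv := fun c => rfl }
  rw [horb, ← Nat.card_coe_set_eq, Nat.card_congr e, ← Nat.card_prod]
  exact Nat.card_congr (MulAction.orbitProdStabilizerEquivGroup N t)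

variable [IsSimpleGroup G] (hF : InvFacts G)

include hF

/-- A proper subgroup has index at least 13. -/
theorem card_le_432 {M : Subgroup G} (hM : M ≠ ⊤) : Nat.card M ≤ 432 := by
  have hcore : M.normalCore = ⊥ :=
    (Subgroup.normalCore_normal M).eq_bot_or_eq_top.resolve_right fun e =>
      hM (top_le_iff.1 (e ▸ Subgroup.normalCore_le M))
  have hinj : Function.Injective (MulAction.toPermHom G (G ⧸ M)) := by
    rw [← MonoidHom.ker_eq_bot_iff, ← Subgroup.normalCore_eq_ker, hcore]
  have h := Subgroup.card_dvd_of_injective _ hinj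
  rw [Nat.card_perm, hF.card_eq] at h
  have h13 : 13 ≤ Nat.card (G ⧸ M) := by
    have h13' : Nat.Prime 13 := by norm_num
    exact (h13'.dvd_factorial).1 ((show 13 ∣ 5616 by norm_num).trans h)
  have := M.card_mul_index
  rw [hF.card_eq] at this
  change 13 ≤ M.index at h13
  nlinarith

theorem normalizer_ne_top {M : Subgroup G} (h1 : M ≠ ⊥) (h2 : Nat.card M < 5616) :
    normalizer (M : Set G) ≠ ⊤ := by
  intro h
  haveI : M.Normal := Subgroup.normalizer_eq_top_iff.1 h
  rcases (inferInstance : M.Normal).eq_bot_or_eq_top with e | e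
  · exact h1 e
  · rw [e, Subgroup.card_top, hF.card_eq] at h2
    omega

theorem not_three_comm {t x y : G} (ht : orderOf t = 2) (hx : orderOf x = 2) (hy : orderOf y = 2)
    (htx : Commute t x) (hty : Commute t y) (hxy : Commute x y) (h1 : t ≠ x) (h2 : y ≠ t)
    (h3 : y ≠ x) (h4 : y ≠ t * x) : False := by
  haveI := Fact.mk Nat.prime_two
  have hxt : x ∉ zpowers t := by
    intro h
    obtain ⟨i, hi⟩ := mem_zpowers_iff.1 h
    rcases Int.emod_two_eq_zero_or_one i with e | e <;>
      rw [← zpow_mod_orderOf, ht, show ((2 : ℕ) : ℤ) = 2 from rfl, e] at hi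
    · rw [zpow_zero] at hi; exact ne_one_of_two hx hi.symm
    · rw [zpow_one] at hi; exact h1 hi
  obtain ⟨Q, htQ, hxQ, hQc, hQf, hQa, -, hQm⟩ := GLTwoThree.pair_facts ht hx htx hxt
  have hyQ : y ∉ Q := by
    intro h
    obtain ⟨a, b, ha, hb, e⟩ := hQf y h
    interval_cases a <;> interval_cases b <;> simp at e
    · exact ne_one_of_two hy e
    · exact h3 e
    · exact h2 e
    · exact h4 e
  have hQcy : ∀ q ∈ Q, Commute q y := fun q hq => by
    obtain ⟨a, b, -, -, rfl⟩ := hQf q hq
    exact (hty.pow_left a).mul_left (hxy.pow_left b)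
  have hn : zpowers y ≤ normalizer (Q : Set G) := by
    rw [zpowers_le, Subgroup.mem_normalizer_iff]
    intro q
    constructor
    · intro hq; rwa [← (hQcy q hq).eq, mul_inv_cancel_right]
    · intro hq
      have e := (hQcy _ hq).eq
      rw [inv_mul_cancel_right] at e
      rw [mul_left_cancel e]
      exact hq
  have hd : zpowers y ⊓ Q = ⊥ := by
    rw [eq_bot_iff]
    intro z hz
    obtain ⟨hz1, hz2⟩ := mem_inf.1 hz
    obtain ⟨i, rfl⟩ := mem_zpowers_iff.1 hz1
    rcases Int.emod_two_eq_zero_or_one i with e | e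
    · rw [mem_bot, ← zpow_mod_orderOf, hy, show ((2 : ℕ) : ℤ) = 2 from rfl, e, zpow_zero]
    · rw [← zpow_mod_orderOf, hy, show ((2 : ℕ) : ℤ) = 2 from rfl, e, zpow_one] at hz2
      exact absurd hz2 hyQ
  have h8 := Cfsg.Agent.Modules.card_sup_mul_card_inf hn
  rw [hd, Subgroup.card_bot, mul_one, Nat.card_zpowers, hy, hQc] at h8
  refine not_eight hF ht hx h1 htx (M := zpowers y ⊔ Q) (sup_le ?_ ?_) (sup_le ?_ ?_) (by rw [h8])
  · exact zpowers_le.2 (mem_centralizer_singleton_iff.2 hty.eq.symm)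
  · exact hQm _ (mem_centralizer_singleton_iff.2 rfl) (mem_centralizer_singleton_iff.2 htx.eq.symm)
  · exact zpowers_le.2 (mem_centralizer_singleton_iff.2 hxy.eq.symm)
  · exact hQm _ (mem_centralizer_singleton_iff.2 htx.eq) (mem_centralizer_singleton_iff.2 rfl)

variable (hU : ∀ t : G, orderOf t = 2 → ∀ x y : G, Commute x t → Commute y t → orderOf x = 3 →
  orderOf y = 3 → y ∈ zpowers x)

include hU

/-- The data attached to an involution. -/
theorem exists_good {t : G} (ht : orderOf t = 2) : ∃ (h : G) (P : Subgroup G),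
    orderOf h = 3 ∧ Commute h t ∧ centralizer ({t} : Set G) ≤ normalizer (zpowers h : Set G) ∧
    Nat.card P = 27 ∧ P ≤ centralizer ({h} : Set G) ∧
    normalizer (zpowers h : Set G) ≤ normalizer (P : Set G) ∧
    Nat.card (normalizer (zpowers h : Set G)) = 432 ∧
    (∀ s, orderOf s = 2 → s ≠ t → Commute s t → s * h * s⁻¹ = h⁻¹) := by
  classical
  haveI := Fact.mk Nat.prime_three
  haveI := Fact.mk Nat.prime_two
  obtain ⟨h', hh'⟩ := exists_prime_orderOf_dvd_card' (G := centralizer ({t} : Set G)) 3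
    (by rw [hF.card_cent t ht]; norm_num)
  set h : G := (h' : G) with hhdef
  have h3 : orderOf h = 3 := by rw [hhdef, Subgroup.orderOf_coe, hh']
  have hht : Commute h t := mem_centralizer_singleton_iff.1 h'.2
  set N := normalizer (zpowers h : Set G) with hNdef
  set K := centralizer ({h} : Set G) with hKdef
  set I : Set G := {x | orderOf x = 2 ∧ Commute h x} with hIdef
  have hh1 : h ≠ 1 := fun e => by rw [e, orderOf_one] at h3; omega
  have hKN : K ≤ N := fun x hx => mem_norm_zpowers h3 (by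
    rw [mem_centralizer_singleton_iff.1 hx, mul_inv_cancel_right]
    exact mem_zpowers h)
  have hCN : centralizer ({t} : Set G) ≤ N := fun x hx => mem_norm_zpowers h3 (by
    have hxt : Commute x t := mem_centralizer_singleton_iff.1 hx
    refine hU t ht h (x * h * x⁻¹) hht (((hxt.mul_left hht)).mul_left hxt.inv_left) h3 ?_
    rw [show x * h * x⁻¹ = MulAut.conj x h from rfl, MulEquiv.orderOf_eq, h3])
  have hKc : ∀ n ∈ N, ∀ x, Commute h x → Commute h (n * x * n⁻¹) := by
    intro n hn x hx
    have hx' : ∀ z : G, z ∈ zpowers h → Commute z x := fun z hz => by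
      obtain ⟨i, rfl⟩ := mem_zpowers_iff.1 hz
      exact hx.zpow_left i
    have h2 : n⁻¹ * h * n ∈ zpowers h := by
      have := ((Subgroup.mem_normalizer_iff.1 (inv_mem hn)) h).1 (mem_zpowers h)
      rwa [inv_inv] at this
    have h3' := (hx' _ h2).eq
    show h * (n * x * n⁻¹) = n * x * n⁻¹ * h
    calc h * (n * x * n⁻¹) = n * (n⁻¹ * h * n * x) * n⁻¹ := by group
      _ = n * (x * (n⁻¹ * h * n)) * n⁻¹ := by rw [h3']
      _ = n * x * n⁻¹ * h := by group
  have hI : {x : G | ∃ n ∈ N, n * t * n⁻¹ = x} = I := by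
    ext x
    constructor
    · rintro ⟨n, hn, rfl⟩
      exact ⟨by rw [show n * t * n⁻¹ = MulAut.conj n t from rfl, MulEquiv.orderOf_eq, ht],
        hKc n hn t hht⟩
    · rintro ⟨hx, hxh⟩
      obtain ⟨c, hc⟩ := isConj_iff.1 (hF.conj t x ht hx)
      refine ⟨c, mem_norm_zpowers h3 (hU x hx h _ hxh ?_ h3 ?_), hc⟩
      · rw [← hc]
        show c * h * c⁻¹ * (c * t * c⁻¹) = c * t * c⁻¹ * (c * h * c⁻¹)
        calc c * h * c⁻¹ * (c * t * c⁻¹) = c * (h * t) * c⁻¹ := by group
          _ = c * (t * h) * c⁻¹ := by rw [hht.eq]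
          _ = _ := by group
      · rw [show c * h * c⁻¹ = MulAut.conj c h from rfl, MulEquiv.orderOf_eq, h3]
  have hIc : I.ncard * 48 = Nat.card N := by
    have := ncard_conj_mul N t
    rw [hI, inf_eq_right.2 hCN, hF.card_cent t ht] at this
    exact this
  have htI : t ∈ I := ⟨ht, hht⟩
  -- a subgroup of order nine
  obtain ⟨Q, hQ, hhQ⟩ := Sylow.exists_subgroup_card_pow_succ (p := 3) (n := 1)
    (show 3 ^ (1 + 1) ∣ Nat.card G by rw [hF.card_eq]; norm_num)
    (show Nat.card (zpowers h) = 3 ^ 1 by rw [Nat.card_zpowers, h3]; norm_num)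
  have hQK : Q ≤ K := fun x hx => mem_centralizer_singleton_iff.2
    (congrArg Subtype.val ((IsPGroup.commutative_of_card_eq_prime_sq (p := 3) (G := Q)
      (by rw [hQ])) ⟨x, hx⟩ ⟨h, hhQ (mem_zpowers h)⟩))
  have h9 : 9 ∣ Nat.card K := by
    have := Subgroup.card_dvd_of_le hQK
    rw [hQ] at this; norm_num at this; exact this
  have hN : Nat.card N = 144 ∨ Nat.card N = 432 := by
    have h1 : 144 ∣ Nat.card N := Nat.Coprime.mul_dvd_of_dvd_of_dvd (m := 9) (n := 16)
      (by norm_num) (h9.trans (Subgroup.card_dvd_of_le hKN)) (Dvd.intro_left (I.ncard * 3)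
        (by rw [← hIc]; ring))
    have h2 : Nat.card N ≤ 432 := card_le_432 hF (normalizer_ne_top hF
      (fun e => hh1 (zpowers_eq_bot.1 e)) (by rw [Nat.card_zpowers, h3]; norm_num))
    have h3 : Nat.card N ∣ 5616 := hF.card_eq ▸ Subgroup.card_subgroup_dvd_card _
    obtain ⟨k, hk⟩ := h1
    have h0 : 0 < Nat.card N := Nat.card_pos
    have : k ≤ 3 := by omega
    interval_cases k <;> rw [hk] at h3 h0 ⊢ <;> first | omega | norm_num at h3
  have hcomm_of : ∀ x ∈ I, x ∈ K := fun x hx => mem_centralizer_singleton_iff.2 hx.2.eq.symm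
  have hperm : ∀ a ∈ centralizer ({t} : Set G), ∀ x ∈ I, x ≠ t → a * x * a⁻¹ ∈ I ∧ a * x * a⁻¹ ≠ t := by
    intro a ha x hx hxt
    refine ⟨⟨by rw [show a * x * a⁻¹ = MulAut.conj a x from rfl, MulEquiv.orderOf_eq, hx.1],
      hKc a (hCN ha) x hx.2⟩, fun e => hxt ?_⟩
    have hat := mem_centralizer_singleton_iff.1 ha
    have : a * x = a * t := by rw [hat, ← e, inv_mul_cancel_right]
    exact mul_left_cancel this
  rcases hN with hN | hN
  · -- three involutions
    exfalso
    have hI3 : I.ncard = 3 := by omega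
    have htwo : ∀ x ∈ I, x ≠ t → ∀ M : Subgroup G, M ≤ centralizer ({t} : Set G) →
        Nat.card M ≤ 2 * Nat.card (M ⊓ centralizer ({x} : Set G) : Subgroup G) := by
      intro x hx hxt M hM
      refine card_le_two_mul M _ fun a ha b hb haC hbC => mem_centralizer_singleton_iff.2 ?_
      have key : ∀ z ∈ M, z ∉ centralizer ({x} : Set G) → z * x * z⁻¹ ∈ I \ {t, x} := fun z hz hzC =>
        ⟨(hperm z (hM hz) x hx hxt).1, fun e => by
          rcases e with e | e
          · exact (hperm z (hM hz) x hx hxt).2 e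
          · exact hzC (mem_centralizer_singleton_iff.2 (mul_inv_eq_iff_eq_mul.1 e))⟩
      have h1 : (I \ {t, x}).ncard ≤ 1 := by
        rw [Set.ncard_diff (by rintro z (rfl | rfl) <;> assumption), hI3,
          Set.ncard_pair (Ne.symm hxt)]
      have e : a * x * a⁻¹ = b * x * b⁻¹ :=
        (Set.ncard_le_one (Set.toFinite _)).1 h1 _ (key a ha haC) _ (key b hb hbC)
      calc a⁻¹ * b * x = a⁻¹ * (b * x * b⁻¹) * b := by group
        _ = a⁻¹ * (a * x * a⁻¹) * b := by rw [e]
        _ = x * (a⁻¹ * b) := by group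
    obtain ⟨x, hx, hxt⟩ := Set.exists_ne_of_one_lt_ncard (by omega : 1 < I.ncard) t
    obtain ⟨y, hy, hyt, hyx⟩ : ∃ y ∈ I, y ≠ t ∧ Commute y t := by
      set M := centralizer ({t} : Set G) ⊓ K
      have hM : 24 ≤ Nat.card M := by
        have := card_le_two_centralizer h3 hCN
        rw [hF.card_cent t ht] at this
        change 48 ≤ 2 * Nat.card M at this
        omega
      have hM2 := htwo x hx hxt M inf_le_left
      have hdvd : Nat.card (M ⊓ centralizer ({x} : Set G) : Subgroup G) ∣ 48 :=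
        hF.card_cent t ht ▸ Subgroup.card_dvd_of_le (inf_le_left.trans inf_le_left)
      have hev : 2 ∣ Nat.card (M ⊓ centralizer ({x} : Set G) : Subgroup G) := by
        have hkey : ∀ d ∈ Nat.divisors 48, (decide (12 ≤ d) : Bool) = true → d % 2 = 0 := by decide
        exact Nat.dvd_of_mod_eq_zero (hkey _ (Nat.mem_divisors.2 ⟨hdvd, by norm_num⟩) (decide_eq_true (by omega)))
      obtain ⟨w, hw, hw2⟩ := exists_two _ hev
      obtain ⟨hwM, hwx⟩ := mem_inf.1 hw
      obtain ⟨hwt, hwK⟩ := mem_inf.1 hwM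
      by_cases e : w = t
      · subst e
        exact ⟨x, hx, hxt, (show Commute w x from mem_centralizer_singleton_iff.1 hwx).symm⟩
      · exact ⟨w, ⟨hw2, (show Commute w h from mem_centralizer_singleton_iff.1 hwK).symm⟩, e,
          mem_centralizer_singleton_iff.1 hwt⟩
    have hC := htwo y hy hyt (centralizer ({t} : Set G)) le_rfl
    rw [hF.card_cent t ht] at hC
    have hdvd : Nat.card (centralizer ({t} : Set G) ⊓ centralizer ({y} : Set G) : Subgroup G) ∣ 48 :=
      hF.card_cent t ht ▸ Subgroup.card_dvd_of_le inf_le_left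
    have hkey : ∀ d ∈ Nat.divisors 48, (decide (24 ≤ d) : Bool) = true → d % 8 = 0 := by decide
    exact not_eight hF ht hy.1 (Ne.symm hyt) hyx.symm
      (M := centralizer ({t} : Set G) ⊓ centralizer ({y} : Set G)) inf_le_left inf_le_right
      (Nat.dvd_of_mod_eq_zero (hkey _ (Nat.mem_divisors.2 ⟨hdvd, by norm_num⟩) (decide_eq_true (by omega))))
  -- nine involutions
  have hI9 : I.ncard = 9 := by omega
  have hK : Nat.card K = 216 ∨ Nat.card K = 432 := by
    have h1 := card_le_two_centralizer h3 (le_refl N)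
    rw [hN, inf_eq_right.2 hKN] at h1
    have h2 := Subgroup.card_dvd_of_le hKN
    rw [hN] at h2
    have hkey : ∀ d ∈ Nat.divisors 432, (decide (216 ≤ d) : Bool) = true → d = 216 ∨ d = 432 := by
      decide +kernel
    exact hkey _ (Nat.mem_divisors.2 ⟨h2, by norm_num⟩) (decide_eq_true (by omega))
  rcases hK with hK | hK
  swap
  · exfalso
    have hKeq : K = N := Subgroup.eq_of_le_of_card_ge hKN (by rw [hK, hN])
    set J : Set G := {x | orderOf x = 2 ∧ x ≠ t ∧ Commute x t} with hJdef
    have hJI : J ⊆ I := fun x hx => ⟨hx.1, by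
      have : x ∈ K := hKeq.symm ▸ hCN (mem_centralizer_singleton_iff.2 hx.2.2)
      exact (show Commute x h from mem_centralizer_singleton_iff.1 this).symm⟩
    have horbit : ∀ x ∈ J, {z | ∃ c ∈ centralizer ({t} : Set G), c * x * c⁻¹ = z}.ncard = 4 ∧
        {z | ∃ c ∈ centralizer ({t} : Set G), c * x * c⁻¹ = z} ⊆ J := by
      intro x hx
      have h := ncard_conj_mul (centralizer ({t} : Set G)) x
      rw [hF.card_cent t ht] at h
      set M := centralizer ({t} : Set G) ⊓ centralizer ({x} : Set G)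
      have h4 : 4 ∣ Nat.card M := by
        have hxt : x ∉ zpowers t := by
          intro hz
          obtain ⟨i, hi⟩ := mem_zpowers_iff.1 hz
          rcases Int.emod_two_eq_zero_or_one i with e | e <;>
            rw [← zpow_mod_orderOf, ht, show ((2 : ℕ) : ℤ) = 2 from rfl, e] at hi
          · rw [zpow_zero] at hi; exact ne_one_of_two hx.1 hi.symm
          · rw [zpow_one] at hi; exact hx.2.1 hi.symm
        obtain ⟨Q, -, -, hQc, -, -, -, hQm⟩ := GLTwoThree.pair_facts ht hx.1 hx.2.2.symm hxt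
        have := Subgroup.card_dvd_of_le (hQm M
          (mem_inf.2 ⟨mem_centralizer_singleton_iff.2 rfl,
            mem_centralizer_singleton_iff.2 hx.2.2.symm.eq⟩)
          (mem_inf.2 ⟨mem_centralizer_singleton_iff.2 hx.2.2.eq,
            mem_centralizer_singleton_iff.2 rfl⟩))
        rwa [hQc] at this
      have h3' : 3 ∣ Nat.card M := h3 ▸ Subgroup.orderOf_dvd_natCard M
        (mem_inf.2 ⟨mem_centralizer_singleton_iff.2 hht.eq,
          mem_centralizer_singleton_iff.2 (hJI hx).2.eq⟩)
      have h8 := not_eight hF ht hx.1 (Ne.symm hx.2.1) hx.2.2.symm (M := M) inf_le_left inf_le_right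
      have h12 : Nat.card M = 12 := by
        have hkey : ∀ d ∈ Nat.divisors 48, (d % 3 == 0 && d % 4 == 0 && d % 8 != 0) = true → d = 12 := by
          decide
        refine hkey _ (Nat.mem_divisors.2 ⟨hF.card_cent t ht ▸ Subgroup.card_dvd_of_le inf_le_left,
          by norm_num⟩) ?_
        simp [Nat.mod_eq_zero_of_dvd h3', Nat.mod_eq_zero_of_dvd h4,
          show Nat.card M % 8 ≠ 0 from fun e => h8 (Nat.dvd_of_mod_eq_zero e)]
      refine ⟨by rw [h12] at h; omega, ?_⟩
      rintro _ ⟨c, hc, rfl⟩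
      have hct : Commute c t := mem_centralizer_singleton_iff.1 hc
      exact ⟨by rw [show c * x * c⁻¹ = MulAut.conj c x from rfl, MulEquiv.orderOf_eq, hx.1],
        (hperm c hc x (hJI hx) hx.2.1).2, (hct.mul_left hx.2.2).mul_left hct.inv_left⟩
    have h6 : 6 ≤ J.ncard := by
      rw [← Nat.card_coe_set_eq]
      exact hF.six t ht
    obtain ⟨x, hx⟩ := Set.nonempty_of_ncard_ne_zero (s := J) (by omega)
    obtain ⟨hox, hoxJ⟩ := horbit x hx
    have h8 : 8 ≤ J.ncard := by
      set O := {z | ∃ c ∈ centralizer ({t} : Set G), c * x * c⁻¹ = z}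
      obtain ⟨y, hy, hyO⟩ : ∃ y ∈ J, y ∉ O := by
        by_contra hc
        push_neg at hc
        have := Set.ncard_le_ncard (s := J) (t := O) hc (Set.toFinite _)
        omega
      obtain ⟨hoy, hoyJ⟩ := horbit y hy
      set O' := {z | ∃ c ∈ centralizer ({t} : Set G), c * y * c⁻¹ = z}
      have hdis : Disjoint O O' := by
        rw [Set.disjoint_left]
        rintro z ⟨a, ha, rfl⟩ ⟨b, hb, e⟩
        exact hyO ⟨b⁻¹ * a, mul_mem (inv_mem hb) ha, by
          calc b⁻¹ * a * x * (b⁻¹ * a)⁻¹ = b⁻¹ * (a * x * a⁻¹) * b := by group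
            _ = b⁻¹ * (b * y * b⁻¹) * b := by rw [e]
            _ = y := by group⟩
      have := Set.ncard_le_ncard (Set.union_subset hoxJ hoyJ) (Set.toFinite _)
      rw [Set.ncard_union_eq hdis (Set.toFinite _) (Set.toFinite _), hox, hoy] at this
      omega
    have hall : ∀ z ∈ I, z ≠ t → Commute z t := by
      intro z hz hzt
      have hsub : J ⊆ I \ {t} := fun w hw => ⟨hJI hw, hw.2.1⟩
      have := Set.eq_of_subset_of_ncard_le hsub (by
        rw [Set.ncard_diff_singleton_of_mem htI, hI9]; omega) (Set.toFinite _)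
      exact (this.symm ▸ (⟨hz, hzt⟩ : z ∈ I \ {t}) : z ∈ J).2.2
    have hpair : ∀ a ∈ I, ∀ b ∈ I, Commute a b := by
      intro a ha b hb
      obtain ⟨n, hn, rfl⟩ : a ∈ {x : G | ∃ n ∈ N, n * t * n⁻¹ = x} := hI ▸ ha
      obtain ⟨m, hm, rfl⟩ : b ∈ {x : G | ∃ n ∈ N, n * t * n⁻¹ = x} := hI ▸ hb
      have hc : Commute ((n⁻¹ * m) * t * (n⁻¹ * m)⁻¹) t := by
        by_cases e : (n⁻¹ * m) * t * (n⁻¹ * m)⁻¹ = t
        · rw [e]
        · exact hall _ (hI ▸ ⟨_, mul_mem (inv_mem hn) hm, rfl⟩) e
      show n * t * n⁻¹ * (m * t * m⁻¹) = m * t * m⁻¹ * (n * t * n⁻¹)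
      calc n * t * n⁻¹ * (m * t * m⁻¹) = n * (t * ((n⁻¹ * m) * t * (n⁻¹ * m)⁻¹)) * n⁻¹ := by group
        _ = n * ((n⁻¹ * m) * t * (n⁻¹ * m)⁻¹ * t) * n⁻¹ := by rw [hc.eq]
        _ = _ := by group
    obtain ⟨y, hy, hy'⟩ : ∃ y ∈ I, y ∉ ({t, x, t * x} : Set G) := by
      by_contra hc
      push_neg at hc
      have h1 := Set.ncard_le_ncard (s := I) (t := {t, x, t * x}) hc (Set.toFinite _)
      have h2 : ({t, x, t * x} : Set G).ncard ≤ 3 :=
        (Set.ncard_insert_le _ _).trans (Nat.add_le_add_right ((Set.ncard_insert_le _ _).trans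
          (by rw [Set.ncard_singleton])) 1)
      omega
    simp only [Set.mem_insert_iff, Set.mem_singleton_iff, not_or] at hy'
    exact not_three_comm hF ht hx.1 hy.1 (hpair t htI x (hJI hx)) (hpair t htI y hy)
      (hpair x (hJI hx) y hy) (Ne.symm hx.2.1) hy'.1 hy'.2.1 hy'.2.2
  -- `|C(h)| = 216`
  have hhK : h ∈ K := mem_centralizer_singleton_iff.2 rfl
  have hKh : ∀ k ∈ K, Commute k h := fun k hk => mem_centralizer_singleton_iff.1 hk
  have hmemh : ∀ S : Subgroup G, S ≤ K → Nat.card S = 27 → h ∈ S := by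
    intro S hS hSc
    by_contra hn
    have hnorm : zpowers h ≤ normalizer (S : Set G) := by
      rw [zpowers_le, Subgroup.mem_normalizer_iff]
      intro x
      constructor
      · intro hx; rwa [← (hKh x (hS hx)).eq, mul_inv_cancel_right]
      · intro hx
        have e := (hKh _ (hS hx)).eq
        rw [inv_mul_cancel_right] at e
        rw [mul_left_cancel e]
        exact hx
    have hdisj : zpowers h ⊓ S = ⊥ := by
      rw [eq_bot_iff]
      intro z hz
      obtain ⟨hz1, hz2⟩ := mem_inf.1 hz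
      rw [mem_bot]
      by_contra hz0
      rcases eq_or_inv h3 hz1 hz0 with e | e
      · exact hn (e ▸ hz2)
      · exact hn (inv_mem_iff.1 (e ▸ hz2))
    have h81 := Cfsg.Agent.Modules.card_sup_mul_card_inf hnorm
    rw [hdisj, Subgroup.card_bot, mul_one, Nat.card_zpowers, h3, hSc] at h81
    have := Subgroup.card_dvd_of_le (sup_le (zpowers_le.2 hhK) hS)
    rw [h81, hK] at this
    norm_num at this
  have huniq : ∀ S S' : Subgroup G, S ≤ K → S' ≤ K → Nat.card S = 27 → Nat.card S' = 27 → S = S' := by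
    intro S S' hS hS' hSc hSc'
    by_contra hne
    set R := S ⊓ S' with hRdef
    have hR9 : Nat.card R = 9 := by
      have hi : ∀ {U : Subgroup G}, U ≤ K → Nat.card U = 27 → (U.subgroupOf K).index = 8 := by
        intro U hU hUc
        have := (U.subgroupOf K).card_mul_index
        rw [Nat.card_congr (Subgroup.subgroupOfEquivOfLe hU).toEquiv, hUc, hK] at this
        omega
      have h := Subgroup.index_inf_le (H := S.subgroupOf K) (K := S'.subgroupOf K)
      rw [hi hS hSc, hi hS' hSc'] at h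
      have h2 := (S.subgroupOf K ⊓ S'.subgroupOf K).card_mul_index
      have hc : Nat.card (S.subgroupOf K ⊓ S'.subgroupOf K : Subgroup K) = Nat.card R := by
        rw [show S.subgroupOf K ⊓ S'.subgroupOf K = R.subgroupOf K from
          (Subgroup.comap_inf S S' K.subtype).symm]
        exact Nat.card_congr (Subgroup.subgroupOfEquivOfLe (inf_le_left.trans hS)).toEquiv
      rw [hc, hK] at h2
      have hdvd : Nat.card R ∣ 3 ^ 3 := by
        have := Subgroup.card_dvd_of_le (inf_le_left : R ≤ S)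
        rw [hSc] at this; norm_num; exact this
      obtain ⟨i, hi', e⟩ := (Nat.dvd_prime_pow Nat.prime_three).1 hdvd
      interval_cases i
      · rw [e] at h2; norm_num at h2; omega
      · rw [e] at h2; norm_num at h2; omega
      · rw [e]; norm_num
      · exact absurd ((Subgroup.eq_of_le_of_card_ge (inf_le_left : R ≤ S) (by rw [e, hSc]; norm_num)).symm.trans
          (Subgroup.eq_of_le_of_card_ge (inf_le_right : R ≤ S') (by rw [e, hSc']; norm_num))) hne
    have hnorm : ∀ {U : Subgroup G}, R ≤ U → Nat.card U = 27 → U ≤ normalizer (R : Set G) := by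
      intro U hRU hUc
      have hidx : (R.subgroupOf U).index = 3 := by
        have := (R.subgroupOf U).card_mul_index
        rw [Nat.card_congr (Subgroup.subgroupOfEquivOfLe hRU).toEquiv, hR9, hUc] at this
        omega
      haveI : (R.subgroupOf U).Normal := Subgroup.normal_of_index_eq_minFac_card (by
        rw [hidx, hUc]; norm_num)
      intro g hg
      rw [Subgroup.mem_normalizer_iff]
      intro x
      constructor
      · intro hx
        exact Subgroup.mem_subgroupOf.1 ((inferInstance : (R.subgroupOf U).Normal).conj_mem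
          ⟨x, hRU hx⟩ (Subgroup.mem_subgroupOf.2 hx) ⟨g, hg⟩)
      · intro hx
        have := Subgroup.mem_subgroupOf.1 ((inferInstance : (R.subgroupOf U).Normal).conj_mem
          ⟨_, hRU hx⟩ (Subgroup.mem_subgroupOf.2 hx) ⟨g, hg⟩⁻¹)
        simpa [mul_assoc] using this
    set L := K ⊓ normalizer (R : Set G)
    have hSL : S ≤ L := le_inf hS (hnorm inf_le_left hSc)
    have hSL' : S' ≤ L := le_inf hS' (hnorm inf_le_right hSc')
    have hL : Nat.card L ∣ 216 := hK ▸ Subgroup.card_dvd_of_le inf_le_left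
    have h27 : 27 ∣ Nat.card L := hSc ▸ Subgroup.card_dvd_of_le hSL
    have h4 : 4 ∣ Nat.card L := by
      have hkey : ∀ d ∈ Nat.divisors 216, (d % 27 == 0) = true → d = 27 ∨ d = 54 ∨ d % 4 = 0 := by
        decide +kernel
      rcases hkey _ (Nat.mem_divisors.2 ⟨hL, by norm_num⟩)
        (by simp [Nat.mod_eq_zero_of_dvd h27]) with e | e | e
      · exact absurd ((Subgroup.eq_of_le_of_card_ge hSL (by rw [e, hSc])).trans
          (Subgroup.eq_of_le_of_card_ge hSL' (by rw [e, hSc'])).symm) hne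
      · refine absurd (Subgroup.eq_of_le_of_card_ge (fun q hq => ?_) (by rw [hSc, hSc'])).symm hne
        have hidx : (S.subgroupOf L).index = 2 := by
          have := (S.subgroupOf L).card_mul_index
          rw [Nat.card_congr (Subgroup.subgroupOfEquivOfLe hSL).toEquiv, hSc, e] at this
          omega
        have h2 := Subgroup.mem_subgroupOf.1 (Subgroup.mul_self_mem_of_index_two hidx (⟨q, hSL' hq⟩ : L))
        have hq27 : q ^ 27 = 1 := by
          have := congrArg Subtype.val (pow_card_eq_one' (x := (⟨q, hq⟩ : S')))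
          rw [hSc'] at this
          simpa using this
        have : q = (q * q) ^ 14 := by rw [← pow_two, ← pow_mul, pow_succ, hq27, one_mul]
        rw [this]
        exact pow_mem h2 14
      · exact Nat.dvd_of_mod_eq_zero e
    obtain ⟨M, hM⟩ := Sylow.exists_subgroup_card_pow_prime 2 (G := L) (n := 2) (by norm_num; exact h4)
    -- the action on `R`
    have hhR : h ∈ R := mem_inf.2 ⟨hmemh S hS hSc, hmemh S' hS' hSc'⟩
    obtain ⟨r, hrR, hrh⟩ : ∃ r ∈ R, r ∉ zpowers h := by
      by_contra hc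
      push_neg at hc
      have := Nat.card_mono (zpowers h : Set G).toFinite hc
      simp only [SetLike.coe_sort_coe] at this
      rw [hR9, Nat.card_zpowers, h3] at this
      omega
    have hcomR : ∀ a ∈ R, ∀ b ∈ R, Commute a b := fun a ha b hb => congrArg Subtype.val
      ((IsPGroup.commutative_of_card_eq_prime_sq (p := 3) (G := R) (by rw [hR9]; norm_num))
        ⟨a, ha⟩ ⟨b, hb⟩)
    have hRK : R ≤ K := inf_le_left.trans hS
    have hform : ∀ m : M, ∃ a b : ℕ, (a = 1 ∨ a = 2) ∧
        ((m : L) : G) * r * ((m : L) : G)⁻¹ = r ^ a * h ^ b := by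
      intro m
      obtain ⟨hmK, hmN⟩ := mem_inf.1 (m : L).2
      have hmem : ((m : L) : G) * r * ((m : L) : G)⁻¹ ∈ R :=
        ((Subgroup.mem_normalizer_iff.1 hmN) r).1 hrR
      let f : Fin 3 × Fin 3 → R := fun p =>
        ⟨r ^ (p.1 : ℕ) * h ^ (p.2 : ℕ), mul_mem (pow_mem hrR _) (pow_mem hhR _)⟩
      have hf : Function.Injective f := by
        rintro ⟨a, b⟩ ⟨c, d⟩ e
        have e' : r ^ (a : ℕ) * h ^ (b : ℕ) = r ^ (c : ℕ) * h ^ (d : ℕ) := congrArg Subtype.val e
        have hr3 : r ^ ((c : ℕ) : ℤ) * (r ^ ((a : ℕ) : ℤ))⁻¹ ∈ zpowers h := by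
          simp only [zpow_natCast]
          have : r ^ (c : ℕ) = r ^ (a : ℕ) * h ^ (b : ℕ) * (h ^ (d : ℕ))⁻¹ := by
            rw [e', mul_inv_cancel_right]
          rw [this, mul_assoc (r ^ (a : ℕ)), mul_assoc,
            (((hcomR h hhR r hrR).pow_pow (b : ℕ) (a : ℕ)).mul_left
              ((hcomR h hhR r hrR).pow_pow (d : ℕ) (a : ℕ)).inv_left).inv_right.eq,
            mul_inv_cancel_left]
          exact mul_mem (pow_mem (mem_zpowers h) _) (inv_mem (pow_mem (mem_zpowers h) _))
        rw [← zpow_sub] at hr3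
        have hac : a = c := by
          by_contra hne'
          refine hrh ?_
          have hr27 : orderOf r ∣ 9 := hR9 ▸ Subgroup.orderOf_dvd_natCard R hrR
          set k : ℤ := ((c : ℕ) : ℤ) - ((a : ℕ) : ℤ) with hk
          have hk9 : IsCoprime k 9 := by
            have : k = 1 ∨ k = 2 ∨ k = -1 ∨ k = -2 := by
              have := a.isLt; have := c.isLt
              have : (a : ℕ) ≠ (c : ℕ) := fun e => hne' (Fin.ext e)
              omega
            rcases this with h | h | h | h <;> rw [h] <;> rw [Int.isCoprime_iff_gcd_eq_one] <;> rfl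
          obtain ⟨u, v, huv⟩ := hk9
          have : r = (r ^ k) ^ u * (r ^ (9 : ℤ)) ^ v := by
            rw [← zpow_mul, ← zpow_mul, ← zpow_add, mul_comm k, mul_comm (9 : ℤ), huv, zpow_one]
          rw [this, show (r : G) ^ (9 : ℤ) = 1 by
            rw [show (9 : ℤ) = ((9 : ℕ) : ℤ) from rfl, zpow_natCast]
            exact orderOf_dvd_iff_pow_eq_one.1 hr27, one_zpow, mul_one]
          exact zpow_mem hr3 u
        subst hac
        have hbd := pow_injOn_Iio_orderOf (x := h) (Set.mem_Iio.2 (h3.symm ▸ b.isLt))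
          (Set.mem_Iio.2 (h3.symm ▸ d.isLt)) (mul_left_cancel e')
        rw [Fin.ext hbd]
      obtain ⟨⟨a, b⟩, e⟩ := (hf.bijective_of_nat_card_le (by rw [hR9]; simp)).2 ⟨_, hmem⟩
      have e' := (congrArg Subtype.val e).symm
      refine ⟨a, b, ?_, e'⟩
      by_contra ha
      have ha0 : (a : ℕ) = 0 := by have := a.isLt; omega
      simp only [f, ha0, pow_zero, one_mul] at e'
      have hm : Commute ((m : L) : G) (h ^ (b : ℕ)) := (hKh _ hmK).pow_right _
      rw [mul_inv_eq_iff_eq_mul, ← hm.eq] at e'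
      have e'' := mul_left_cancel e'
      exact hrh (e'' ▸ pow_mem (mem_zpowers h) _)
    have hmul : ∀ (m n : M) (a b c d : ℕ),
        ((m : L) : G) * r * ((m : L) : G)⁻¹ = r ^ a * h ^ b →
        ((n : L) : G) * r * ((n : L) : G)⁻¹ = r ^ c * h ^ d →
        (((m * n : M) : L) : G) * r * (((m * n : M) : L) : G)⁻¹ = r ^ (a * c) * h ^ (b * c + d) := by
      intro m n a b c d e1 e2
      have hm : Commute ((m : L) : G) (h ^ d) := (hKh _ (mem_inf.1 (m : L).2).1).pow_right _
      calc (((m * n : M) : L) : G) * r * (((m * n : M) : L) : G)⁻¹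
          = ((m : L) : G) * (((n : L) : G) * r * ((n : L) : G)⁻¹) * ((m : L) : G)⁻¹ := by
            simp only [Subgroup.coe_mul]; group
        _ = (((m : L) : G) * r * ((m : L) : G)⁻¹) ^ c * (((m : L) : G) * h ^ d * ((m : L) : G)⁻¹) := by
            rw [e2, conj_pow]; group
        _ = r ^ (a * c) * h ^ (b * c + d) := by
            rw [e1, hm.eq, mul_inv_cancel_right, ((hcomR r hrR h hhR).pow_pow a b).mul_pow, ← pow_mul,
              ← pow_mul, pow_add, mul_assoc]
    have hr9 : r ^ 4 = r * r ^ 3 := pow_succ' r 3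
    have hr3h : r ^ 3 ∈ zpowers h := by
      -- the quotient of `R` by `⟨h⟩` has order three
      haveI : ((zpowers h).subgroupOf R).Normal :=
        ⟨fun x hx g => by
          rw [Subgroup.mem_subgroupOf] at hx ⊢
          simp only [Subgroup.coe_mul, Subgroup.coe_inv]
          rwa [(hcomR g g.2 x x.2).eq, mul_inv_cancel_right]⟩
      have hidx : ((zpowers h).subgroupOf R).index = 3 := by
        have := ((zpowers h).subgroupOf R).card_mul_index
        rw [Nat.card_congr (Subgroup.subgroupOfEquivOfLe (zpowers_le.2 hhR)).toEquiv,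
          Nat.card_zpowers, h3, hR9] at this
        omega
      have := ((zpowers h).subgroupOf R).pow_index_mem (⟨r, hrR⟩ : R)
      rw [hidx, Subgroup.mem_subgroupOf] at this
      exact this
    obtain ⟨w, hw1, hw2, b, hwr⟩ : ∃ w : M, w ≠ 1 ∧ w * w = 1 ∧
        ∃ b : ℕ, ((w : L) : G) * r * ((w : L) : G)⁻¹ = r * h ^ b := by
      obtain ⟨j, hj⟩ := mem_zpowers_iff.1 hr3h
      have h4' : ∀ (b : ℕ), ∃ c : ℕ, r ^ (2 * 2) * h ^ b = r * h ^ c := by
        intro b
        refine ⟨(j % 3).toNat + b, ?_⟩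
        rw [show 2 * 2 = 4 from rfl, hr9, ← hj, pow_add, mul_assoc, ← zpow_natCast h (j % 3).toNat,
          Int.toNat_of_nonneg (Int.emod_nonneg _ (by norm_num)),
          show (3 : ℤ) = ((orderOf h : ℕ) : ℤ) by rw [h3]; rfl, zpow_mod_orderOf]
      have hMc : Nat.card M = 4 := hM.trans (by norm_num)
      have hp4 : ∀ m : M, m ^ 4 = 1 := fun m => hMc ▸ pow_card_eq_one'
      by_cases hex : ∃ m : M, m * m ≠ 1
      · obtain ⟨m, hm⟩ := hex
        obtain ⟨a, b, ha, e⟩ := hform m
        have e2 := hmul m m a b a b e e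
        refine ⟨m * m, hm, by rw [← pow_two, ← pow_two, ← pow_mul]; exact hp4 m, ?_⟩
        rcases ha with rfl | rfl
        · exact ⟨_, by rw [e2, one_mul, pow_one]⟩
        · obtain ⟨c, hc⟩ := h4' (b * 2 + b)
          exact ⟨c, e2.trans hc⟩
      · push_neg at hex
        haveI : Nontrivial M := Finite.one_lt_card_iff_nontrivial.1 (by omega)
        obtain ⟨m, hm⟩ := exists_ne (1 : M)
        obtain ⟨n, hn1, hn2⟩ : ∃ n : M, n ≠ 1 ∧ n ≠ m := by
          by_contra hc
          push_neg at hc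
          have hinj : Function.Injective fun x : M => decide (x = 1) := by
            intro x y hxy
            simp only [decide_eq_decide] at hxy
            by_cases hx : x = 1
            · rw [hx, hxy.1 hx]
            · rw [hc x hx, hc y fun hy => hx (hxy.2 hy)]
          have h2 := Nat.card_le_card_of_injective _ hinj
          rw [Nat.card_eq_fintype_card (α := Bool), Fintype.card_bool] at h2
          omega
        obtain ⟨a, b, ha, e⟩ := hform m
        obtain ⟨c, d, hc, e'⟩ := hform n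
        rcases ha with rfl | rfl
        · exact ⟨m, hm, hex m, b, by rw [e, pow_one]⟩
        rcases hc with rfl | rfl
        · exact ⟨n, hn1, hex n, d, by rw [e', pow_one]⟩
        obtain ⟨z, hz⟩ := h4' (b * 2 + d)
        refine ⟨m * n, fun e0 => hn2 ?_, hex _, z, (hmul m n _ _ _ _ e e').trans hz⟩
        exact (eq_inv_of_mul_eq_one_right e0).trans (inv_eq_of_mul_eq_one_left (hex m))
    have hwo : orderOf ((w : L) : G) = 2 := two_of_mul_self
      (congrArg (fun x : M => ((x : L) : G)) hw2) fun e => hw1 (Subtype.ext (Subtype.ext e))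
    set W : G := ((w : L) : G) with hWdef
    have hWh : Commute W h := hKh _ (mem_inf.1 (w : L).2).1
    have hb1 : h ^ b = 1 := by
      have e2 : W * (r * h ^ b) * W⁻¹ = r := by
        rw [← hwr, inv_of_two hwo]
        calc W * (W * r * W) * W = W * W * r * (W * W) := by group
          _ = r := by rw [mul_self_of_two hwo, one_mul, mul_one]
      have e3 : W * (r * h ^ b) * W⁻¹ = r * (h ^ b * h ^ b) := by
        calc W * (r * h ^ b) * W⁻¹ = W * r * W⁻¹ * (W * h ^ b * W⁻¹) := by group
          _ = r * (h ^ b * h ^ b) := by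
            rw [hwr, (hWh.pow_right b).eq, mul_inv_cancel_right, mul_assoc]
      have e4 : h ^ b * h ^ b = 1 := mul_left_cancel ((e3.symm.trans e2).trans (mul_one r).symm)
      have e5 : (h ^ b) ^ 3 = 1 := by
        rw [← pow_mul, mul_comm, pow_mul, ← h3, pow_orderOf_eq_one, one_pow]
      rwa [pow_succ, pow_two, e4, one_mul] at e5
    rw [hb1, mul_one, mul_inv_eq_iff_eq_mul] at hwr
    obtain ⟨R', hrR', hhR', hR'c, -, -, -, hR'm⟩ := by
      exact (⟨R ⊓ centralizer ({W} : Set G), mem_inf.2 ⟨hrR, mem_centralizer_singleton_iff.2 hwr.symm⟩,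
        mem_inf.2 ⟨hhR, mem_centralizer_singleton_iff.2 hWh.eq.symm⟩, by
          have hd : Nat.card (R ⊓ centralizer ({W} : Set G) : Subgroup G) ∣ 48 :=
            hF.card_cent W hwo ▸ Subgroup.card_dvd_of_le inf_le_right
          have hd2 : Nat.card (R ⊓ centralizer ({W} : Set G) : Subgroup G) ∣ 9 :=
            hR9 ▸ Subgroup.card_dvd_of_le inf_le_left
          exact Nat.le_of_dvd (by norm_num) (Nat.dvd_gcd hd hd2), trivial, trivial, trivial, trivial⟩ :
        ∃ R' : Subgroup G, r ∈ R' ∧ h ∈ R' ∧ Nat.card R' ≤ 3 ∧ True ∧ True ∧ True ∧ True)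
    have he : zpowers h = R' := Subgroup.eq_of_le_of_card_ge (zpowers_le.2 hhR')
      (by rw [Nat.card_zpowers, h3]; exact hR'c)
    exact hrh (he ▸ hrR')
  obtain ⟨P0, hP0⟩ := Sylow.exists_subgroup_card_pow_prime 3 (G := K) (n := 3) (by rw [hK]; norm_num)
  set P := P0.map K.subtype with hPdef
  have hPK : P ≤ K := Subgroup.map_subtype_le _
  have hPc : Nat.card P = 27 := by
    rw [hPdef, ← Nat.card_congr (P0.equivMapOfInjective _ K.subtype_injective).toEquiv, hP0]
    norm_num
  have hNP : N ≤ normalizer (P : Set G) := by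
    have key : ∀ n ∈ N, P.map (MulAut.conj n).toMonoidHom = P := by
      intro n hn
      refine huniq _ _ ?_ hPK ?_ hPc
      · rintro _ ⟨x, hx, rfl⟩
        exact mem_centralizer_singleton_iff.2 ((hKc n hn x (hKh x (hPK hx)).symm).eq.symm)
      · rw [← Nat.card_congr (P.equivMapOfInjective _ (MulAut.conj n).injective).toEquiv, hPc]
    intro n hn
    rw [Subgroup.mem_normalizer_iff]
    intro x
    constructor
    · intro hx; exact key n hn ▸ ⟨x, hx, rfl⟩
    · intro hx
      have h2 : MulAut.conj n⁻¹ (n * x * n⁻¹) ∈ P := key n⁻¹ (inv_mem hn) ▸ ⟨_, hx, rfl⟩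
      simpa [mul_assoc] using h2
  refine ⟨h, P, h3, hht, hCN, hPc, hPK, hNP, hN, fun s hs hst hcs => ?_⟩
  refine (conj_of_mem_norm h3 (hCN (mem_centralizer_singleton_iff.2 hcs))).resolve_left fun e => ?_
  -- `s` would be a conjugate of `t` under `P`
  have hsI : s ∈ I := ⟨hs, (show Commute s h from mul_inv_eq_iff_eq_mul.1 e).symm⟩
  have horb := ncard_conj_mul P t
  have hd3 : Nat.card (P ⊓ centralizer ({t} : Set G) : Subgroup G) ≤ 3 :=
    Nat.le_of_dvd (by norm_num) ((Nat.dvd_gcd (hPc ▸ Subgroup.card_dvd_of_le inf_le_left)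
      (hF.card_cent t ht ▸ Subgroup.card_dvd_of_le inf_le_right)).trans (by norm_num))
  rw [hPc] at horb
  have hsub : {x : G | ∃ n ∈ P, n * t * n⁻¹ = x} ⊆ I := by
    rintro x ⟨n, hn, rfl⟩
    exact hI ▸ ⟨n, hKN (hPK hn), rfl⟩
  have heq := Set.eq_of_subset_of_ncard_le hsub (by rw [hI9]; nlinarith) (Set.toFinite _)
  obtain ⟨p, hp, hps⟩ : s ∈ {x : G | ∃ n ∈ P, n * t * n⁻¹ = x} := heq.symm ▸ hsI
  have hmem : s * t ∈ P := by
    have ht' : t * p⁻¹ * t⁻¹ ∈ P := ((Subgroup.mem_normalizer_iff.1
      (hNP (hCN (mem_centralizer_singleton_iff.2 rfl)))) p⁻¹).1 (inv_mem hp)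
    rw [← hps]
    have : p * t * p⁻¹ * t = p * (t * p⁻¹ * t⁻¹) := by rw [inv_of_two ht]; group
    rw [this]
    exact mul_mem hp ht'
  have := Subgroup.orderOf_dvd_natCard P hmem
  rw [two_mul hs ht hst hcs, hPc] at this
  norm_num at this

/-- An involution centralizer has more than one subgroup of order 3. -/
theorem false_of_unique_three {t : G} (ht : orderOf t = 2) : False := by
  classical
  haveI := Fact.mk Nat.prime_three
  obtain ⟨s, hs, hst, hcs⟩ : ∃ s, orderOf s = 2 ∧ s ≠ t ∧ Commute s t := by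
    have := hF.six t ht
    obtain ⟨⟨s, h⟩⟩ := Nat.card_pos_iff.1 (show 0 < Nat.card
      {s : G // orderOf s = 2 ∧ s ≠ t ∧ s * t = t * s} by omega) |>.1
    exact ⟨s, h⟩
  have hr := two_mul ht hs (Ne.symm hst) hcs.symm
  obtain ⟨h, P, h3, hht, hCN, hPc, hPh, hNP, hN, hinv⟩ := exists_good hF hU ht
  obtain ⟨k, Pk, k3, hks, hCNk, hPkc, hPkk, hNPk, hNk, hinvk⟩ := exists_good hF hU hs
  obtain ⟨l, Pl, l3, hlr, -, -, -, -, -, -⟩ := exists_good hF hU hr
  have hrt : t * s ≠ t := fun e => ne_one_of_two hs (mul_eq_left.1 e)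
  have hrs : t * s ≠ s := fun e => ne_one_of_two ht (mul_eq_right.1 e)
  have hcrt : Commute (t * s) t := (Commute.refl t).mul_left hcs
  have hcrs : Commute (t * s) s := hcs.symm.mul_left (Commute.refl s)
  -- the subgroup of order three of a commuting involution lies in `P`
  have inP : ∀ {t h P}, orderOf t = 2 → orderOf h = 3 → Commute h t → Nat.card (P : Subgroup G) = 27 →
      (normalizer (zpowers h : Set G) ≤ normalizer (P : Set G)) →
      centralizer ({t} : Set G) ≤ normalizer (zpowers h : Set G) →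
      ∀ {s k : G}, orderOf s = 2 → s ≠ t → Commute s t → orderOf k = 3 → Commute k s → k ∈ P := by
    intro t h P ht h3 hht hPc hNP hCN s k hs hst hcs k3 hks
    have hsn : ∀ x, x ∈ P → s * x * s⁻¹ ∈ P := fun x hx => ((Subgroup.mem_normalizer_iff.1
      (hNP (hCN (mem_centralizer_singleton_iff.2 hcs.eq)))) x).1 hx
    have htn : ∀ x, x ∈ P → t * x * t⁻¹ ∈ P := fun x hx => ((Subgroup.mem_normalizer_iff.1
      (hNP (hCN (mem_centralizer_singleton_iff.2 rfl)))) x).1 hx
    obtain ⟨y, hy, hys, hy1⟩ : ∃ y ∈ P, Commute y s ∧ y ≠ 1 := by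
      by_contra hc
      push_neg at hc
      have hss := mul_self_of_two hs
      have hinv : ∀ x ∈ P, s * x * s⁻¹ = x⁻¹ := by
        let f : P → P := fun p => ⟨(p : G)⁻¹ * (s * p * s⁻¹), mul_mem (inv_mem p.2) (hsn p p.2)⟩
        have hf : Function.Injective f := by
          intro a b e
          have e' : (a : G)⁻¹ * (s * a * s⁻¹) = (b : G)⁻¹ * (s * b * s⁻¹) := congrArg Subtype.val e
          have hfix : (b : G) * (a : G)⁻¹ = s * ((b : G) * (a : G)⁻¹) * s⁻¹ := by
            calc (b : G) * (a : G)⁻¹ = (b : G) * ((a : G)⁻¹ * (s * a * s⁻¹)) * (s * (a : G)⁻¹ * s⁻¹) := by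
                  group
              _ = (b : G) * ((b : G)⁻¹ * (s * b * s⁻¹)) * (s * (a : G)⁻¹ * s⁻¹) := by rw [e']
              _ = s * ((b : G) * (a : G)⁻¹) * s⁻¹ := by group
          have := hc _ (mul_mem b.2 (inv_mem a.2)) (mul_inv_eq_iff_eq_mul.1 hfix.symm).symm
          exact Subtype.ext (mul_inv_eq_one.1 this).symm
        intro x hx
        obtain ⟨p, hp⟩ := (hf.bijective_of_nat_card_le le_rfl).2 ⟨x, hx⟩
        have hp' : (p : G)⁻¹ * (s * p * s⁻¹) = x := congrArg Subtype.val hp
        rw [← hp', inv_of_two hs]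
        calc s * ((p : G)⁻¹ * (s * p * s)) * s = s * (p : G)⁻¹ * s * p * (s * s) := by group
          _ = s * (p : G)⁻¹ * s * p := by rw [hss, mul_one]
          _ = ((p : G)⁻¹ * (s * p * s))⁻¹ := by
            rw [mul_inv_rev, mul_inv_rev, mul_inv_rev, inv_inv, inv_of_two hs]; group
      have hab : ∀ a ∈ P, ∀ b ∈ P, a * b = b * a := by
        intro a ha b hb
        have e := hinv _ (mul_mem ha hb)
        rw [show s * (a * b) * s⁻¹ = s * a * s⁻¹ * (s * b * s⁻¹) by group, hinv a ha, hinv b hb] at e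
        have e2 := congrArg (·⁻¹) e
        simp only [mul_inv_rev, inv_inv] at e2
        exact e2.symm
      let φ : P →* P :=
        { toFun := fun p => ⟨(p : G)⁻¹ * (t * p * t⁻¹), mul_mem (inv_mem p.2) (htn p p.2)⟩
          map_one' := Subtype.ext (by simp)
          map_mul' := fun a b => Subtype.ext (by
            simp only [Subgroup.coe_mul]
            have h1 := hab _ (inv_mem a.2) _ (inv_mem b.2)
            have h2 := hab _ (inv_mem b.2) _ (htn a a.2)
            calc ((a : G) * b)⁻¹ * (t * ((a : G) * b) * t⁻¹)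
                = (b : G)⁻¹ * (a : G)⁻¹ * (t * a * t⁻¹) * (t * b * t⁻¹) := by group
              _ = (a : G)⁻¹ * ((b : G)⁻¹ * (t * a * t⁻¹)) * (t * b * t⁻¹) := by rw [← h1]; group
              _ = (a : G)⁻¹ * (t * a * t⁻¹ * (b : G)⁻¹) * (t * b * t⁻¹) := by rw [h2]
              _ = _ := by group) }
      have hk : Nat.card φ.ker ≤ 3 := by
        have e : Nat.card φ.ker ≤ Nat.card (P ⊓ centralizer ({t} : Set G) : Subgroup G) := by
          refine Nat.card_le_card_of_injective (fun p => ⟨((p : P) : G), mem_inf.2 ⟨(p : P).2, ?_⟩⟩)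
            fun a b e => Subtype.ext (Subtype.ext (congrArg (fun z : (P ⊓ centralizer ({t} : Set G) :
              Subgroup G) => (z : G)) e))
          have hp : ((p : P) : G)⁻¹ * (t * (p : P) * t⁻¹) = 1 :=
            congrArg Subtype.val (MonoidHom.mem_ker.1 p.2)
          exact mem_centralizer_singleton_iff.2
            (mul_inv_eq_iff_eq_mul.1 (inv_mul_eq_one.1 hp).symm).symm
        exact e.trans (Nat.le_of_dvd (by norm_num)
          ((Nat.dvd_gcd (hPc ▸ Subgroup.card_dvd_of_le inf_le_left)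
            (hF.card_cent t ht ▸ Subgroup.card_dvd_of_le inf_le_right)).trans (by norm_num)))
      have hr9 : 9 ≤ Nat.card φ.range := by
        have h := φ.ker.card_mul_index
        rw [Subgroup.index_ker, hPc] at h
        nlinarith
      have hle : Nat.card φ.range ≤ 3 := by
        have hts := two_mul ht hs (Ne.symm hst) hcs.symm
        have e : Nat.card φ.range ≤
            Nat.card (P ⊓ centralizer ({t * s} : Set G) : Subgroup G) := by
          refine Nat.card_le_card_of_injective (fun p => ⟨((p : P) : G), mem_inf.2 ⟨(p : P).2, ?_⟩⟩)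
            fun a b e => Subtype.ext (Subtype.ext (congrArg
              (fun z : (P ⊓ centralizer ({t * s} : Set G) : Subgroup G) => (z : G)) e))
          obtain ⟨_, a, rfl⟩ := p
          refine mem_centralizer_singleton_iff.2 ?_
          show (a : G)⁻¹ * (t * a * t⁻¹) * (t * s) = t * s * ((a : G)⁻¹ * (t * a * t⁻¹))
          have hd : (a : G)⁻¹ * (t * a * t⁻¹) ∈ P := mul_mem (inv_mem a.2) (htn a a.2)
          have h1 : s * ((a : G)⁻¹ * (t * a * t⁻¹)) * s⁻¹ = ((a : G)⁻¹ * (t * a * t⁻¹))⁻¹ := hinv _ hd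
          have h2 : t * ((a : G)⁻¹ * (t * a * t⁻¹))⁻¹ * t⁻¹ = (a : G)⁻¹ * (t * a * t⁻¹) := by
            rw [inv_of_two ht, mul_inv_rev, inv_inv, mul_inv_rev, mul_inv_rev, inv_of_two ht]
            calc t * (t * ((a : G)⁻¹ * t) * a) * t = t * t * (a : G)⁻¹ * (t * a * t) := by group
              _ = (a : G)⁻¹ * (t * a * t) := by rw [mul_self_of_two ht, one_mul]
          calc (a : G)⁻¹ * (t * a * t⁻¹) * (t * s)
              = t * ((a : G)⁻¹ * (t * a * t⁻¹))⁻¹ * t⁻¹ * (t * s) := by rw [h2]
            _ = t * (s * ((a : G)⁻¹ * (t * a * t⁻¹)) * s⁻¹) * s := by rw [h1]; group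
            _ = _ := by group
        exact e.trans (Nat.le_of_dvd (by norm_num)
          ((Nat.dvd_gcd (hPc ▸ Subgroup.card_dvd_of_le inf_le_left)
            (hF.card_cent (t * s) hts ▸ Subgroup.card_dvd_of_le inf_le_right)).trans (by norm_num)))
      omega
    have hy3 : orderOf y = 3 := by
      have h1 := Nat.dvd_gcd (Subgroup.orderOf_dvd_natCard P hy)
        (Subgroup.orderOf_dvd_natCard (centralizer ({s} : Set G)) (mem_centralizer_singleton_iff.2 hys.eq))
      rw [hPc, hF.card_cent s hs] at h1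
      rcases (Nat.dvd_prime Nat.prime_three).1 (by simpa using h1) with e | e
      · exact absurd (orderOf_eq_one_iff.1 e) hy1
      · exact e
    exact zpowers_le.2 hy (hU s hs y k hys hks hy3 k3)
  have hkP := inP ht h3 hht hPc hNP hCN hs hst hcs k3 hks
  have hlP := inP ht h3 hht hPc hNP hCN hr hrt hcrt l3 hlr
  have hhPk := inP hs k3 hks hPkc hNPk hCNk ht (Ne.symm hst) hcs.symm h3 hht
  have hlPk := inP hs k3 hks hPkc hNPk hCNk hr hrs hcrs l3 hlr
  -- no element of order three is inverted and fixed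
  have h2z : ∀ {z : G}, orderOf z = 3 → z⁻¹ ≠ z := by
    intro z hz e
    have : orderOf z ∣ 2 := orderOf_dvd_iff_pow_eq_one.2 (by rw [pow_two]; nth_rw 1 [← e]; exact inv_mul_cancel z)
    rw [hz] at this
    norm_num at this
  have hsh := hinv s hs hst hcs
  have htk := hinvk t ht (Ne.symm hst) hcs.symm
  have hkh : k ∉ zpowers h := by
    intro hk
    rcases eq_or_inv h3 hk (fun e => by rw [e, orderOf_one] at k3; omega) with rfl | rfl
    · rw [hks.symm.eq, mul_inv_cancel_right] at hsh
      exact h2z h3 hsh.symm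
    · have e := hks.inv_left
      rw [inv_inv] at e
      rw [e.symm.eq, mul_inv_cancel_right] at hsh
      exact h2z h3 hsh.symm
  have hne : P ≠ Pk := by
    rintro rfl
    have hPbot : P ≠ ⊥ := fun e => by rw [e, Subgroup.card_bot] at hPc; omega
    have hNP' : Nat.card (normalizer (P : Set G)) ≤ 432 :=
      card_le_432 hF (normalizer_ne_top hF hPbot (by omega))
    have e1 : normalizer (zpowers h : Set G) = normalizer (P : Set G) :=
      Subgroup.eq_of_le_of_card_ge hNP (by rw [hN]; exact hNP')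
    have e2 : normalizer (zpowers k : Set G) = normalizer (P : Set G) :=
      Subgroup.eq_of_le_of_card_ge hNPk (by rw [hNk]; exact hNP')
    have hCk : centralizer ({t} : Set G) ≤ normalizer (zpowers k : Set G) := by rw [e2, ← e1]; exact hCN
    set M := centralizer ({t} : Set G) ⊓ centralizer ({h} : Set G)
    have hM := card_le_two_centralizer h3 hCN
    have hM' := card_le_two_centralizer k3 (inf_le_left.trans hCk : M ≤ _)
    rw [hF.card_cent t ht] at hM
    change 48 ≤ 2 * Nat.card M at hM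
    change Nat.card M ≤ 2 * Nat.card (M ⊓ centralizer ({k} : Set G) : Subgroup G) at hM'
    have hdvd : Nat.card (M ⊓ centralizer ({k} : Set G) : Subgroup G) ∣ 48 :=
      hF.card_cent t ht ▸ Subgroup.card_dvd_of_le (inf_le_left.trans inf_le_left)
    have hkey : ∀ d ∈ Nat.divisors 48, (decide (12 ≤ d) : Bool) = true → d % 2 = 0 := by decide
    obtain ⟨w, hw, hw2⟩ := exists_two _ (Nat.dvd_of_mod_eq_zero (hkey _
      (Nat.mem_divisors.2 ⟨hdvd, by norm_num⟩) (decide_eq_true (by omega))))
    obtain ⟨hwM, hwk⟩ := mem_inf.1 hw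
    obtain ⟨hwt, hwh⟩ := mem_inf.1 hwM
    have hwe : w = t := by
      by_contra hwe
      have := hinv w hw2 hwe (mem_centralizer_singleton_iff.1 hwt)
      rw [mem_centralizer_singleton_iff.1 hwh, mul_inv_cancel_right] at this
      exact h2z h3 this.symm
    subst hwe
    rw [mem_centralizer_singleton_iff.1 hwk, mul_inv_cancel_right] at htk
    exact h2z k3 htk.symm
  have hhP : h ∈ P := inf_le_left (b := centralizer ({t} : Set G)) (by
    have e : zpowers h = P ⊓ centralizer ({t} : Set G) := by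
      have := Subgroup.card_dvd_of_le (inf_le_left : P ⊓ centralizer ({t} : Set G) ≤ P)
      by_contra hne'
      exact hne' (by
        classical
        have hPh' : h ∈ P := by
          by_contra hn
          have hnorm : zpowers h ≤ normalizer (P : Set G) :=
            (Subgroup.le_normalizer).trans hNP
          have hdisj : zpowers h ⊓ P = ⊥ := by
            rw [eq_bot_iff]
            intro z hz
            obtain ⟨hz1, hz2⟩ := mem_inf.1 hz
            rw [mem_bot]
            by_contra hz0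
            rcases eq_or_inv h3 hz1 hz0 with e | e
            · exact hn (e ▸ hz2)
            · exact hn (inv_mem_iff.1 (e ▸ hz2))
          have h81 := Cfsg.Agent.Modules.card_sup_mul_card_inf hnorm
          rw [hdisj, Subgroup.card_bot, mul_one, Nat.card_zpowers, h3, hPc] at h81
          have := Subgroup.card_subgroup_dvd_card (zpowers h ⊔ P)
          rw [h81, hF.card_eq] at this
          norm_num at this
        refine Subgroup.eq_of_le_of_card_ge (zpowers_le.2 (mem_inf.2 ⟨hPh',
          mem_centralizer_singleton_iff.2 hht.eq⟩)) ?_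
        rw [Nat.card_zpowers, h3]
        exact Nat.le_of_dvd (by norm_num) ((Nat.dvd_gcd (hPc ▸ this)
          (hF.card_cent t ht ▸ Subgroup.card_dvd_of_le inf_le_right)).trans (by norm_num)))
    exact e ▸ mem_zpowers h)
  obtain ⟨Q, hhQ, hkQ, hQc, hQf, -, -, hQm⟩ := GLTwoThree.pair_facts h3 k3
    ((show Commute k h from mem_centralizer_singleton_iff.1 (hPh hkP)).symm) hkh
  have hkPk : k ∈ Pk := by
    by_contra hn
    have hnorm : zpowers k ≤ normalizer (Pk : Set G) := (Subgroup.le_normalizer).trans hNPk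
    have hdisj : zpowers k ⊓ Pk = ⊥ := by
      rw [eq_bot_iff]
      intro z hz
      obtain ⟨hz1, hz2⟩ := mem_inf.1 hz
      rw [mem_bot]
      by_contra hz0
      rcases eq_or_inv k3 hz1 hz0 with e | e
      · exact hn (e ▸ hz2)
      · exact hn (inv_mem_iff.1 (e ▸ hz2))
    have h81 := Cfsg.Agent.Modules.card_sup_mul_card_inf hnorm
    rw [hdisj, Subgroup.card_bot, mul_one, Nat.card_zpowers, k3, hPkc] at h81
    have := Subgroup.card_subgroup_dvd_card (zpowers k ⊔ Pk)
    rw [h81, hF.card_eq] at this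
    norm_num at this
  have hQeq : Q = P ⊓ Pk := by
    refine Subgroup.eq_of_le_of_card_ge (le_inf (hQm P hhP hkP) (hQm Pk hhPk hkPk)) ?_
    have hd : Nat.card (P ⊓ Pk : Subgroup G) ∣ 3 ^ 3 := by
      have := Subgroup.card_dvd_of_le (inf_le_left : P ⊓ Pk ≤ P)
      rw [hPc] at this; norm_num; exact this
    obtain ⟨i, hi, e⟩ := (Nat.dvd_prime_pow Nat.prime_three).1 hd
    rw [hQc, e]
    interval_cases i
    · norm_num
    · norm_num
    · norm_num
    · exact absurd ((Subgroup.eq_of_le_of_card_ge (inf_le_left : P ⊓ Pk ≤ P)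
        (by rw [e, hPc]; norm_num)).symm.trans (Subgroup.eq_of_le_of_card_ge
          (inf_le_right : P ⊓ Pk ≤ Pk) (by rw [e, hPkc]; norm_num))) hne
  obtain ⟨a, b, -, -, hl⟩ := hQf l (hQeq ▸ mem_inf.2 ⟨hlP, hlPk⟩)
  have hrh := hinv (t * s) hr hrt hcrt
  have hrk := hinvk (t * s) hr hrs hcrs
  have hkh' : Commute k h := mem_centralizer_singleton_iff.1 (hPh hkP)
  have e1 : t * s * l * (t * s)⁻¹ = l := by rw [← hlr.eq, mul_inv_cancel_right]
  rw [hl, show t * s * (h ^ a * k ^ b) * (t * s)⁻¹ =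
    (t * s * h ^ a * (t * s)⁻¹) * (t * s * k ^ b * (t * s)⁻¹) by group, ← conj_pow, ← conj_pow, hrh, hrk,
    inv_pow, inv_pow, ← mul_inv_rev, (hkh'.pow_pow b a).eq, ← hl] at e1
  exact h2z l3 e1

end Cfsg.Agent.FGS75.L33
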