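import Cfsg.Agent.FGS75.L33.Chars
import Cfsg.Agent.FGS75.L33.Unique
import Cfsg.Agent.OddPre.GLTwoThree
import Cfsg.Agent.GLTwoThree.PlaneIso
import Mathlib.GroupTheory.Perm.Sign

/-!
# The simple group of order 5616

An involution centralizer in a simple group of order 5616 is `GL (2, 3)`, and the group is `SL (3, 3)`.
-/

set_option autoImplicit false
set_option linter.style.haveILetI false
set_option linter.unusedSectionVars false

namespace Cfsg.Agent.FGS75.L33

open Subgroup

universe u

theorem card_sylow_eq {p : ℕ} {H : Type*} [Group H] [Finite H] [Fact p.Prime] (P : Sylow p H) :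
    Nat.card (Sylow p H) = (normalizer ((P : Subgroup H) : Set H)).index :=
  P.card_eq_index_normalizer

/-- The three-cycle. -/
def cP : Equiv.Perm (Fin 4) := Equiv.swap 0 1 * Equiv.swap 1 2

/-- A double transposition. -/
def vP : Equiv.Perm (Fin 4) := Equiv.swap 0 3 * Equiv.swap 1 2

/-- The transposition. -/
def sP : Equiv.Perm (Fin 4) := Equiv.swap 0 1

theorem cP_cube : cP * cP * cP = 1 := by decide +kernel

theorem vP_facts : vP * vP = 1 ∧ vP ≠ 1 ∧ cP * vP * cP⁻¹ ≠ vP ∧ cP * vP * cP⁻¹ ≠ 1 ∧
    cP * (cP * vP * cP⁻¹) * cP⁻¹ = vP * (cP * vP * cP⁻¹) := by decide +kernel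

theorem sP_facts : sP * cP * sP = cP * cP ∧ sP * vP * sP = cP * vP * cP⁻¹ := by decide +kernel

theorem exists_conj_std : ∀ σ : Equiv.Perm (Fin 4), (decide (σ ≠ 1) && decide (σ * σ = 1)) = true →
    ∃ ρ : Equiv.Perm (Fin 4), ρ * σ * ρ⁻¹ = sP ∨ ρ * σ * ρ⁻¹ = vP := by decide +kernel

theorem perm_words : ∀ x : Equiv.Perm (Fin 4), ∃ (a : Fin 2) (b : Fin 2) (d : Fin 3) (e : Fin 2),
    x = vP ^ (a : ℕ) * (cP * vP * cP⁻¹) ^ (b : ℕ) * cP ^ (d : ℕ) * sP ^ (e : ℕ) := by decide +kernel

section Abstract

variable {C : Type u} [Group C] [Finite C] {t : C} (htc : ∀ x, Commute t x) (ht : orderOf t = 2)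
  (hno : ∀ a b : C, orderOf a = 2 → orderOf b = 2 → Commute a b → a ≠ t → b ≠ t → b ≠ a →
    b ≠ t * a → False)
  (π : C →* Equiv.Perm (Fin 4)) (hπ : Function.Surjective π) (hker : ∀ x, π x = 1 ↔ x = 1 ∨ x = t)

include htc ht hker in
theorem eq_or_mul {a b : C} (h : π a = π b) : a = b ∨ a = b * t := by
  have : π (b⁻¹ * a) = 1 := by rw [map_mul, map_inv, h, inv_mul_cancel]
  rcases (hker _).1 this with e | e
  · exact Or.inl (inv_mul_eq_one.1 e).symm
  · exact Or.inr (eq_mul_of_inv_mul_eq e)

include htc ht hker hπ in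
theorem exists_lift_cube : ∃ h : C, π h = cP ∧ h * h * h = 1 := by
  obtain ⟨y, hy⟩ := hπ cP
  have h3 : π (y * y * y) = 1 := by rw [map_mul, map_mul, hy, cP_cube]
  rcases (hker _).1 h3 with e | e
  · exact ⟨y, hy, e⟩
  · refine ⟨y * t, ?_, ?_⟩
    · rw [map_mul, (hker t).2 (Or.inr rfl), mul_one, hy]
    · calc y * t * (y * t) * (y * t) = y * y * y * (t * t * t) := by
            simp only [mul_assoc]
            rw [← mul_assoc t y, (htc y).eq, mul_assoc, ← mul_assoc t (y), (htc y).eq, mul_assoc,
              ← mul_assoc t y, (htc y).eq, mul_assoc]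
        _ = 1 := by rw [mul_self_of_two ht, one_mul, e, mul_self_of_two ht]

include htc ht hker hπ hno in
theorem square_eq {i : C} (hi : π i = vP) : i * i = t := by
  obtain ⟨hv2, hv1, hv3, hv4, hv5⟩ := vP_facts
  have h2 : π (i * i) = 1 := by rw [map_mul, hi, hv2]
  refine ((hker _).1 h2).resolve_left fun e => ?_
  obtain ⟨h, hh, -⟩ := exists_lift_cube htc ht π hπ hker
  set j := h * i * h⁻¹ with hj
  have hjπ : π j = cP * vP * cP⁻¹ := by rw [hj, map_mul, map_mul, map_inv, hh, hi]
  have hjj : j * j = 1 := by rw [hj, show h * i * h⁻¹ * (h * i * h⁻¹) = h * (i * i) * h⁻¹ by group, e]; group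
  have hi1 : π i ≠ 1 := hi ▸ hv1
  have hit : i ≠ t := fun e' => hi1 ((hker i).2 (Or.inr e'))
  have hjt : j ≠ t := fun e' => hv4 (hjπ ▸ (hker j).2 (Or.inr e'))
  have hcomm : Commute i j := by
    have hij : π (i * j) = π (h * j * h⁻¹) := by
      simp only [map_mul, map_inv, hi, hh, hj]; exact hv5.symm
    have hsq : i * j * (i * j) = 1 := by
      have hk : h * j * h⁻¹ * (h * j * h⁻¹) = 1 := by
        rw [show h * j * h⁻¹ * (h * j * h⁻¹) = h * (j * j) * h⁻¹ by group, hjj]; group
      rcases eq_or_mul htc ht π hker hij with e' | e'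
      · rw [e', hk]
      · rw [e']
        set a := h * j * h⁻¹
        rw [show a * t * (a * t) = a * (t * a) * t by group, (htc a).eq,
          show a * (a * t) * t = a * a * (t * t) by group, hk, mul_self_of_two ht, one_mul]
    show i * j = j * i
    rw [eq_inv_of_mul_eq_one_left hsq, mul_inv_rev, inv_eq_of_mul_eq_one_left e,
      inv_eq_of_mul_eq_one_left hjj]
  exact hno i j (two_of_mul_self e fun e' => hi1 (by rw [e', map_one]))
    (two_of_mul_self hjj fun e' => hv4 (by rw [← hjπ, e', map_one])) hcomm hit hjt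
    (fun e' => hv3 (by rw [← hjπ, e', hi])) fun e' => hv3 (by
      rw [← hjπ, e', map_mul, (hker t).2 (Or.inr rfl), one_mul, hi])

include htc ht hker hπ hno in
theorem exists_rels {s : C} (hs : orderOf s = 2) (hsπ : π s = sP) :
    ∃ i j h u : C, OddPre.GLTwoThree.Rels i j h u ∧ closure ({i, j, h, u} : Set C) = ⊤ := by
  obtain ⟨-, -, -, -, hv5⟩ := vP_facts
  obtain ⟨hs1, hs2⟩ := sP_facts
  obtain ⟨h, hh, hh3⟩ := exists_lift_cube htc ht π hπ hker
  obtain ⟨i₀, hi₀⟩ := hπ vP
  have htt := mul_self_of_two ht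
  have hss := mul_self_of_two hs
  have hπt : π t = 1 := (hker t).2 (Or.inr rfl)
  have tl : ∀ a b : C, a * t * b = a * b * t := fun a b => by rw [mul_assoc, (htc b).eq, ← mul_assoc]
  have ttr : ∀ a : C, a * t * t = a := fun a => by rw [mul_assoc, htt, mul_one]
  -- normalise the lift
  obtain ⟨i, j, hiπ, hij, hjh⟩ : ∃ i j : C, π i = vP ∧ h * i * h⁻¹ = j ∧ h * j * h⁻¹ = i * j := by
    have e : π (h * (h * i₀ * h⁻¹) * h⁻¹) = π (i₀ * (h * i₀ * h⁻¹)) := by
      simp only [map_mul, map_inv, hh, hi₀]; exact hv5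
    rcases eq_or_mul htc ht π hker e with e' | e'
    · exact ⟨i₀, _, hi₀, rfl, e'⟩
    · refine ⟨i₀ * t, _, by rw [map_mul, hi₀, hπt, mul_one], rfl, ?_⟩
      have a1 : h * (i₀ * t) * h⁻¹ = h * i₀ * h⁻¹ * t := by rw [← mul_assoc, tl]
      rw [a1, show h * (h * i₀ * h⁻¹ * t) * h⁻¹ = h * (h * i₀ * h⁻¹) * t * h⁻¹ by group, tl, e', ttr,
        ← mul_assoc (i₀ * t), tl i₀, ttr]
  have hjπ : π j = cP * vP * cP⁻¹ := by rw [← hij, map_mul, map_mul, map_inv, hh, hiπ]
  have hii := square_eq htc ht hno π hπ hker hiπ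
  have hjj : j * j = t := by
    rw [← hij, show h * i * h⁻¹ * (h * i * h⁻¹) = h * (i * i) * h⁻¹ by group, hii, ← (htc h).eq,
      mul_inv_cancel_right]
  have hkk : i * j * (i * j) = t := by
    rw [← hjh, show h * j * h⁻¹ * (h * j * h⁻¹) = h * (j * j) * h⁻¹ by group, hjj, ← (htc h).eq,
      mul_inv_cancel_right]
  have hinv_i : i⁻¹ = i * t := inv_eq_of_mul_eq_one_right (by rw [← mul_assoc, hii, htt])
  have hinv_j : j⁻¹ = j * t := inv_eq_of_mul_eq_one_right (by rw [← mul_assoc, hjj, htt])
  have hji : j * i = i * j * t := by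
    calc j * i = i⁻¹ * (i * j * (i * j)) * j⁻¹ := by group
      _ = i * t * t * (j * t) := by rw [hkk, hinv_i, hinv_j]
      _ = i * j * t := by rw [ttr, mul_assoc]
  have hhi : h * i = j * h := by rw [← hij, inv_mul_cancel_right]
  have hhj : h * j = i * j * h := by rw [← hjh, inv_mul_cancel_right]
  have hhk : h * (i * j) = i * h := by
    rw [← mul_assoc, hhi, mul_assoc, hhj]
    simp only [← mul_assoc]
    rw [hji, tl, show i * j * j = i * (j * j) by group, hjj, ttr]
  -- the involution inverts `h`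
  have hshs : s * h * s = h * h := by
    have e : π (s * h * s) = π (h * h) := by
      rw [map_mul, map_mul, map_mul, hh, hsπ, hs1]
    refine (eq_or_mul htc ht π hker e).resolve_right fun e' => ?_
    have c1 : s * h * s * (s * h * s) * (s * h * s) = 1 := by
      calc s * h * s * (s * h * s) * (s * h * s) = s * h * (s * s) * h * (s * s) * h * s := by group
        _ = s * (h * h * h) * s := by rw [hss]; group
        _ = 1 := by rw [hh3, mul_one, hss]
    rw [e'] at c1
    have c2 : ∀ w : C, w * t * (w * t) * (w * t) = w * w * w * t := fun w => by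
      rw [show w * t * (w * t) * (w * t) = w * (t * w) * (t * w) * t by group, (htc w).eq,
        show w * (w * t) * (w * t) * t = w * w * (t * w) * (t * t) by group, (htc w).eq, htt, mul_one,
        ← mul_assoc]
    rw [c2, show h * h * (h * h) * (h * h) = (h * h * h) * (h * h * h) by group, hh3, one_mul,
      one_mul] at c1
    exact ne_one_of_two ht c1
  have hsis : s * i * s = j * t := by
    have e : π (s * i * s) = π j := by
      rw [map_mul, map_mul, hsπ, hiπ, hjπ, hs2]
    refine (eq_or_mul htc ht π hker e).resolve_left fun e' => ?_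
    have hsjs : s * j * s = i := by
      rw [← e']
      calc s * (s * i * s) * s = (s * s) * i * (s * s) := by group
        _ = i := by rw [hss, one_mul, mul_one]
    have e2 := congrArg (fun x => s * x * s) hhj
    have el : s * (h * j) * s = h * h * i := by
      rw [show s * (h * j) * s = s * h * (s * s) * j * s by rw [hss]; group,
        show s * h * (s * s) * j * s = s * h * s * (s * j * s) by group, hshs, hsjs]
    have er : s * (i * j * h) * s = j * i * (h * h) := by
      rw [show s * (i * j * h) * s = s * i * (s * s) * j * (s * s) * h * s by rw [hss]; group,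
        show s * i * (s * s) * j * (s * s) * h * s = s * i * s * (s * j * s) * (s * h * s) by group,
        hshs, hsjs, e']
    have e3 : h * h * i = i * j * (h * h) := by
      rw [mul_assoc, hhi, ← mul_assoc, hhj, mul_assoc]
    rw [el, er, e3, hji] at e2
    have e4 : i * j * (h * h) * t = i * j * (h * h) * 1 := by
      rw [mul_one, ← tl]; exact e2.symm
    exact ne_one_of_two ht (mul_left_cancel e4)
  have hsjs : s * j * s = i * t := by
    have hj' : j = s * i * s * t := by rw [hsis, ttr]
    rw [hj']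
    calc s * (s * i * s * t) * s = (s * s) * i * s * (t * s) := by group
      _ = (s * s) * i * s * (s * t) := by rw [(htc s).eq]
      _ = (s * s) * i * (s * s) * t := by group
      _ = i * t := by rw [hss, one_mul, mul_one]
  set u := s * (i * j) with hu
  refine ⟨i, j, h, u, ⟨?_, ?_, ?_, ?_, hhi, hhj, ?_, ?_, ?_, ?_⟩, ?_⟩
  · rw [show i ^ 4 = (i * i) * (i * i) by simp only [pow_succ, pow_zero, one_mul, mul_assoc], hii, htt]
  · rw [pow_two, pow_two, hjj, hii]
  · rw [show i ^ 3 = i * i * i by simp only [pow_succ, pow_zero, one_mul], hii, hji, (htc i).eq, mul_assoc, mul_assoc,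
      (htc j).eq]
  · rw [show h ^ 3 = h * h * h by simp only [pow_succ, pow_zero, one_mul], hh3]
  · calc u * u = s * i * (s * s) * j * s * (i * j) := by rw [hu, hss]; group
      _ = (s * i * s) * (s * j * s) * (i * j) := by group
      _ = j * t * (i * t) * (i * j) := by rw [hsis, hsjs]
      _ = j * (i * i) * j := by simp only [← mul_assoc, tl, ttr]
      _ = 1 := by rw [hii, tl, hjj, htt]
  · have a1 : i * j * i = j := by
      rw [mul_assoc, hji, ← mul_assoc, ← mul_assoc, hii, (htc j).eq, ttr]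
    calc u * i = s * (i * j * i) := by rw [hu]; group
      _ = s * j := by rw [a1]
      _ = s * (i * t * (i * j)) := by
          simp only [← mul_assoc, tl]
          rw [show s * i * i = s * (i * i) by group, hii, tl, ttr]
      _ = s * (s * j * s) * (i * j) := by rw [hsjs]; group
      _ = (s * s) * j * u := by rw [hu]; group
      _ = j * u := by rw [hss, one_mul]
  · calc u * j = s * (i * (j * j)) := by rw [hu]; group
      _ = s * (i * t) := by rw [hjj]
      _ = s * (j * t * (i * j)) := by
          simp only [← mul_assoc, tl]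
          rw [show s * j * i = s * (j * i) by group, hji]
          simp only [← mul_assoc, tl, ttr]
          rw [show s * i * j * j = s * i * (j * j) by group, hjj]
      _ = s * (s * i * s) * (i * j) := by rw [hsis]; group
      _ = (s * s) * i * u := by rw [hu]; group
      _ = i * u := by rw [hss, one_mul]
  · have a2 : s * (h * h) * s = h := by
      calc s * (h * h) * s = s * h * (s * s) * h * s := by rw [hss]; group
        _ = (s * h * s) * (s * h * s) := by group
        _ = (h * h * h) * h := by rw [hshs]; group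
        _ = h := by rw [hh3, one_mul]
    have a3 : i * t * (i * j) = j := by
      simp only [← mul_assoc, tl]
      rw [hii, (htc j).eq, ttr]
    calc u * h = s * (i * j * h) := by rw [hu]; group
      _ = s * (h * (i * t * (i * j))) := by rw [a3, hhj]
      _ = s * (s * (h * h) * s * (s * j * s) * (i * j)) := by rw [a2, hsjs]; group
      _ = (s * s) * (h * h) * (s * s) * j * (s * (i * j)) := by group
      _ = h ^ 2 * j * u := by rw [hss, one_mul, mul_one, ← hu, pow_two]
  · refine eq_top_iff.2 fun x _ => ?_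
    set D := closure ({i, j, h, u} : Set C)
    have hiD : i ∈ D := subset_closure (by simp)
    have hjD : j ∈ D := subset_closure (by simp)
    have hhD : h ∈ D := subset_closure (by simp)
    have huD : u ∈ D := subset_closure (by simp)
    have htD : t ∈ D := hii ▸ mul_mem hiD hiD
    have hsD : s ∈ D := by
      have : s = u * (i * j)⁻¹ := by rw [hu, mul_inv_cancel_right]
      rw [this]
      exact mul_mem huD (inv_mem (mul_mem hiD hjD))
    obtain ⟨a, b, d, e, he⟩ := perm_words (π x)
    have hw : π x = π (i ^ (a : ℕ) * j ^ (b : ℕ) * h ^ (d : ℕ) * s ^ (e : ℕ)) := by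
      simp only [map_mul, map_pow, hiπ, hjπ, hh, hsπ, he]
    have hmem : i ^ (a : ℕ) * j ^ (b : ℕ) * h ^ (d : ℕ) * s ^ (e : ℕ) ∈ D :=
      mul_mem (mul_mem (mul_mem (pow_mem hiD _) (pow_mem hjD _)) (pow_mem hhD _)) (pow_mem hsD _)
    rcases eq_or_mul htc ht π hker hw with e' | e' <;> rw [e']
    · exact hmem
    · exact mul_mem hmem htD

include htc ht hno in
/-- Recognition of the centralizer. -/
theorem nonempty_equiv_gl (hC : Nat.card C = 48) (π₀ : C →* Equiv.Perm (Fin 4))
    (hπ₀ : Function.Surjective π₀) (hker₀ : ∀ x, π₀ x = 1 ↔ x = 1 ∨ x = t) {s : C}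
    (hs : orderOf s = 2) (hst : s ≠ t) : Nonempty (C ≃* GL (Fin 2) (ZMod 3)) := by
  have hne : π₀ s ≠ 1 := fun e => ((hker₀ s).1 e).elim (ne_one_of_two hs) hst
  obtain ⟨ρ, hρ⟩ := exists_conj_std (π₀ s) (by
    simp [hne, ← map_mul, mul_self_of_two hs])
  let π : C →* Equiv.Perm (Fin 4) := (MulAut.conj ρ).toMonoidHom.comp π₀
  have hπ : Function.Surjective π := (MulAut.conj ρ).surjective.comp hπ₀
  have hker : ∀ x, π x = 1 ↔ x = 1 ∨ x = t := fun x => by
    rw [← hker₀]
    exact (MulAut.conj ρ).map_eq_one_iff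
  rcases hρ with hρ | hρ
  · obtain ⟨i, j, h, u, hr, hcl⟩ := exists_rels htc ht hno π hπ hker hs hρ
    exact OddPre.GLTwoThree.nonempty_equiv hr hcl hC.ge
  · exact absurd ((mul_self_of_two hs).symm.trans (square_eq htc ht hno π hπ hker hρ))
      (ne_one_of_two ht).symm

end Abstract

section Main

variable {G : Type u} [Group G] [Finite G] [IsSimpleGroup G]

/-- The centralizer of some involution is `GL (2, 3)`. -/
theorem exists_equiv_gl (hF : InvFacts G) :
    ∃ t : G, orderOf t = 2 ∧ Nonempty (centralizer ({t} : Set G) ≃* GL (Fin 2) (ZMod 3)) := by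
  classical
  haveI := Fact.mk Nat.prime_two
  haveI := Fact.mk Nat.prime_three
  obtain ⟨t₀, ht₀⟩ := exists_prime_orderOf_dvd_card' (G := G) 2 (by rw [hF.card_eq]; norm_num)
  obtain ⟨t, ht, x₀, y₀, hxt, hyt, hx3, hy3, hxy⟩ : ∃ t : G, orderOf t = 2 ∧ ∃ x y : G, Commute x t ∧
      Commute y t ∧ orderOf x = 3 ∧ orderOf y = 3 ∧ y ∉ zpowers x := by
    by_contra hc
    push_neg at hc
    exact false_of_unique_three hF hc ht₀
  refine ⟨t, ht, ?_⟩
  set C := centralizer ({t} : Set G) with hCdef
  have hC : Nat.card C = 48 := hF.card_cent t ht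
  set T : C := ⟨t, mem_centralizer_singleton_iff.2 rfl⟩ with hT
  have hTc : ∀ x : C, Commute T x := fun x =>
    Subtype.ext (mem_centralizer_singleton_iff.1 x.2).symm
  have hT2 : orderOf T = 2 := by rw [← Subgroup.orderOf_coe]; exact ht
  have hcomm : ∀ x : C, Commute t (x : G) := fun x => congrArg Subtype.val (hTc x).eq
  have hno : ∀ a b : C, orderOf a = 2 → orderOf b = 2 → Commute a b → a ≠ T → b ≠ T → b ≠ a →
      b ≠ T * a → False := fun a b ha hb hab hat hbt hba hbta =>
    not_three_comm hF ht (by rw [Subgroup.orderOf_coe, ha]) (by rw [Subgroup.orderOf_coe, hb])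
      (hcomm a) (hcomm b) (congrArg Subtype.val hab.eq) (fun e => hat (Subtype.ext e.symm))
      (fun e => hbt (Subtype.ext e)) (fun e => hba (Subtype.ext e))
      (fun e => hbta (Subtype.ext e))
  have hno8 : ∀ (a : C), orderOf a = 2 → a ≠ T → ∀ M : Subgroup C, (∀ m ∈ M, Commute m a) →
      ¬ 8 ∣ Nat.card M := by
    intro a ha hat M hM h8
    refine not_eight hF ht (by rw [Subgroup.orderOf_coe, ha]) (fun e => hat (Subtype.ext e.symm))
      (hcomm a) (M := M.map C.subtype) (Subgroup.map_subtype_le _) ?_ ?_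
    · rintro _ ⟨m, hm, rfl⟩
      exact mem_centralizer_singleton_iff.2 (congrArg Subtype.val (hM m hm).eq)
    · rwa [← Nat.card_congr (M.equivMapOfInjective _ C.subtype_injective).toEquiv]
  set X : C := ⟨x₀, mem_centralizer_singleton_iff.2 hxt.eq⟩ with hX
  set Y : C := ⟨y₀, mem_centralizer_singleton_iff.2 hyt.eq⟩ with hY
  have hXo : orderOf X = 3 := by rw [← Subgroup.orderOf_coe]; exact hx3
  have hYo : orderOf Y = 3 := by rw [← Subgroup.orderOf_coe]; exact hy3
  have hYX : Y ∉ zpowers X := fun h => hxy (by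
    obtain ⟨i, hi⟩ := mem_zpowers_iff.1 h
    exact mem_zpowers_iff.2 ⟨i, congrArg Subtype.val hi⟩)
  -- the Sylow 3-subgroups
  have hS3 : ∀ P : Sylow 3 C, Nat.card P = 3 := fun P => by
    rw [Sylow.card_eq_multiplicity, hC, show (48 : ℕ) = 16 * 3 ^ 1 by norm_num,
      Nat.factorization_mul (by norm_num) (by norm_num), Finsupp.add_apply,
      Nat.Prime.factorization_pow Nat.prime_three, Finsupp.single_eq_same,
      Nat.factorization_eq_zero_of_not_dvd (show ¬ 3 ∣ 16 by norm_num)]
    norm_num
  have hzpS : ∀ y : C, orderOf y = 3 → ∃ P : Sylow 3 C, (P : Subgroup C) = zpowers y := by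
    intro y hy
    obtain ⟨P, hP⟩ := (IsPGroup.of_card (p := 3) (n := 1)
      (show Nat.card (zpowers y) = 3 ^ 1 by rw [Nat.card_zpowers, hy]; norm_num)).exists_le_sylow
    exact ⟨P, (Subgroup.eq_of_le_of_card_ge hP (by rw [hS3 P, Nat.card_zpowers, hy])).symm⟩
  obtain ⟨PX, hPX⟩ := hzpS X hXo
  obtain ⟨PY, hPY⟩ := hzpS Y hYo
  have hPne : PX ≠ PY := fun e => hYX (hPX ▸ e.symm ▸ hPY.symm ▸ mem_zpowers Y :
    Y ∈ zpowers X)
  have hidx : ∀ P : Sylow 3 C, (P : Subgroup C).index = 16 := fun P => by
    have := (P : Subgroup C).card_mul_index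
    rw [hS3 P, hC] at this
    omega
  have hn : Nat.card (Sylow 3 C) = 4 := by
    have hd : Nat.card (Sylow 3 C) ∣ 2 ^ 4 := by
      have := PX.card_dvd_index
      rw [hidx] at this; norm_num; exact this
    have hm : Nat.card (Sylow 3 C) ≡ 1 [MOD 3] := card_sylow_modEq_one 3 C
    have h2 : 1 < Nat.card (Sylow 3 C) :=
      Finite.one_lt_card_iff_nontrivial.2 ⟨PX, PY, hPne⟩
    have h16 : Nat.card (Sylow 3 C) ≠ 16 := by
      intro e
      have h := card_sylow_eq PX
      rw [e] at h
      have h3 := (normalizer ((PX : Subgroup C) : Set C)).card_mul_index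
      rw [← h, hC] at h3
      have hTN : T ∈ normalizer ((PX : Subgroup C) : Set C) := Subgroup.mem_normalizer_iff.2 fun z => by
        rw [(hTc z).eq, mul_inv_cancel_right]
      have := Subgroup.orderOf_dvd_natCard _ hTN
      rw [hT2, show Nat.card (normalizer ((PX : Subgroup C) : Set C)) = 3 by omega] at this
      norm_num at this
    obtain ⟨i, hi, e⟩ := (Nat.dvd_prime_pow Nat.prime_two).1 hd
    rw [e] at hm h2 h16 ⊢
    interval_cases i <;> simp_all [Nat.ModEq]
  have hNc : ∀ P : Sylow 3 C, Nat.card (normalizer ((P : Subgroup C) : Set C)) = 12 := fun P => by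
    have h3 := (normalizer ((P : Subgroup C) : Set C)).card_mul_index
    rw [← card_sylow_eq P, hn, hC] at h3
    omega
  have hfix : ∀ (g : C) (P : Sylow 3 C), g • P = P → g ∈ normalizer ((P : Subgroup C) : Set C) :=
    fun g P h => Sylow.smul_eq_iff_mem_normalizer.1 h
  have hfix3 : ∀ y : C, orderOf y = 3 → ∀ P : Sylow 3 C, y • P = P → (P : Subgroup C) = zpowers y := by
    intro y hy P h
    have hp : IsPGroup 3 (zpowers y) := IsPGroup.of_card (n := 1) (by rw [Nat.card_zpowers, hy]; norm_num)
    have hle : zpowers y ≤ normalizer ((P : Subgroup C) : Set C) := zpowers_le.2 (hfix y P h)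
    have he := P.is_maximal' (hp.to_sup_of_normal_right' P.2 hle) le_sup_right
    exact (Subgroup.eq_of_le_of_card_ge (he ▸ le_sup_left : zpowers y ≤ (P : Subgroup C))
      (by rw [hS3 P, Nat.card_zpowers, hy])).symm
  let π₁ : C →* Equiv.Perm (Sylow 3 C) := MulAction.toPermHom C (Sylow 3 C)
  letI : Fintype (Sylow 3 C) := Fintype.ofFinite _
  let e4 : Sylow 3 C ≃ Fin 4 := Fintype.equivFinOfCardEq (by rw [← Nat.card_eq_fintype_card, hn])
  let π : C →* Equiv.Perm (Fin 4) := e4.permCongrHom.toMonoidHom.comp π₁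
  have hπ1 : ∀ x : C, π x = 1 ↔ ∀ P : Sylow 3 C, x • P = P := fun x => by
    show e4.permCongrHom (π₁ x) = 1 ↔ _
    rw [MulEquiv.map_eq_one_iff, Equiv.Perm.ext_iff]
    rfl
  have hX1 : π X ≠ 1 := fun h => hPne (Sylow.ext
    ((hfix3 X hXo PX ((hπ1 X).1 h PX)).trans (hfix3 X hXo PY ((hπ1 X).1 h PY)).symm))
  have h3r : 3 ∣ Nat.card π.range := by
    have h := Subgroup.orderOf_dvd_natCard π.range (x := π X) ⟨X, rfl⟩
    rwa [orderOf_eq_prime (p := 3) (by rw [← map_pow, ← hXo, pow_orderOf_eq_one, map_one]) hX1] at h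
  have h4r : 4 ∣ Nat.card π.range := by
    have e : Nat.card π.range = π.ker.index := (Subgroup.index_ker π).symm
    rw [e]
    refine dvd_trans ?_ (Subgroup.index_dvd_of_le (H := π.ker)
      (K := normalizer ((PX : Subgroup C) : Set C)) fun g hg => hfix g PX ((hπ1 g).1 hg PX))
    rw [← card_sylow_eq PX, hn]
  have hTker : T ∈ π.ker := (hπ1 T).2 fun P => Sylow.smul_eq_iff_mem_normalizer.2
    (Subgroup.mem_normalizer_iff.2 fun z => by rw [(hTc z).eq, mul_inv_cancel_right])
  have hkm : Nat.card π.ker * Nat.card π.range = 48 := by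
    rw [← Subgroup.index_ker, Subgroup.card_mul_index, hC]
  have hr24 : Nat.card π.range ∣ 24 := by
    have := Subgroup.card_subgroup_dvd_card π.range
    rwa [Nat.card_perm, Nat.card_fin, show Nat.factorial 4 = 24 from rfl] at this
  have hker2 : Nat.card π.ker = 2 ∨ Nat.card π.ker = 4 := by
    have hkey : ∀ r ∈ Nat.divisors 24, (r % 3 == 0 && r % 4 == 0) = true → r = 12 ∨ r = 24 := by decide
    rcases hkey _ (Nat.mem_divisors.2 ⟨hr24, by norm_num⟩)
      (by rw [Nat.mod_eq_zero_of_dvd h3r, Nat.mod_eq_zero_of_dvd h4r]; rfl) with e | e <;>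
      rw [e] at hkm <;> omega
  obtain ⟨⟨s, hs, hst⟩⟩ : Nonempty {s : C // orderOf s = 2 ∧ s ≠ T} := by
    obtain ⟨⟨s, h1, h2, h3⟩⟩ := (Nat.card_pos_iff.1 (show 0 < Nat.card
      {s : G // orderOf s = 2 ∧ s ≠ t ∧ s * t = t * s} by have := hF.six t ht; omega)).1
    exact ⟨⟨⟨s, mem_centralizer_singleton_iff.2 h3⟩, by rw [← Subgroup.orderOf_coe]; exact h1,
      fun e => h2 (congrArg Subtype.val e)⟩⟩
  rcases hker2 with hk | hk
  · refine nonempty_equiv_gl hTc hT2 hno hC π ?_ (fun x => ?_) hs hst
    · rw [← MonoidHom.range_eq_top]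
      refine Subgroup.eq_top_of_card_eq _ ?_
      rw [hk] at hkm
      rw [Nat.card_perm, Nat.card_fin, show Nat.factorial 4 = 24 from rfl]
      omega
    · have hle : zpowers T ≤ π.ker := zpowers_le.2 hTker
      have heq := Subgroup.eq_of_le_of_card_ge hle (by rw [hk, Nat.card_zpowers, hT2])
      constructor
      · intro hx
        have hx' : x ∈ zpowers T := heq.symm ▸ (MonoidHom.mem_ker.2 hx)
        obtain ⟨i, rfl⟩ := mem_zpowers_iff.1 hx'
        rcases Int.emod_two_eq_zero_or_one i with e | e <;>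
          rw [← zpow_mod_orderOf, hT2, show ((2 : ℕ) : ℤ) = 2 from rfl, e]
        · exact Or.inl (zpow_zero T)
        · exact Or.inr (zpow_one T)
      · rintro (rfl | rfl)
        · exact map_one π
        · exact hTker
  exfalso
  have hK4 : ∀ z ∈ π.ker, ∀ w ∈ π.ker, z * w = w * z := fun z hz w hw => congrArg Subtype.val
    ((IsPGroup.commutative_of_card_eq_prime_sq (p := 2) (G := π.ker) (by rw [hk]; norm_num))
      ⟨z, hz⟩ ⟨w, hw⟩)
  by_cases hinv : ∃ w ∈ π.ker, orderOf w = 2 ∧ w ≠ T
  · obtain ⟨w, hw, hw2, hwT⟩ := hinv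
    have hb := card_le_two_mul (⊤ : Subgroup C) (centralizer ({w} : Set C)) fun a _ b _ ha hb => by
      have key : ∀ g : C, g ∉ centralizer ({w} : Set C) → g * w * g⁻¹ = T * w := by
        intro g hg
        have hm : g * w * g⁻¹ ∈ π.ker := π.normal_ker.conj_mem w hw g
        let four : Fin 4 → π.ker := ![1, ⟨T, hTker⟩, ⟨w, hw⟩, ⟨T * w, mul_mem hTker hw⟩]
        have hfour : Function.Injective four := by
          intro a b hab
          have h := congrArg (fun z : π.ker => (z : C)) hab
          fin_cases a <;> fin_cases b <;> simp [four] at h ⊢ <;>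
            first
              | exact ne_one_of_two hT2 h | exact ne_one_of_two hT2 h.symm
              | exact ne_one_of_two hw2 h | exact ne_one_of_two hw2 h.symm
              | exact hwT h | exact hwT h.symm
              | exact hwT ((inv_of_two hT2).symm.trans (eq_inv_of_mul_eq_one_right h).symm).symm
              | exact hwT ((inv_of_two hT2).symm.trans (eq_inv_of_mul_eq_one_right h.symm).symm).symm
        obtain ⟨i, hi⟩ := (hfour.bijective_of_nat_card_le (by rw [hk]; simp)).2 ⟨_, hm⟩
        have e := congrArg (fun z : π.ker => (z : C)) hi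
        fin_cases i <;> simp [four] at e
        · exact absurd (conj_eq_one_iff.1 e.symm) (ne_one_of_two hw2)
        · exfalso
          refine hwT ?_
          calc w = g⁻¹ * (g * w * g⁻¹) * g := by group
            _ = g⁻¹ * T * g := by rw [← e]
            _ = T := by rw [mul_assoc, (hTc g).eq, inv_mul_cancel_left]
        · exact absurd (mem_centralizer_singleton_iff.2 (mul_inv_eq_iff_eq_mul.1 e.symm)) hg
        · exact e.symm
      refine mem_centralizer_singleton_iff.2 ?_
      calc a⁻¹ * b * w = a⁻¹ * (b * w * b⁻¹) * b := by group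
        _ = a⁻¹ * (a * w * a⁻¹) * b := by rw [key b hb, key a ha]
        _ = w * (a⁻¹ * b) := by group
    rw [Subgroup.card_top, hC, top_inf_eq] at hb
    have hd : Nat.card (centralizer ({w} : Set C)) ∣ 48 := hC ▸ Subgroup.card_subgroup_dvd_card _
    have hkey : ∀ d ∈ Nat.divisors 48, (decide (24 ≤ d) : Bool) = true → d % 8 = 0 := by decide
    exact hno8 w hw2 hwT (centralizer ({w} : Set C)) (fun m hm => mem_centralizer_singleton_iff.1 hm)
      (Nat.dvd_of_mod_eq_zero (hkey _ (Nat.mem_divisors.2 ⟨hd, by norm_num⟩)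
        (decide_eq_true (by omega))))
  push_neg at hinv
  obtain ⟨v, hv, hv1, hvT⟩ : ∃ v ∈ π.ker, v ≠ 1 ∧ v ≠ T := by
    by_contra hc
    push_neg at hc
    have hinj : Function.Injective fun w : π.ker => decide ((w : C) = 1) := by
      intro a b hab
      simp only [decide_eq_decide] at hab
      by_cases ha : (a : C) = 1
      · exact Subtype.ext (ha.trans (hab.1 ha).symm)
      · exact Subtype.ext ((hc a a.2 ha).trans (hc b b.2 fun hb => ha (hab.2 hb)).symm)
    have h2 := Nat.card_le_card_of_injective _ hinj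
    rw [Nat.card_eq_fintype_card (α := Bool), Fintype.card_bool] at h2
    omega
  have hv4 : orderOf v = 4 := by
    have hd : orderOf v ∣ 2 ^ 2 := by
      have := Subgroup.orderOf_dvd_natCard π.ker hv
      rw [hk] at this; norm_num; exact this
    obtain ⟨i, hi, e⟩ := (Nat.dvd_prime_pow Nat.prime_two).1 hd
    interval_cases i <;> norm_num at e
    · exact absurd e hv1
    · exact absurd (hinv v hv e) hvT
    · exact e
  have hKv : π.ker = zpowers v := (Subgroup.eq_of_le_of_card_ge (zpowers_le.2 hv)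
    (by rw [hk, Nat.card_zpowers, hv4])).symm
  set M := centralizer ({v} : Set C) with hM
  have hM2 : 24 ≤ Nat.card M := by
    have hb := card_le_two_mul (⊤ : Subgroup C) M fun a _ b _ ha hb => by
      have key : ∀ g : C, g ∉ M → g * v * g⁻¹ = v⁻¹ := by
        intro g hg
        have hm : g * v * g⁻¹ ∈ zpowers v := hKv ▸ π.normal_ker.conj_mem v hv g
        obtain ⟨i, hi⟩ := mem_zpowers_iff.1 hm
        have ho : orderOf (v ^ i) = 4 := by
          rw [hi, show g * v * g⁻¹ = MulAut.conj g v from rfl, MulEquiv.orderOf_eq, hv4]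
        rw [← zpow_mod_orderOf, hv4] at hi ho
        have h0 := Int.emod_nonneg i (show ((4 : ℕ) : ℤ) ≠ 0 by norm_num)
        have h1 := Int.emod_lt_of_pos i (show (0 : ℤ) < ((4 : ℕ) : ℤ) by norm_num)
        interval_cases h : i % ((4 : ℕ) : ℤ)
        · simp at ho
        · exact absurd (mem_centralizer_singleton_iff.2 (mul_inv_eq_iff_eq_mul.1 (by
            rw [← hi, zpow_one]))) hg
        · rw [show (2 : ℤ) = ((2 : ℕ) : ℤ) from rfl, zpow_natCast,
            orderOf_pow' v (by norm_num : (2 : ℕ) ≠ 0), hv4] at ho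
          norm_num at ho
        · rw [← hi, eq_inv_iff_mul_eq_one, show (3 : ℤ) = ((3 : ℕ) : ℤ) from rfl, zpow_natCast,
            ← pow_succ, show 3 + 1 = orderOf v by rw [hv4], pow_orderOf_eq_one]
      refine mem_centralizer_singleton_iff.2 ?_
      calc a⁻¹ * b * v = a⁻¹ * (b * v * b⁻¹) * b := by group
        _ = a⁻¹ * (a * v * a⁻¹) * b := by rw [key b hb, key a ha]
        _ = v * (a⁻¹ * b) := by group
    rw [Subgroup.card_top, hC, top_inf_eq] at hb
    omega
  have hMd : Nat.card M ∣ 48 := hC ▸ Subgroup.card_subgroup_dvd_card _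
  have hMc : Nat.card M = 24 ∨ Nat.card M = 48 := by
    have hkey : ∀ d ∈ Nat.divisors 48, (decide (24 ≤ d) : Bool) = true → d = 24 ∨ d = 48 := by decide
    exact hkey _ (Nat.mem_divisors.2 ⟨hMd, by norm_num⟩) (decide_eq_true hM2)
  rcases hMc with hMc | hMc
  swap
  · have hvs : Commute v s := by
      have : M = ⊤ := Subgroup.eq_top_of_card_eq _ (by rw [hMc, hC])
      exact (show Commute s v from mem_centralizer_singleton_iff.1 (this ▸ mem_top s : s ∈ M)).symm
    have hsn : zpowers s ≤ normalizer ((zpowers v : Subgroup C) : Set C) := by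
      rw [zpowers_le, Subgroup.mem_normalizer_iff]
      intro z
      constructor
      · intro hz
        obtain ⟨i, rfl⟩ := mem_zpowers_iff.1 hz
        rw [(hvs.zpow_left i).symm.eq, mul_inv_cancel_right]
        exact zpow_mem (mem_zpowers v) i
      · intro hz
        obtain ⟨i, hi⟩ := mem_zpowers_iff.1 hz
        refine mem_zpowers_iff.2 ⟨i, ?_⟩
        calc v ^ i = s⁻¹ * (s * v ^ i) := by group
          _ = s⁻¹ * (v ^ i * s) := by rw [(hvs.zpow_left i).eq]
          _ = z := by rw [hi]; group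
    have hsv : s ∉ zpowers v := fun h => hst (hinv s (hKv ▸ h) hs)
    have hd : zpowers s ⊓ zpowers v = ⊥ := by
      rw [eq_bot_iff]
      intro z hz
      obtain ⟨hz1, hz2⟩ := mem_inf.1 hz
      obtain ⟨i, rfl⟩ := mem_zpowers_iff.1 hz1
      rcases Int.emod_two_eq_zero_or_one i with e | e
      · rw [mem_bot, ← zpow_mod_orderOf, hs, show ((2 : ℕ) : ℤ) = 2 from rfl, e, zpow_zero]
      · rw [← zpow_mod_orderOf, hs, show ((2 : ℕ) : ℤ) = 2 from rfl, e, zpow_one] at hz2
        exact absurd hz2 hsv
    have h8 := Cfsg.Agent.Modules.card_sup_mul_card_inf hsn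
    rw [hd, Subgroup.card_bot, mul_one, Nat.card_zpowers, Nat.card_zpowers, hs, hv4] at h8
    refine hno8 s hs hst (zpowers s ⊔ zpowers v) (fun m hm => ?_) (by rw [h8])
    exact mem_centralizer_singleton_iff.1 ((sup_le (zpowers_le.2 (mem_centralizer_singleton_iff.2 rfl))
      (zpowers_le.2 (mem_centralizer_singleton_iff.2 hvs.eq)) :
        zpowers s ⊔ zpowers v ≤ centralizer ({s} : Set C)) hm)
  have hMi : M.index = 2 := by
    have := M.card_mul_index
    rw [hMc, hC] at this
    omega
  have hPM : ∀ P : Sylow 3 C, (P : Subgroup C) ≤ M := by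
    intro P g hg
    have h2 := Subgroup.mul_self_mem_of_index_two hMi g
    have hg3 : g ^ 3 = 1 := by
      have := congrArg Subtype.val (pow_card_eq_one' (x := (⟨g, hg⟩ : (P : Subgroup C))))
      rw [hS3 P] at this
      simpa using this
    rw [show g = (g * g) ^ 2 by rw [← pow_two, ← pow_mul, pow_succ, hg3, one_mul]]
    exact pow_mem h2 2
  have hn4 : 4 ≤ Nat.card (Sylow 3 M) := by
    rw [← hn]
    refine Nat.card_le_card_of_injective (fun P => P.subtype (hPM P)) fun P Q e => Sylow.ext ?_
    have := congrArg (fun S : Sylow 3 M => (S : Subgroup M).map M.subtype) e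
    simpa [Sylow.coe_subtype, Subgroup.subgroupOf_map_subtype, inf_eq_left.2 (hPM P),
      inf_eq_left.2 (hPM Q)] using this
  let Q := PX.subtype (hPM PX)
  have hQi : (Q : Subgroup M).index = 8 := by
    have := (Q : Subgroup M).card_mul_index
    rw [hMc, show Nat.card (Q : Subgroup M) = 3 by
      rw [show ((Q : Subgroup M)) = (PX : Subgroup C).subgroupOf M from Sylow.coe_subtype _ _,
        Nat.card_congr (Subgroup.subgroupOfEquivOfLe (hPM PX)).toEquiv, hS3 PX]] at this
    omega
  have hn' : Nat.card (Sylow 3 M) = 4 := by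
    have hd : Nat.card (Sylow 3 M) ∣ 2 ^ 3 := by
      have := Q.card_dvd_index
      rw [hQi] at this; norm_num; exact this
    have hm : Nat.card (Sylow 3 M) ≡ 1 [MOD 3] := card_sylow_modEq_one 3 M
    obtain ⟨i, hi, e⟩ := (Nat.dvd_prime_pow Nat.prime_two).1 hd
    rw [e] at hm hn4 ⊢
    interval_cases i <;> first | omega | (norm_num [Nat.ModEq] at hm; done) | norm_num
  have hNQ : Nat.card (normalizer ((Q : Subgroup M) : Set M)) = 6 := by
    have := (normalizer ((Q : Subgroup M) : Set M)).card_mul_index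
    rw [← card_sylow_eq Q, hn', hMc] at this
    omega
  have hvM : v ∈ M := mem_centralizer_singleton_iff.2 rfl
  have hvQ : (⟨v, hvM⟩ : M) ∈ normalizer ((Q : Subgroup M) : Set M) := by
    have hvP := hfix v PX ((hπ1 v).1 hv PX)
    rw [Subgroup.mem_normalizer_iff] at hvP ⊢
    intro z
    rw [show ((Q : Subgroup M)) = (PX : Subgroup C).subgroupOf M from Sylow.coe_subtype _ _,
      Subgroup.mem_subgroupOf, Subgroup.mem_subgroupOf]
    simpa using hvP (z : C)
  have := Subgroup.orderOf_dvd_natCard _ hvQ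
  rw [← Subgroup.orderOf_coe, hNQ] at this
  change orderOf v ∣ 6 at this
  rw [hv4] at this
  norm_num at this

/-- A simple group of order 5616 is `SL (3, 3)`. -/
theorem nonempty_mulEquiv_SL (hcard : Nat.card G = 5616) :
    Nonempty (G ≃* Matrix.SpecialLinearGroup (Fin 3) (ZMod 3)) := by
  letI := Fintype.ofFinite G
  have hF : InvFacts G := ⟨hcard, fun g hg => (involution_facts hcard hg).1,
    fun g g' hg hg' => (involution_facts hcard hg).2.1 g' hg',
    fun g hg => (involution_facts hcard hg).2.2⟩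
  obtain ⟨t, ht, ⟨e⟩⟩ := exists_equiv_gl hF
  obtain ⟨Q, h1, h2, h3, h4, h5, h6⟩ := GLTwoThree.exists_parabolic e ht hcard
  exact GLTwoThree.Plane.nonempty_mulEquiv (⟨hcard, h1, h2, h4, h5, h6⟩ : GLTwoThree.Plane.IsParabolic Q)

end Main

end Cfsg.Agent.FGS75.L33
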