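import Cfsg.Agent.SmallGroups.ThreePrimes
import Cfsg.Agent.SmallGroups.Involution
import Cfsg.Agent.Char.DefectZero
import Cfsg.Agent.SuzukiZ.Bound
import Cfsg.Agent.Modules.Fixed
import Cfsg.Agent.SmallGroups.Exceptional

/-!
# Involutions in a simple group of order 5616

The principal series at the prime 13 has degrees `1, 12, 27` and four times `16`; all other degrees are divisible
by 13.  It follows that all involutions are conjugate with centralizers of order 48 and that each of them commutes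
with at least six others.
-/

set_option autoImplicit false
set_option linter.style.haveILetI false
set_option linter.unusedSectionVars false

namespace Cfsg.Agent.FGS75.L33

open Cfsg Subgroup
open scoped ComplexConjugate

universe u

variable {G : Type u} [Group G] [Fintype G]

/-- A lower bound for the values of a character on an abelian subgroup. -/
theorem sum_normSq_mod (A : Subgroup G) (hA : ∀ y ∈ A, ∀ z ∈ A, y * z = z * y) [DecidablePred (· ∈ A)]
    [DecidableEq G] {χ : G → ℂ} (hχ : Cfsg.IsCharacter G χ) {d : ℕ} (hd : χ 1 = d) :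
    ((d % Nat.card A : ℕ) : ℝ) * ((Nat.card A : ℝ) - (d % Nat.card A : ℕ)) ≤
      ∑ y ∈ Finset.univ.filter (fun y => y ∈ A ∧ y ≠ 1), Complex.normSq (χ y) := by
  classical
  letI : Fintype A := Fintype.ofFinite A
  have hc : ∀ y z : A, y * z = z * y := fun y z => Subtype.ext (hA y y.2 z z.2)
  obtain ⟨n, hn⟩ := CharInd.isCharacter_coef (Char.isCharacter_restrict hχ A)
  have hcard : Fintype.card (IrrCharacter A) = Nat.card A := by
    have h := Char.sum_irr_degree_sq (G := A)
    simp only [fun χ : IrrCharacter A => Char.irr_degree_one_of_comm hc χ.2, one_pow,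
      Finset.sum_const, nsmul_one, Finset.card_univ] at h
    exact_mod_cast h
  have hdn : (d : ℤ) = ∑ ξ, (n ξ : ℤ) := by
    have h := congrFun hn 1
    simp only [Finset.sum_apply, Pi.smul_apply, smul_eq_mul,
      fun χ : IrrCharacter A => Char.irr_degree_one_of_comm hc χ.2, mul_one,
      Subgroup.coe_one, hd] at h
    exact_mod_cast h
  set N : ℤ := (Nat.card A : ℤ) with hN
  set q : ℤ := (d : ℤ) / N
  set r : ℤ := ((d % Nat.card A : ℕ) : ℤ) with hr
  have hdiv : (d : ℤ) = N * q + r := by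
    rw [hr, Int.natCast_mod]
    exact (Int.mul_ediv_add_emod _ _).symm
  have h1 : r * (N - r) ≤ N * ∑ ξ, (n ξ : ℤ) ^ 2 - (d : ℤ) ^ 2 := by
    have h0 : 0 ≤ ∑ ξ, ((n ξ : ℤ) - q) * ((n ξ : ℤ) - q - 1) := Finset.sum_nonneg fun ξ _ => by
      rcases le_or_gt ((n ξ : ℤ) - q) 0 with h | h
      · exact mul_nonneg_of_nonpos_of_nonpos h (by omega)
      · exact mul_nonneg h.le (by omega)
    have hid : ∑ ξ, ((n ξ : ℤ) - q) * ((n ξ : ℤ) - q - 1) =
        ∑ ξ, (n ξ : ℤ) ^ 2 - (2 * q + 1) * ∑ ξ, (n ξ : ℤ) + N * (q * (q + 1)) := by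
      rw [Finset.mul_sum, ← Finset.sum_sub_distrib, hN, ← hcard, ← Finset.card_univ]
      rw [← smul_eq_mul (a := ((Finset.univ : Finset (IrrCharacter A)).card : ℤ))]
      rw [show ((Finset.univ : Finset (IrrCharacter A)).card : ℤ) • (q * (q + 1)) =
        ∑ ξ : IrrCharacter A, q * (q + 1) by rw [Finset.sum_const]; simp, ← Finset.sum_add_distrib]
      exact Finset.sum_congr rfl fun ξ _ => by ring
    rw [hid, ← hdn] at h0
    have hN0 : (0 : ℤ) ≤ N := by positivity
    have := mul_nonneg hN0 h0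
    rw [hdiv] at this ⊢
    nlinarith
  have h2 : (Nat.card A : ℝ) * ∑ ξ, (n ξ : ℝ) ^ 2 = ∑ y : A, Complex.normSq (χ y) := by
    have hn' : (fun x : A => χ x) = ∑ ξ, ((n ξ : ℤ) : ℂ) • (ξ : A → ℂ) := by
      rw [hn]; push_cast; rfl
    have e := CharInd.classInner_congr_card (φ := fun x : A => χ x) (ψ := fun x : A => χ x)
    rw [CharInd.genChar_classInner (a := fun ξ => (n ξ : ℤ)) (b := fun ξ => (n ξ : ℤ)) hn' hn'] at e
    simp only [Complex.mul_conj, ← Complex.ofReal_sum] at e
    have e2 := congrArg Complex.re e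
    simp only [Complex.mul_re, Complex.natCast_re, Complex.natCast_im, zero_mul, sub_zero,
      Complex.ofReal_re, Complex.intCast_re] at e2
    rw [← e2]
    push_cast
    simp only [sq]
  rw [show (Finset.univ.filter fun y : G => y ∈ A ∧ y ≠ 1) =
      (Finset.univ.filter fun y : G => y ∈ A).erase 1 by ext y; simp [and_comm],
    Finset.sum_erase_eq_sub (by simp [one_mem]),
    Finset.sum_subtype (Finset.univ.filter fun y : G => y ∈ A) (p := fun y => y ∈ A)
      (fun y => by simp), ← h2, hd, Complex.normSq_natCast]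
  have h1' : ((r : ℤ) : ℝ) * ((N : ℤ) - (r : ℤ) : ℝ) ≤
      (Nat.card A : ℝ) * ∑ ξ, (n ξ : ℝ) ^ 2 - (d : ℝ) ^ 2 := by
    rw [hN] at h1 ⊢
    exact_mod_cast h1
  rw [hr, hN] at h1'
  simp only [Int.cast_natCast] at h1'
  linarith

/-- The possible degrees of the principal series. -/
def degCands : List ℕ :=
  [2, 3, 4, 6, 8, 9, 12, 13, 16, 18, 24, 26, 27, 36, 39, 48, 52, 54, 72]

theorem mem_degCands : ∀ d < 75, (decide (1 < d) && 5616 % d == 0) = true →
    degCands.contains d = true := by decide +kernel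

theorem degrees_check : ∀ e ∈ [(1 : ℤ), -1], ∀ d ∈ degCands, ∀ f ∈ degCands, ∀ g ∈ degCands,
    ∀ a ∈ [(1 : ℤ), -1], ∀ b ∈ [(1 : ℤ), -1],
    (((d : ℤ) + 3 * e) % 13 == 0 && ((f : ℤ) - a) % 13 == 0 && ((g : ℤ) - b) % 13 == 0 &&
      1 + e * d + (a * f + b * g) == 0 && decide (1 + 4 * d ^ 2 + (f ^ 2 + g ^ 2) ≤ 5616)) = true →
      (e == -1 && d == 16 &&
        ((f == 12 && a == -1 && g == 27 && b == 1) || (f == 27 && a == 1 && g == 12 && b == -1))) = true := by
  decide +kernel

variable [IsSimpleGroup G] (hcard : Nat.card G = 5616)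

include hcard

theorem not_comm : ¬ IsMulCommutative G :=
  SmallGroups.not_isMulCommutative (by rw [hcard]; norm_num)

/-- The Sylow 13-subgroups. -/
theorem thirteen_data : ∃ P : Subgroup G, Nat.card P = 13 ∧
    Nat.card (centralizer (P : Set G)) = 13 ∧ Nat.card (normalizer (P : Set G)) = 13 * 3 := by
  have := Fact.mk (by norm_num : Nat.Prime 13)
  obtain ⟨n, k, -, hn, hn1, hk, hk1, hnk, hP, hC, hN⟩ := SmallGroups.exists_threePrime_data
    (not_comm hcard) Nat.prime_two Nat.prime_three (r := 13) (a := 4) (b := 3)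
    (by norm_num) (by norm_num) (by norm_num) (by rw [hcard]; norm_num)
  obtain rfl : k = 3 := by
    have hk12 : k ≤ 12 := Nat.le_of_dvd (by norm_num) hk
    interval_cases k <;> omega
  obtain ⟨P⟩ := (inferInstance : Nonempty (Sylow 13 G))
  exact ⟨P, hP P, hC P, hN P⟩

/-- The principal series and the values at involutions of the two non-exceptional members. -/
theorem exists_series :
    ∃ (A B : IrrCharacter G) (M : Fin 4 → IrrCharacter G) (R : Finset (IrrCharacter G)),
      (A : G → ℂ) 1 = 12 ∧ (B : G → ℂ) 1 = 27 ∧ (∀ i, (M i : G → ℂ) 1 = 16) ∧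
      (∀ F : IrrCharacter G → ℂ, ∑ χ, F χ =
        F (Char.trivialIrr G) + ∑ i, F (M i) + (F A + F B) + ∑ χ ∈ R, F χ) ∧
      (∀ χ ∈ R, ∃ m : ℕ, 1 ≤ m ∧ (χ : G → ℂ) 1 = ((13 * m : ℕ) : ℂ)) ∧
      ∀ g : G, orderOf g = 2 → ∃ v w : ℤ, (A : G → ℂ) g = v ∧ (B : G → ℂ) g = w ∧ 1 - v + w = 0 ∧
        (52 * (108 - 9 * v ^ 2 + 4 * w ^ 2) = 0 ∨ 52 * (108 - 9 * v ^ 2 + 4 * w ^ 2) =
          13 * (Nat.card (centralizer ({g} : Set G)) : ℤ) ^ 2) := by
  classical
  obtain ⟨P, hP, hC, hN⟩ := thirteen_data hcard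
  choose dg hdg0 hdg hdgdvd using fun χ : IrrCharacter G => Char.irr_degree_dvd_card χ.2
  obtain ⟨l, ε, b, M, i₀, a, L, ⟨hl, hexp⟩, hε, hdM, hd, hL, hvan, hn, hF, hFle⟩ :=
    SmallGroups.Exceptional.exists_char_data P (p := 13) (e := 3) (by norm_num) hP hC hN
      (not_comm hcard) (t := 4) (by norm_num) (by norm_num) (by norm_num) dg hdg
  have hdgT : dg (Char.trivialIrr G) = 1 := by
    have h := (hdg (Char.trivialIrr G)).symm.trans
      (show ((Char.trivialIrr G : IrrCharacter G) : G → ℂ) 1 = 1 from rfl)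
    exact_mod_cast h
  -- the coefficients
  have hnn : 0 ≤ (L.map fun χ => a χ ^ 2).sum := List.sum_nonneg fun x hx => by
    obtain ⟨y, -, rfl⟩ := List.mem_map.mp hx
    exact sq_nonneg _
  have hpos : ∀ χ ∈ L, 1 ≤ a χ ^ 2 := fun χ h => by
    have h0 := (hL χ h).2.2
    rcases (show 1 ≤ a χ ∨ a χ ≤ -1 by omega) with h | h <;> nlinarith
  norm_num at hn
  have hdeg : 1 + ((4 * b + ε) * (dg (M i₀) : ℤ)) + (L.map fun χ => a χ * (dg χ : ℤ)).sum = 0 := by
    have h := hF (fun χ => ((dg χ : ℤ) : ℂ)) fun i => by rw [hdM i]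
    have h0 := congrFun hexp 1
    rw [SmallGroups.Exceptional.alpha_one, Finset.sum_apply] at h0
    simp only [Pi.smul_apply, smul_eq_mul, hdg] at h0
    apply Int.cast_injective (α := ℂ)
    push_cast [Int.cast_list_sum, List.map_map, Function.comp_def] at h h0 ⊢
    rw [h0, h, hdgT]
    push_cast
    ring
  obtain rfl : b = 0 := by
    have hb1 : b ≤ 1 := by nlinarith [sq_nonneg (b + ε)]
    have hb2 : -1 ≤ b := by nlinarith [sq_nonneg (b + ε)]
    by_contra hb0
    have hsum0 : (L.map fun χ => a χ ^ 2).sum = 0 := by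
      rcases hε with rfl | rfl <;> interval_cases b <;> norm_num at hn ⊢ <;> omega
    have hnil : L = [] := by
      rcases L with _ | ⟨x, L⟩
      · rfl
      · exfalso
        have h1 := hpos x (by simp)
        simp only [List.map_cons, List.sum_cons] at hsum0
        have : 0 ≤ (L.map fun χ => a χ ^ 2).sum := List.sum_nonneg fun x hx => by
          obtain ⟨y, -, rfl⟩ := List.mem_map.mp hx
          exact sq_nonneg _
        omega
    subst hnil
    simp at hdeg hn
    rcases hε with rfl | rfl <;> interval_cases b <;> norm_num at hdeg hn <;> omega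
  have hsum2 : (L.map fun χ => a χ ^ 2).sum = 2 := by
    rcases hε with rfl | rfl <;> norm_num at hn ⊢ <;> linarith
  obtain ⟨A₀, B₀, rfl, ha1, ha2⟩ : ∃ x y, L = [x, y] ∧ a x ^ 2 = 1 ∧ a y ^ 2 = 1 := by
    rcases L with _ | ⟨x, _ | ⟨y, _ | ⟨z, M'⟩⟩⟩
    · simp at hsum2
    · simp only [List.map_cons, List.map_nil, List.sum_cons, List.sum_nil, add_zero] at hsum2
      exfalso
      have h1 : a x ≤ 1 := by nlinarith
      have h2 : -1 ≤ a x := by nlinarith
      interval_cases h : a x <;> norm_num at hsum2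
    · have h1 := hpos x (by simp)
      have h2 := hpos y (by simp)
      simp only [List.map_cons, List.map_nil, List.sum_cons, List.sum_nil, add_zero] at hsum2
      exact ⟨x, y, rfl, by omega, by omega⟩
    · have h1 := hpos x (by simp)
      have h2 := hpos y (by simp)
      have h3 := hpos z (by simp)
      simp only [List.map_cons, List.sum_cons] at hsum2
      have : 0 ≤ (M'.map fun χ => a χ ^ 2).sum := List.sum_nonneg fun x hx => by
        obtain ⟨y, -, rfl⟩ := List.mem_map.mp hx
        exact sq_nonneg _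
      omega
  -- the degrees
  have hsq : 1 + 4 * dg (M i₀) ^ 2 + (dg A₀ ^ 2 + dg B₀ ^ 2) ≤ 5616 := by
    have htot : ∑ χ : IrrCharacter G, (dg χ : ℝ) ^ 2 = Nat.card G := by
      have h := Char.sum_irr_degree_sq (G := G)
      simp only [hdg] at h
      exact_mod_cast h
    have h := hFle (fun χ => (dg χ : ℝ) ^ 2) fun χ => sq_nonneg _
    simp only [htot, hdM, hdgT, Finset.sum_const, Finset.card_univ, Fintype.card_fin, hcard,
      List.map_cons, List.map_nil, List.sum_cons, List.sum_nil, add_zero] at h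
    have h' : ((1 + 4 * dg (M i₀) ^ 2 + (dg A₀ ^ 2 + dg B₀ ^ 2) : ℕ) : ℝ) ≤ ((5616 : ℕ) : ℝ) := by
      push_cast
      simpa using h
    exact_mod_cast h'
  have hmem : ∀ χ, 1 < dg χ → dg χ ^ 2 ≤ 5616 → dg χ ∈ degCands := fun χ h1 h2 =>
    List.contains_iff_mem.1 (mem_degCands _ (by nlinarith)
      (by simp [h1, Nat.mod_eq_zero_of_dvd (hcard ▸ hdgdvd χ)]))
  obtain ⟨hA1, hAa, -⟩ := hL A₀ (by simp)
  obtain ⟨hB1, hBb, -⟩ := hL B₀ (by simp)
  simp only [List.map_cons, List.map_nil, List.sum_cons, List.sum_nil, add_zero, mul_zero, zero_add]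
    at hdeg
  have hsg : ∀ z : ℤ, z ^ 2 = 1 → z ∈ [(1 : ℤ), -1] := fun z hz => by
    rcases sq_eq_one_iff.mp hz with h | h <;> simp [h]
  have hchk := degrees_check ε (by simpa using hε) _ (hmem (M i₀) hd.1 (by omega)) _
    (hmem A₀ hA1 (by omega)) _ (hmem B₀ hB1 (by omega)) _ (hsg _ ha1) _ (hsg _ ha2) (by
      simp only [Bool.and_eq_true, beq_iff_eq, decide_eq_true_eq]
      have hd13 : (13 : ℤ) ∣ (dg (M i₀) : ℤ) + 3 * ε := by
        have := hd.2
        push_cast at this
        simpa using this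
      refine ⟨⟨⟨⟨Int.emod_eq_zero_of_dvd hd13, Int.emod_eq_zero_of_dvd (by exact_mod_cast hAa)⟩,
        Int.emod_eq_zero_of_dvd (by exact_mod_cast hBb)⟩, by linarith⟩, hsq⟩)
  simp only [Bool.and_eq_true, Bool.or_eq_true, beq_iff_eq] at hchk
  obtain ⟨⟨hεm, hd16⟩, hpair⟩ := hchk
  subst hεm
  -- the ordered pair
  obtain ⟨A, B, hA12, hB27, haA, haB, hperm⟩ : ∃ A B : IrrCharacter G, dg A = 12 ∧ dg B = 27 ∧
      a A = -1 ∧ a B = 1 ∧ (A = A₀ ∧ B = B₀ ∨ A = B₀ ∧ B = A₀) := by
    rcases hpair with ⟨⟨⟨h1, h2⟩, h3⟩, h4⟩ | ⟨⟨⟨h1, h2⟩, h3⟩, h4⟩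
    · exact ⟨A₀, B₀, h1, h3, h2, h4, Or.inl ⟨rfl, rfl⟩⟩
    · exact ⟨B₀, A₀, h3, h1, h4, h2, Or.inr ⟨rfl, rfl⟩⟩
  have hlist : ∀ {β : Type} [AddCommMonoid β] (F : IrrCharacter G → β),
      ([A₀, B₀].map F).sum = F A + F B := by
    intro β _ F
    rcases hperm with ⟨rfl, rfl⟩ | ⟨rfl, rfl⟩ <;> simp [add_comm]
  -- all members are distinct
  have hcount : ∀ χ₀ : IrrCharacter G, ((if Char.trivialIrr G = χ₀ then 1 else 0) +
      ∑ i, (if M i = χ₀ then 1 else 0) + ((if A = χ₀ then 1 else 0) + (if B = χ₀ then 1 else 0)) : ℝ) ≤ 1 := by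
    intro χ₀
    have h := hFle (fun χ => if χ = χ₀ then 1 else 0) fun χ => by split_ifs <;> norm_num
    rw [hlist, Finset.sum_ite_eq' Finset.univ χ₀ fun _ => (1 : ℝ), if_pos (Finset.mem_univ _)] at h
    exact h
  have hMne : ∀ i, M i ≠ Char.trivialIrr G ∧ M i ≠ A ∧ M i ≠ B := fun i => by
    have h1 := hdM i
    refine ⟨fun e => ?_, fun e => ?_, fun e => ?_⟩ <;> rw [e] at h1 <;> omega
  have hMinj : Function.Injective M := by
    intro i j hij
    by_contra hne
    have h := hcount (M i)
    rw [if_neg (hMne i).1.symm, if_neg (hMne i).2.1.symm, if_neg (hMne i).2.2.symm] at h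
    have h2 : (2 : ℝ) ≤ ∑ k, if M k = M i then (1 : ℝ) else 0 := by
      refine le_trans (le_of_eq ?_) (Finset.sum_le_sum_of_subset_of_nonneg
        (Finset.subset_univ {i, j}) fun k _ _ => by split_ifs <;> norm_num)
      rw [Finset.sum_pair hne, if_pos rfl, if_pos hij.symm]
      norm_num
    linarith
  set S : Finset (IrrCharacter G) :=
    insert (Char.trivialIrr G) (insert A (insert B (Finset.univ.image M))) with hS
  have hTA : Char.trivialIrr G ≠ A := fun e => by rw [← e] at hA12; omega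
  have hTB : Char.trivialIrr G ≠ B := fun e => by rw [← e] at hB27; omega
  have hAB : A ≠ B := fun e => by rw [e] at hA12; omega
  have hsumS : ∀ {β : Type} [AddCommMonoid β] (F : IrrCharacter G → β),
      ∑ χ ∈ S, F χ = F (Char.trivialIrr G) + ∑ i, F (M i) + (F A + F B) := by
    intro β _ F
    have n1 : Char.trivialIrr G ∉ insert A (insert B (Finset.univ.image M)) := by
      simp [hTA, hTB, fun i => (hMne i).1]
    have n2 : A ∉ insert B (Finset.univ.image M) := by simp [hAB, fun i => (hMne i).2.1]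
    have n3 : B ∉ Finset.univ.image M := by simp [fun i => (hMne i).2.2]
    rw [hS, Finset.sum_insert n1, Finset.sum_insert n2, Finset.sum_insert n3,
      Finset.sum_image fun i _ j _ h => hMinj h]
    abel
  have hrest : ∀ χ ∉ S, 13 ∣ dg χ := by
    intro χ hχ
    by_contra h13
    have hPc : ∀ y ∈ P, ∀ z ∈ P, y * z = z * y := fun y hy z hz => by
      have := SmallGroups.isMulCommutative_of_prime_card (G := P) (by rw [hP]; norm_num)
      exact congrArg Subtype.val (this.is_comm.comm ⟨y, hy⟩ ⟨z, hz⟩)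
    set Φ : IrrCharacter G → ℝ := fun ψ =>
      ∑ y ∈ Finset.univ.filter (fun y => y ∈ P ∧ y ≠ 1), Complex.normSq ((ψ : G → ℂ) y) with hΦ
    have hlow : ∀ ψ : IrrCharacter G, ((dg ψ % 13 : ℕ) : ℝ) * ((13 : ℝ) - (dg ψ % 13 : ℕ)) ≤ Φ ψ :=
      fun ψ => by
        have h := sum_normSq_mod P hPc (Char.isCharacter_of_irr ψ.2) (hdg ψ)
        rw [hP] at h
        exact_mod_cast h
    have htot : ∑ ψ, Φ ψ = 156 := by
      rw [hΦ]
      simp only
      rw [Finset.sum_comm, Finset.sum_congr rfl (g := fun _ => (13 : ℝ))]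
      · rw [Finset.sum_const, show (Finset.univ.filter fun y : G => y ∈ P ∧ y ≠ 1) =
          (Finset.univ.filter fun y : G => y ∈ P).erase 1 by ext y; simp [and_comm],
          Finset.card_erase_of_mem (by simp [one_mem]),
          show (Finset.univ.filter fun y : G => y ∈ P).card = 13 by
            rw [← hP, Nat.card_eq_fintype_card, Fintype.card_subtype]]
        norm_num
      · intro y hy
        obtain ⟨hyP, hy1⟩ := (Finset.mem_filter.1 hy).2
        have := Fact.mk (by norm_num : Nat.Prime 13)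
        have hz : zpowers y = P := by
          refine Subgroup.eq_of_le_of_card_ge (zpowers_le.2 hyP) ?_
          rw [hP, Nat.card_zpowers]
          have h := Subgroup.orderOf_dvd_natCard P hyP
          rw [hP] at h
          rcases (Nat.dvd_prime (by norm_num : Nat.Prime 13)).1 h with h' | h'
          · exact absurd (orderOf_eq_one_iff.1 h') hy1
          · omega
        have h := Char.sum_irr_mul_conj y y
        rw [if_pos (IsConj.refl y)] at h
        have hCy : centralizer ({y} : Set G) = centralizer (P : Set G) := by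
          rw [← hz]
          ext x
          rw [mem_centralizer_singleton_iff]
          refine ⟨fun hxy z hzm => ?_, fun hx => (hx y (mem_zpowers y)).symm⟩
          obtain ⟨i, rfl⟩ := Subgroup.mem_zpowers_iff.1 hzm
          exact ((show Commute x y from hxy).zpow_right i).symm.eq
        rw [hCy, hC] at h
        simp only [Complex.mul_conj, ← Complex.ofReal_sum] at h
        have h2 := congrArg Complex.re h
        simp only [Complex.ofReal_re, Complex.natCast_re] at h2
        exact_mod_cast h2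
    have hS' : ∑ ψ ∈ S, Φ ψ + Φ χ ≤ 156 := by
      rw [← htot, add_comm, ← Finset.sum_insert hχ]
      exact Finset.sum_le_sum_of_subset_of_nonneg (Finset.subset_univ _) fun ψ _ _ =>
        Finset.sum_nonneg fun y _ => Complex.normSq_nonneg _
    rw [hsumS] at hS'
    have hT := hlow (Char.trivialIrr G)
    have hA := hlow A
    have hB := hlow B
    have hMs : ∀ i, (30 : ℝ) ≤ Φ (M i) := fun i => by
      have := hlow (M i)
      rw [hdM i, hd16] at this
      norm_num at this ⊢
      linarith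
    have hMs' : (120 : ℝ) ≤ ∑ i, Φ (M i) :=
      le_trans (by norm_num) (Finset.sum_le_sum (s := Finset.univ) fun i _ => hMs i)
    rw [hdgT] at hT
    rw [hA12] at hA
    rw [hB27] at hB
    have hχ' := hlow χ
    have hr1 : (1 : ℝ) ≤ (dg χ % 13 : ℕ) := by
      exact_mod_cast Nat.one_le_iff_ne_zero.2 fun e => h13 (Nat.dvd_of_mod_eq_zero e)
    have hr12 : ((dg χ % 13 : ℕ) : ℝ) ≤ 12 := by
      exact_mod_cast Nat.le_of_lt_succ (Nat.mod_lt _ (by norm_num))
    norm_num at hT hA hB
    nlinarith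
  refine ⟨A, B, M, Finset.univ \ S, by rw [hdg, hA12]; norm_num, by rw [hdg, hB27]; norm_num,
    fun i => by rw [hdg, hdM i, hd16]; norm_num, fun F => ?_, fun χ hχ => ?_, fun g hg => ?_⟩
  · rw [← hsumS, add_comm, Finset.sum_sdiff (Finset.subset_univ S)]
  · obtain ⟨m, hm⟩ := hrest χ (Finset.mem_sdiff.1 hχ).2
    refine ⟨m, ?_, by rw [hdg, hm]⟩
    have := hdg0 χ
    omega
  -- the values at an involution
  have hzero : ∀ i, (M i : G → ℂ) g = 0 := fun i =>
    Char.irr_defect_zero_vanish' (M i).2 Nat.prime_two (n := 4) (d := 16)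
      (by rw [hcard]; norm_num) (by rw [hdg, hdM i, hd16]) (by norm_num) g (by rw [hg])
  obtain ⟨v, hv, -⟩ := SmallGroups.Exceptional.exists_involution_value (Char.isCharacter_of_irr A.2) (hdg A) hg
  obtain ⟨w, hw, -⟩ := SmallGroups.Exceptional.exists_involution_value (Char.isCharacter_of_irr B.2) (hdg B) hg
  obtain ⟨hlin, hquad⟩ := SmallGroups.Exceptional.coeff_involution P (p := 13) (by norm_num)
    (by norm_num) hP hC hl hexp hg
  refine ⟨v, w, hv, hw, ?_, ?_⟩
  · have h := hF (fun χ => (χ : G → ℂ) g) fun i => by rw [hzero i, hzero i₀]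
    rw [hlin, hlist, haA, haB, hv, hw, hzero i₀] at h
    simp only [show ((Char.trivialIrr G : IrrCharacter G) : G → ℂ) g = 1 from rfl] at h
    apply Int.cast_injective (α := ℂ)
    push_cast at h ⊢
    linear_combination -h
  · have h := hF (fun χ => (χ : G → ℂ) g ^ 2 / (χ : G → ℂ) 1) fun i => by
      rw [hzero i, hzero i₀]; simp
    rw [hlist, haA, haB, hv, hw, hzero i₀, hdg A, hdg B, hA12, hB27] at h
    simp only [show ((Char.trivialIrr G : IrrCharacter G) : G → ℂ) g = 1 from rfl,
      show ((Char.trivialIrr G : IrrCharacter G) : G → ℂ) 1 = 1 from rfl] at h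
    push_cast at h
    rw [h, hcard] at hquad
    refine hquad.imp (fun h' => ?_) (fun h' => ?_)
    · apply Int.cast_injective (α := ℂ)
      have h'' := h'.1
      push_cast at h'' ⊢
      linear_combination h''
    · apply Int.cast_injective (α := ℂ)
      push_cast at h' ⊢
      linear_combination h'

/-- An involution: the centralizer has order `48`, it commutes with at least six others. -/
theorem involution_facts {g : G} (hg : orderOf g = 2) :
    Nat.card (centralizer ({g} : Set G)) = 48 ∧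
      (∀ g' : G, orderOf g' = 2 → IsConj g g') ∧
      6 ≤ Nat.card {s : G // orderOf s = 2 ∧ s ≠ g ∧ s * g = g * s} := by
  classical
  obtain ⟨A, B, M, R, hA, hB, hM, hsum, hR, hinv⟩ := exists_series hcard
  -- the values
  have vals : ∀ x : G, orderOf x = 2 → (A : G → ℂ) x = 4 ∧ (B : G → ℂ) x = 3 ∧
      Nat.card (centralizer ({x} : Set G)) = 48 ∧
      (∀ χ ∈ R, ∃ (z : ℤ) (m : ℕ), 1 ≤ m ∧ (χ : G → ℂ) 1 = ((13 * m : ℕ) : ℂ) ∧
        (χ : G → ℂ) x = z ∧ (z + m) % 2 = 0) := by
    intro x hx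
    obtain ⟨v, w, hv, hw, hlin, hquad⟩ := hinv x hx
    have hMx : ∀ i, (M i : G → ℂ) x = 0 := fun i =>
      Char.irr_defect_zero_vanish' (M i).2 Nat.prime_two (n := 4) (d := 16)
        (by rw [hcard]; norm_num) (hM i |>.trans (by norm_num)) (by norm_num) x (by rw [hx])
    have hRv : ∀ χ ∈ R, ∃ (z : ℤ) (m : ℕ), 1 ≤ m ∧ (χ : G → ℂ) 1 = ((13 * m : ℕ) : ℂ) ∧
        (χ : G → ℂ) x = z ∧ (z + m) % 2 = 0 := by
      intro χ hχ
      obtain ⟨m, hm1, hm⟩ := hR χ hχ
      obtain ⟨z, hz, i, -, hzi⟩ := SmallGroups.Exceptional.exists_involution_value (Char.isCharacter_of_irr χ.2) hm hx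
      exact ⟨z, m, hm1, hm, hz, by push_cast at hzi; omega⟩
    have hq : (1 : ℝ) + (v : ℝ) ^ 2 + (w : ℝ) ^ 2 ≤ (Nat.card (centralizer ({x} : Set G)) : ℝ) := by
      have h := hsum fun χ => (χ : G → ℂ) x * conj ((χ : G → ℂ) x)
      rw [Char.sum_irr_mul_conj x x, if_pos (IsConj.refl x), hv, hw] at h
      simp only [hMx, show ((Char.trivialIrr G : IrrCharacter G) : G → ℂ) x = 1 from rfl,
        Complex.mul_conj, ← Complex.ofReal_sum] at h
      have h2 := congrArg Complex.re h
      simp only [Complex.natCast_re, Complex.add_re, Complex.ofReal_re, Complex.normSq_one,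
        Complex.normSq_zero, Finset.sum_const_zero, Complex.normSq_intCast, add_zero] at h2
      have hnn : (0 : ℝ) ≤ ∑ χ ∈ R, Complex.normSq ((χ : G → ℂ) x) :=
        Finset.sum_nonneg fun χ _ => Complex.normSq_nonneg _
      nlinarith
    set C := Nat.card (centralizer ({x} : Set G)) with hCdef
    have hC0 : 0 < C := Nat.card_pos
    have hq' : 1 + v ^ 2 + w ^ 2 ≤ (C : ℤ) := by exact_mod_cast hq
    obtain rfl : w = v - 1 := by linarith
    have hv4 : v = 4 := by
      have h0 : 0 ≤ 108 - 9 * v ^ 2 + 4 * (v - 1) ^ 2 := by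
        rcases hquad with h | h <;> nlinarith
      have h1 : -5 ≤ v := by nlinarith
      have h2 : v ≤ 4 := by nlinarith
      rcases hquad with h | h
      · interval_cases v <;> first | rfl | norm_num at h
      · by_contra hne
        have hC : C ≤ 22 := by
          by_contra hgt
          have : (23 : ℤ) ≤ C := by omega
          nlinarith
        interval_cases v <;> interval_cases C <;> first | omega | norm_num at h | norm_num at hq'
    subst hv4
    refine ⟨by rw [hv]; norm_num, by rw [hw]; norm_num, ?_, hRv⟩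
    -- no elements of order 13 and no subgroup of order 9 centralize `x`
    have hd : C ∣ 5616 := hcard ▸ Subgroup.card_subgroup_dvd_card _
    have h13 : ¬ 13 ∣ C := by
      intro h
      have := Fact.mk (by norm_num : Nat.Prime 13)
      obtain ⟨y, hy⟩ := exists_prime_orderOf_dvd_card' (G := centralizer ({x} : Set G)) 13 h
      obtain ⟨n, k, -, -, -, -, -, -, hP, hCP, -⟩ := SmallGroups.exists_threePrime_data
        (not_comm hcard) Nat.prime_two Nat.prime_three (r := 13) (a := 4) (b := 3)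
        (by norm_num) (by norm_num) (by norm_num) (by rw [hcard]; norm_num)
      have h2 := SmallGroups.dvd_of_commute_prime hP (c := 1) (fun P => by rw [hCP P, mul_one])
        (x := (y : G)) (y := x) (by rw [Subgroup.orderOf_coe, hy]) hx
        (show Commute (y : G) x from mem_centralizer_singleton_iff.1 y.2)
      norm_num at h2
    have h9 : ¬ 9 ∣ C := by
      intro h
      obtain ⟨Q, hQ⟩ := Sylow.exists_subgroup_card_pow_prime 3
        (G := centralizer ({x} : Set G)) (n := 2) (by rw [show (3 : ℕ) ^ 2 = 9 by norm_num]; exact h)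
      set Q' : Subgroup G := Q.map (centralizer ({x} : Set G)).subtype with hQ'
      have hQc : Nat.card Q' = 9 := by
        rw [hQ', ← Nat.card_congr (Q.equivMapOfInjective _ (Subgroup.subtype_injective _)).toEquiv, hQ]
        norm_num
      have hcom : ∀ q ∈ Q', Commute q x := by
        rintro _ ⟨q, -, rfl⟩
        exact mem_centralizer_singleton_iff.1 q.2
      have hn : zpowers x ≤ normalizer (Q' : Set G) := by
        rw [zpowers_le, Subgroup.mem_normalizer_iff]
        intro q
        constructor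
        · intro hq; rwa [show x * q * x⁻¹ = q by rw [← (hcom q hq).eq]; group]
        · intro hq
          have h2 : q = x⁻¹ * (x * q * x⁻¹) * x := by group
          have h3 := (hcom _ hq).inv_right.eq
          rw [h2, ← h3, mul_assoc, inv_mul_cancel, mul_one]
          exact hq
      have hK : Nat.card (zpowers x ⊔ Q' : Subgroup G) = 18 := by
        have hdisj : zpowers x ⊓ Q' = ⊥ := by
          refine Subgroup.inf_eq_bot_of_coprime ?_
          rw [Nat.card_zpowers, hx, hQc]
          norm_num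
        have := Cfsg.Agent.Modules.card_sup_mul_card_inf hn
        rw [hdisj, Subgroup.card_bot, mul_one, Nat.card_zpowers, hx, hQc] at this
        exact this
      set K : Subgroup G := zpowers x ⊔ Q'
      haveI : Fintype K := Fintype.ofFinite _
      obtain ⟨nK, hnK⟩ := Char.isCharacter_classInner_nat
        (Char.isCharacter_restrict (Char.isCharacter_of_irr B.2) K) (Char.trivialIrr K)
      have hsumK : ∑ y : K, (B : G → ℂ) (y : G) = (18 : ℂ) * nK := by
        rw [← hnK, Cfsg.classInner, hK]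
        simp [show ((Char.trivialIrr K : IrrCharacter K) : K → ℂ) = fun _ => 1 from rfl]
      have hxK : x ∈ K := Subgroup.mem_sup_left (mem_zpowers x)
      have hval : ∀ y : K, y ≠ 1 → y ≠ ⟨x, hxK⟩ → (B : G → ℂ) (y : G) = 0 := by
        intro y hy1 hyx
        refine Char.irr_defect_zero_vanish' B.2 Nat.prime_three (n := 3) (d := 27)
          (by rw [hcard]; norm_num) (hB.trans (by norm_num)) (by norm_num) _ ?_
        obtain ⟨z, hz, q, hq, hy⟩ : ∃ z ∈ zpowers x, ∃ q ∈ Q', z * q = (y : G) := by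
          have hy : (y : G) ∈ ((zpowers x ⊔ Q' : Subgroup G) : Set G) := y.2
          rw [Subgroup.coe_mul_of_left_le_normalizer_right _ _ hn] at hy
          exact Set.mem_mul.1 hy
        obtain ⟨i, rfl⟩ := Subgroup.mem_zpowers_iff.1 hz
        have hcq : Commute (x ^ i) q := (hcom q hq).symm.zpow_left i
        have hq1 : q ≠ 1 := by
          rintro rfl
          rw [mul_one] at hy
          have hx2 : x ^ i = 1 ∨ x ^ i = x := by
            rw [← zpow_mod_orderOf, hx]
            rcases Int.emod_two_eq_zero_or_one i with h | h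
            · exact Or.inl (by rw [show ((2 : ℕ) : ℤ) = 2 from rfl, h, zpow_zero])
            · exact Or.inr (by rw [show ((2 : ℕ) : ℤ) = 2 from rfl, h, zpow_one])
          rcases hx2 with h | h
          · exact hy1 (Subtype.ext (by rw [← hy, h]; rfl))
          · exact hyx (Subtype.ext (by rw [← hy, h]))
        have hq3 : orderOf q ∣ 9 := hQc ▸ Subgroup.orderOf_dvd_natCard Q' hq
        have hqord : 3 ∣ orderOf q := by
          obtain ⟨j, hj, hj'⟩ := (Nat.dvd_prime_pow Nat.prime_three (m := 2)).1 (by simpa using hq3)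
          rcases j with _ | j
          · exact absurd (orderOf_eq_one_iff.1 hj') hq1
          · exact hj' ▸ dvd_pow_self 3 (Nat.succ_ne_zero j)
        have hxi : orderOf (x ^ i) ∣ 2 := by
          rw [orderOf_dvd_iff_pow_eq_one, ← zpow_natCast, ← zpow_mul, mul_comm, zpow_mul, zpow_natCast,
            ← hx, pow_orderOf_eq_one, one_zpow]
        rw [← hy, hcq.orderOf_mul_eq_mul_orderOf_of_coprime
          (Nat.Coprime.coprime_dvd_left hxi (Nat.Coprime.coprime_dvd_right hq3 (by norm_num)))]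
        exact dvd_mul_of_dvd_right hqord _
      have hne : (1 : K) ≠ ⟨x, hxK⟩ := fun e => by
        have := congrArg Subtype.val e
        simp only [Subgroup.coe_one] at this
        rw [← this, orderOf_one] at hx
        omega
      rw [Fintype.sum_eq_add (1 : K) ⟨x, hxK⟩ hne fun y hy => hval y hy.1 hy.2, Subgroup.coe_one, hB,
        hw] at hsumK
      have h30 : ((30 : ℕ) : ℂ) = ((18 * nK : ℕ) : ℂ) := by push_cast at hsumK ⊢; linear_combination hsumK
      have h30' : 30 = 18 * nK := by exact_mod_cast h30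
      omega
    have h26 : 26 ≤ C := by omega
    have hkey : ∀ C ∈ Nat.divisors 5616, (decide (26 ≤ C) && C % 13 != 0 && C % 9 != 0) = true → C = 48 := by
      decide +kernel
    have h13' : C % 13 ≠ 0 := fun e => h13 (Nat.dvd_of_mod_eq_zero e)
    have h9' : C % 9 ≠ 0 := fun e => h9 (Nat.dvd_of_mod_eq_zero e)
    exact hkey C (Nat.mem_divisors.2 ⟨hd, by norm_num⟩) (by simp [h26, h13', h9'])
  obtain ⟨hgA, hgB, hgC, hgR⟩ := vals g hg
  choose! z m hm1 hmd hz hzm using hgR
  have hMg : ∀ x : G, orderOf x = 2 → ∀ i, (M i : G → ℂ) x = 0 := fun x hx i =>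
    Char.irr_defect_zero_vanish' (M i).2 Nat.prime_two (n := 4) (d := 16)
      (by rw [hcard]; norm_num) (hM i |>.trans (by norm_num)) (by norm_num) x (by rw [hx])
  have hz22 : ∑ χ ∈ R, z χ ^ 2 = 22 := by
    have h := hsum fun χ => (χ : G → ℂ) g * conj ((χ : G → ℂ) g)
    rw [Char.sum_irr_mul_conj g g, if_pos (IsConj.refl g), hgC, hgA, hgB] at h
    simp only [hMg g hg, show ((Char.trivialIrr G : IrrCharacter G) : G → ℂ) g = 1 from rfl, zero_mul,
      Finset.sum_const_zero, add_zero] at h
    rw [Finset.sum_congr rfl fun χ hχ => by rw [hz χ hχ, map_intCast]] at h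
    apply Int.cast_injective (α := ℂ)
    push_cast at h ⊢
    simp only [map_ofNat, map_one, map_zero, mul_zero, Finset.sum_const_zero, add_zero, ← sq] at h
    linear_combination -h
  refine ⟨hgC, fun g' hg' => ?_, ?_⟩
  · by_contra hne
    obtain ⟨hA', hB', hC', hR'⟩ := vals g' hg'
    choose! z' m' hm1' hmd' hz' hzm' using hR'
    have h := hsum fun χ => (χ : G → ℂ) g * conj ((χ : G → ℂ) g')
    rw [Char.sum_irr_mul_conj g g', if_neg hne, hgA, hgB, hA', hB'] at h
    simp only [hMg g hg, show ∀ y, ((Char.trivialIrr G : IrrCharacter G) : G → ℂ) y = 1 from fun _ => rfl,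
      zero_mul, Finset.sum_const_zero, add_zero] at h
    rw [Finset.sum_congr rfl fun χ hχ => by rw [hz χ hχ, hz' χ hχ, map_intCast]] at h
    have hzz : ∑ χ ∈ R, z χ * z' χ = -26 := by
      apply Int.cast_injective (α := ℂ)
      push_cast at h ⊢
      simp only [map_ofNat, map_one, zero_mul, Finset.sum_const_zero, add_zero] at h
      linear_combination -h
    have hz22' : ∑ χ ∈ R, z' χ ^ 2 = 22 := by
      have h := hsum fun χ => (χ : G → ℂ) g' * conj ((χ : G → ℂ) g')
      rw [Char.sum_irr_mul_conj g' g', if_pos (IsConj.refl g'), hC', hA', hB'] at h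
      simp only [hMg g' hg', show ((Char.trivialIrr G : IrrCharacter G) : G → ℂ) g' = 1 from rfl, zero_mul,
        Finset.sum_const_zero, add_zero] at h
      rw [Finset.sum_congr rfl fun χ hχ => by rw [hz' χ hχ, map_intCast]] at h
      apply Int.cast_injective (α := ℂ)
      push_cast at h ⊢
      simp only [map_ofNat, map_one, map_zero, mul_zero, Finset.sum_const_zero, add_zero, ← sq] at h
      linear_combination -h
    have : 0 ≤ ∑ χ ∈ R, (z χ + z' χ) ^ 2 := Finset.sum_nonneg fun χ _ => sq_nonneg _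
    simp only [add_sq, Finset.sum_add_distrib, mul_assoc, ← Finset.mul_sum, hz22, hz22', hzz] at this
    omega
  -- commuting involutions
  set Sg : Finset G := Finset.univ.filter fun s => orderOf s = 2 ∧ s ≠ g ∧ s * g = g * s with hSg
  rw [show Nat.card {s : G // orderOf s = 2 ∧ s ≠ g ∧ s * g = g * s} = Sg.card by
    rw [Nat.card_eq_fintype_card, Fintype.card_subtype]]
  set K : Finset G := Finset.univ.filter fun k => IsConj (g * (k * g * k⁻¹)) g with hK
  have hgg : g * g = 1 := by rw [← sq, ← hg, pow_orderOf_eq_one]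
  have hKS : K.card ≤ 48 * Sg.card := by
    have hmaps : ∀ k ∈ K, k * g * k⁻¹ ∈ Sg := by
      intro k hk
      obtain ⟨c, hc⟩ := isConj_iff.1 (Finset.mem_filter.1 hk).2
      have ho : orderOf (k * g * k⁻¹) = 2 := by
        rw [show k * g * k⁻¹ = MulAut.conj k g by simp, MulEquiv.orderOf_eq, hg]
      have ho2 : orderOf (g * (k * g * k⁻¹)) = 2 := by
        conv_rhs => rw [← hg, ← hc]
        rw [show c * (g * (k * g * k⁻¹)) * c⁻¹ = MulAut.conj c (g * (k * g * k⁻¹)) by simp,
          MulEquiv.orderOf_eq]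
      set s := k * g * k⁻¹
      have hss : s * s = 1 := by rw [← sq, ← ho, pow_orderOf_eq_one]
      have hgs : g * s * (g * s) = 1 := by rw [← sq, ← ho2, pow_orderOf_eq_one]
      refine Finset.mem_filter.2 ⟨Finset.mem_univ _, ho, fun e => ?_, ?_⟩
      · rw [e, hgg, orderOf_one] at ho2; omega
      · calc s * g = (g * g) * (s * g) * (s * s) := by rw [hgg, hss, one_mul, mul_one]
          _ = g * (g * s * (g * s)) * s := by group
          _ = g * s := by rw [hgs, mul_one]
    rw [Finset.card_eq_sum_card_fiberwise hmaps, mul_comm, ← smul_eq_mul, ← Finset.sum_const]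
    refine Finset.sum_le_sum fun s _ => ?_
    rcases (K.filter fun k => k * g * k⁻¹ = s).eq_empty_or_nonempty with h | ⟨k₀, hk₀⟩
    · rw [h, Finset.card_empty]; exact Nat.zero_le _
    · have e := (Finset.mem_filter.1 hk₀).2
      rw [← hgC, ← SmallGroups.Exceptional.card_conj_fiber g k₀]
      refine Finset.card_le_card fun k hk => ?_
      have e' := (Finset.mem_filter.1 hk).2
      exact Finset.mem_filter.2 ⟨Finset.mem_univ _, e'.trans e.symm⟩
  have key : (48 : ℂ) * K.card = (5616 : ℂ) * ∑ χ : IrrCharacter G,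
      (χ : G → ℂ) g * (χ : G → ℂ) g * conj ((χ : G → ℂ) g) / (χ : G → ℂ) 1 := by
    have e1 : ∀ χ : IrrCharacter G, (5616 : ℂ) *
        ((χ : G → ℂ) g * (χ : G → ℂ) g * conj ((χ : G → ℂ) g) / (χ : G → ℂ) 1) =
        ∑ k : G, (χ : G → ℂ) (g * (k * g * k⁻¹)) * conj ((χ : G → ℂ) g) := fun χ => by
      rw [← Finset.sum_mul, BlocksChar.sum_conj_mul χ.2 g g, hcard]
      push_cast
      ring
    rw [Finset.mul_sum, Finset.sum_congr rfl fun χ _ => e1 χ, Finset.sum_comm,
      Finset.sum_congr rfl fun k _ => Char.sum_irr_mul_conj (g * (k * g * k⁻¹)) g,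
      Finset.sum_congr rfl (g := fun k => if k ∈ K then (48 : ℂ) else 0) fun k _ => ?_,
      Finset.sum_ite_mem, Finset.univ_inter, Finset.sum_const, nsmul_eq_mul, mul_comm]
    by_cases hk' : IsConj (g * (k * g * k⁻¹)) g
    swap
    · have hkK : k ∉ K := fun h => hk' (Finset.mem_filter.1 h).2
      rw [if_neg hk', if_neg hkK]
    have hkK : k ∈ K := Finset.mem_filter.2 ⟨Finset.mem_univ _, hk'⟩
    rw [if_pos hk', if_pos hkK]
    obtain ⟨c, hc⟩ := isConj_iff.1 hk'
    have ho2 : orderOf (g * (k * g * k⁻¹)) = 2 := by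
      conv_rhs => rw [← hg, ← hc]
      rw [show c * (g * (k * g * k⁻¹)) * c⁻¹ = MulAut.conj c (g * (k * g * k⁻¹)) by simp,
        MulEquiv.orderOf_eq]
    rw [(vals _ ho2).2.2.1]
    norm_num
  have hMg' := hMg g hg
  rw [hsum, hgA, hgB, hA, hB] at key
  simp only [hMg', show ∀ y, ((Char.trivialIrr G : IrrCharacter G) : G → ℂ) y = 1 from fun _ => rfl]
    at key
  rw [Finset.sum_congr rfl (g := fun χ => (((z χ : ℝ) ^ 3 / (13 * (m χ : ℝ)) : ℝ) : ℂ)) fun χ hχ => by
    rw [hz χ hχ, hmd χ hχ, map_intCast]; push_cast; ring] at key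
  simp only [map_ofNat, map_one, zero_mul, mul_zero, zero_div, Finset.sum_const_zero, add_zero,
    ← Complex.ofReal_sum] at key
  set W : ℝ := ∑ χ ∈ R, (z χ : ℝ) ^ 3 / (13 * (m χ : ℝ)) with hW
  have hkey : (48 : ℝ) * K.card = 5616 * (1 + (4 * 4 * 4 / 12 + 3 * 3 * 3 / 27) + W) := by
    apply Complex.ofReal_injective
    push_cast
    linear_combination key
  have hWge : -(66 : ℝ) / 13 ≤ W := by
    have h3 : ∑ χ ∈ R, (-(3 : ℝ) / 13) * (z χ : ℝ) ^ 2 ≤ W := by
      refine Finset.sum_le_sum fun χ hχ => ?_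
      have hle : z χ ^ 2 ≤ 22 := hz22 ▸ Finset.single_le_sum (fun ψ _ => sq_nonneg (z ψ)) hχ
      have hm0 : (0 : ℝ) < 13 * (m χ : ℝ) := by
        have := hm1 χ hχ
        positivity
      rw [le_div_iff₀ hm0]
      have hzm' : -3 * (m χ : ℤ) ≤ z χ := by
        have h1 : -4 ≤ z χ := by nlinarith
        have h2 := hzm χ hχ
        have h3 := hm1 χ hχ
        omega
      have hR3 : -3 * (m χ : ℝ) ≤ (z χ : ℝ) := by exact_mod_cast hzm'
      nlinarith [sq_nonneg (z χ : ℝ)]
    rw [← Finset.mul_sum] at h3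
    have : ∑ χ ∈ R, (z χ : ℝ) ^ 2 = 22 := by exact_mod_cast hz22
    rw [this] at h3
    linarith
  have hKc : (K.card : ℝ) ≤ 48 * Sg.card := by exact_mod_cast hKS
  by_contra h6
  have h5 : (Sg.card : ℝ) ≤ 5 := by exact_mod_cast (show Sg.card ≤ 5 by omega)
  nlinarith

end Cfsg.Agent.FGS75.L33
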