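import Cfsg.Agent.Modules.Fixed
import Mathlib.GroupTheory.Sylow
import Mathlib.GroupTheory.SpecificGroups.Cyclic
import Mathlib.GroupTheory.Commutator.Basic
import Mathlib.GroupTheory.GroupAction.Quotient

/-!
# Commuting involutions in a simple group of order 5616

We assume that the involution centralizers have order 48, that all involutions are conjugate and that
each involution commutes with at least six others, and show that the centralizer of two commuting
involutions has a Sylow 2-subgroup of order 4.
-/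

set_option autoImplicit false
set_option linter.style.haveILetI false
set_option linter.unusedSectionVars false

namespace Cfsg.Agent.FGS75.L33

open Subgroup

universe u

variable {G : Type u} [Group G] [Finite G]

/-- The facts about involutions obtained from the character table. -/
structure InvFacts (G : Type u) [Group G] : Prop where
  card_eq : Nat.card G = 5616
  card_cent : ∀ g : G, orderOf g = 2 → Nat.card (centralizer ({g} : Set G)) = 48
  conj : ∀ g g' : G, orderOf g = 2 → orderOf g' = 2 → IsConj g g'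
  six : ∀ g : G, orderOf g = 2 → 6 ≤ Nat.card {s : G // orderOf s = 2 ∧ s ≠ g ∧ s * g = g * s}

theorem mul_self_of_two {t : G} (ht : orderOf t = 2) : t * t = 1 := by
  rw [← pow_two, ← ht, pow_orderOf_eq_one]

theorem ne_one_of_two {t : G} (ht : orderOf t = 2) : t ≠ 1 := fun h => by
  rw [h, orderOf_one] at ht; omega

theorem two_of_mul_self {x : G} (h : x * x = 1) (h1 : x ≠ 1) : orderOf x = 2 :=
  orderOf_eq_prime (by rw [pow_two, h]) h1

theorem inv_of_two {t : G} (ht : orderOf t = 2) : t⁻¹ = t :=
  inv_eq_of_mul_eq_one_left (mul_self_of_two ht)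

theorem two_mul {t s : G} (ht : orderOf t = 2) (hs : orderOf s = 2) (hne : t ≠ s) (h : Commute t s) :
    orderOf (t * s) = 2 := by
  refine two_of_mul_self ?_ fun e => hne ?_
  · rw [mul_assoc, ← mul_assoc s t s, ← h.eq, mul_assoc t s s, mul_self_of_two hs, mul_one,
      mul_self_of_two ht]
  · rw [eq_inv_of_mul_eq_one_left e, inv_of_two hs]

theorem le_cent_iff {T : Subgroup G} {t : G} :
    T ≤ centralizer ({t} : Set G) ↔ ∀ x ∈ T, Commute x t :=
  forall_congr' fun _ => imp_congr_right fun _ => mem_centralizer_singleton_iff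

/-- An element of order two in every subgroup of even order. -/
theorem exists_two (M : Subgroup G) (h : 2 ∣ Nat.card M) : ∃ w ∈ M, orderOf w = 2 := by
  have := Fact.mk Nat.prime_two
  obtain ⟨w, hw⟩ := exists_prime_orderOf_dvd_card' (G := M) 2 h
  exact ⟨w, w.2, by rw [Subgroup.orderOf_coe, hw]⟩

/-- A subgroup all of whose elements outside `A` lie in one coset. -/
theorem card_le_two_mul (M A : Subgroup G) (h : ∀ x ∈ M, ∀ y ∈ M, x ∉ A → y ∉ A → x⁻¹ * y ∈ A) :
    Nat.card M ≤ 2 * Nat.card (M ⊓ A : Subgroup G) := by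
  by_cases hM : M ≤ A
  · rw [inf_eq_left.2 hM]; omega
  obtain ⟨m, hm, hmA⟩ := SetLike.not_le_iff_exists.1 hM
  let f : Bool × (M ⊓ A : Subgroup G) → M := fun p =>
    ⟨(bif p.1 then m else 1) * (p.2 : G), mul_mem (by cases p.1 <;> simp [hm, one_mem])
      (mem_inf.1 p.2.2).1⟩
  have hf : Function.Surjective f := by
    rintro ⟨x, hx⟩
    by_cases hxA : x ∈ A
    · exact ⟨(false, ⟨x, mem_inf.2 ⟨hx, hxA⟩⟩), Subtype.ext (one_mul x)⟩
    · exact ⟨(true, ⟨m⁻¹ * x, mem_inf.2 ⟨mul_mem (inv_mem hm) hx, h m hm x hx hmA hxA⟩⟩),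
        Subtype.ext (mul_inv_cancel_left m x)⟩
  have := Nat.card_le_card_of_surjective f hf
  rwa [Nat.card_prod, Nat.card_eq_fintype_card (α := Bool), Fintype.card_bool] at this

theorem two_part : Nat.factorization 5616 2 = 4 ∧ Nat.factorization 48 2 = 4 := by
  constructor
  · rw [show (5616 : ℕ) = 2 ^ 4 * 351 by norm_num,
      Nat.factorization_mul (pow_ne_zero _ (by norm_num)) (by norm_num), Finsupp.add_apply,
      Nat.Prime.factorization_pow Nat.prime_two, Finsupp.single_eq_same,
      Nat.factorization_eq_zero_of_not_dvd (show ¬ 2 ∣ 351 by norm_num)]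
  · rw [show (48 : ℕ) = 2 ^ 4 * 3 by norm_num,
      Nat.factorization_mul (pow_ne_zero _ (by norm_num)) (by norm_num), Finsupp.add_apply,
      Nat.Prime.factorization_pow Nat.prime_two, Finsupp.single_eq_same,
      Nat.factorization_eq_zero_of_not_dvd (show ¬ 2 ∣ 3 by norm_num)]

theorem isCyclic_of_le_three {H : Type*} [Group H] [Finite H] (h : Nat.card H ≤ 3) : IsCyclic H := by
  have h0 : 0 < Nat.card H := Nat.card_pos
  interval_cases hc : Nat.card H
  · haveI : Subsingleton H := (Nat.card_eq_one_iff_unique.1 hc).1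
    exact isCyclic_of_subsingleton
  · haveI := Fact.mk Nat.prime_two; exact isCyclic_of_prime_card hc
  · haveI := Fact.mk Nat.prime_three; exact isCyclic_of_prime_card hc

variable (hF : InvFacts G)

include hF

/-- A subgroup of order 16 contains the involutions it centralizes. -/
theorem mem_of_centralizes {T : Subgroup G} (hT : Nat.card T = 16) {t : G} (ht : orderOf t = 2)
    (h : T ≤ centralizer ({t} : Set G)) : t ∈ T := by
  by_contra hn
  have hnorm : zpowers t ≤ normalizer (T : Set G) := by
    rw [zpowers_le, Subgroup.mem_normalizer_iff]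
    intro x
    constructor
    · intro hx
      rwa [← ((le_cent_iff.1 h) x hx).eq, mul_inv_cancel_right]
    · intro hx
      have h2 := ((le_cent_iff.1 h) _ hx).eq
      have h3 : t * x * t⁻¹ = x := by
        have : t * x = t * (t * x * t⁻¹) := by
          rw [← h2, inv_mul_cancel_right]
        rw [← mul_left_cancel this]
      rwa [h3] at hx
  have hdisj : zpowers t ⊓ T = ⊥ := by
    rw [eq_bot_iff]
    intro x hx
    obtain ⟨hx1, hx2⟩ := mem_inf.1 hx
    obtain ⟨i, rfl⟩ := mem_zpowers_iff.1 hx1
    rcases Int.emod_two_eq_zero_or_one i with h2 | h2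
    · rw [mem_bot, ← zpow_mod_orderOf, ht, show ((2 : ℕ) : ℤ) = 2 from rfl, h2, zpow_zero]
    · rw [← zpow_mod_orderOf, ht, show ((2 : ℕ) : ℤ) = 2 from rfl, h2, zpow_one] at hx2
      exact absurd hx2 hn
  have := Cfsg.Agent.Modules.card_sup_mul_card_inf hnorm
  rw [hdisj, Subgroup.card_bot, mul_one, Nat.card_zpowers, ht, hT] at this
  have h2 := Subgroup.card_subgroup_dvd_card (zpowers t ⊔ T)
  rw [this, hF.card_eq] at h2
  norm_num at h2

/-- Every 2-subgroup of an involution centralizer lies in a subgroup of order 16 of it. -/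
theorem exists_sixteen {t : G} (ht : orderOf t = 2) {D : Subgroup G} {n : ℕ} (hD : Nat.card D = 2 ^ n)
    (hDt : D ≤ centralizer ({t} : Set G)) :
    ∃ T : Subgroup G, Nat.card T = 16 ∧ D ≤ T ∧ T ≤ centralizer ({t} : Set G) := by
  have := Fact.mk Nat.prime_two
  set C := centralizer ({t} : Set G)
  have hDC : Nat.card (D.subgroupOf C) = 2 ^ n := by
    rw [Nat.card_congr (Subgroup.subgroupOfEquivOfLe hDt).toEquiv, hD]
  obtain ⟨S, hS⟩ := (IsPGroup.of_card hDC).exists_le_sylow
  refine ⟨(S : Subgroup C).map C.subtype, ?_, ?_, Subgroup.map_subtype_le _⟩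
  · rw [← Nat.card_congr ((S : Subgroup C).equivMapOfInjective _ C.subtype_injective).toEquiv,
      Sylow.card_eq_multiplicity, hF.card_cent t ht, two_part.2]
    norm_num
  · intro x hx
    exact ⟨⟨x, hDt hx⟩, hS (Subgroup.mem_subgroupOf.2 hx), rfl⟩

/-- Two involutions centralized by a subgroup of order 16 are conjugate in its normalizer. -/
theorem burnside {T : Subgroup G} (hT : Nat.card T = 16) {x y : G} (hx : orderOf x = 2)
    (hy : orderOf y = 2) (hxT : T ≤ centralizer ({x} : Set G)) (hyT : T ≤ centralizer ({y} : Set G)) :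
    ∃ n ∈ normalizer (T : Set G), n * x * n⁻¹ = y := by
  have := Fact.mk Nat.prime_two
  let S : Sylow 2 G := Sylow.ofCard T (by rw [hT, hF.card_eq, two_part.1]; norm_num)
  obtain ⟨c, hc⟩ := isConj_iff.1 (hF.conj x y hx hy)
  have key : ∀ z : G, T ≤ centralizer ({z} : Set G) → z ∈ centralizer ((S : Subgroup G) : Set G) :=
    fun z hz a ha => ((le_cent_iff.1 hz) a (by simpa [S] using ha)).eq
  obtain ⟨n, hn, hnx⟩ := S.conj_eq_normalizer_conj_of_mem_centralizer x c⁻¹ (key x hxT)
    (by rw [inv_inv, hc]; exact key y hyT)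
  refine ⟨n⁻¹, inv_mem (show n ∈ normalizer (T : Set G) from hn), ?_⟩
  rw [inv_inv, ← hnx, inv_inv, hc]

/-- The number of involutions centralizing such a subgroup divides the group order. -/
theorem card_fused_dvd {T : Subgroup G} (hT : Nat.card T = 16) {t : G} (ht : orderOf t = 2)
    (htT : T ≤ centralizer ({t} : Set G)) :
    Nat.card {x : G // orderOf x = 2 ∧ T ≤ centralizer ({x} : Set G)} ∣ 5616 := by
  set N := normalizer (T : Set G)
  letI : MulAction N G := MulAction.compHom G ((MulAut.conj (G := G)).comp N.subtype)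
  have hsmul : ∀ (n : N) (x : G), n • x = (n : G) * x * (n : G)⁻¹ := fun n x => rfl
  have horb : MulAction.orbit N t = {x : G | orderOf x = 2 ∧ T ≤ centralizer ({x} : Set G)} := by
    ext x
    constructor
    · rintro ⟨n, rfl⟩
      simp only [hsmul]
      refine ⟨?_, le_cent_iff.2 fun a ha => ?_⟩
      · rw [show (n : G) * t * (n : G)⁻¹ = MulAut.conj (n : G) t from rfl, MulEquiv.orderOf_eq, ht]
      · have ha' : (n : G)⁻¹ * a * n ∈ T := by
          have := ((Subgroup.mem_normalizer_iff.1 (inv_mem n.2)) a).1 ha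
          rwa [inv_inv] at this
        have h2 := ((le_cent_iff.1 htT) _ ha').eq
        show a * (n * t * (n : G)⁻¹) = n * t * (n : G)⁻¹ * a
        calc a * (n * t * (n : G)⁻¹) = n * ((n : G)⁻¹ * a * n * t) * (n : G)⁻¹ := by group
          _ = n * (t * ((n : G)⁻¹ * a * n)) * (n : G)⁻¹ := by rw [h2]
          _ = n * t * (n : G)⁻¹ * a := by group
    · rintro ⟨hx, hxT⟩
      obtain ⟨n, hn, e⟩ := burnside hF hT ht hx htT hxT
      exact ⟨⟨n, hn⟩, by simpa only [hsmul] using e⟩
  have h := Dvd.intro (Nat.card (MulAction.stabilizer N t)) (show Nat.card (MulAction.orbit N t) *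
    Nat.card (MulAction.stabilizer N t) = Nat.card N by
      rw [← Nat.card_prod, Nat.card_congr (MulAction.orbitProdStabilizerEquivGroup N t)])
  rw [horb] at h
  exact (h.trans (Subgroup.card_subgroup_dvd_card N)).trans hF.card_eq.dvd

/-- A subgroup of order 16 centralizing two involutions is abelian with three involutions, all
of which lie in all its subgroups of order 8. -/
theorem sixteen_facts {T : Subgroup G} (hT : Nat.card T = 16) {t s : G} (ht : orderOf t = 2)
    (hs : orderOf s = 2) (hne : t ≠ s) (htT : T ≤ centralizer ({t} : Set G))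
    (hsT : T ≤ centralizer ({s} : Set G)) :
    (∀ x ∈ T, ∀ y ∈ T, x * y = y * x) ∧
      (∀ r ∈ T, orderOf r = 2 → r = t ∨ r = s ∨ r = t * s) ∧
      ∀ D : Subgroup G, D ≤ T → Nat.card D = 8 → s ∈ D := by
  classical
  have htm : t ∈ T := mem_of_centralizes hF hT ht htT
  have hsm : s ∈ T := mem_of_centralizes hF hT hs hsT
  have hts : Commute t s := (le_cent_iff.1 hsT) t htm
  have hts2 := two_mul ht hs hne hts
  have hne1 : t ≠ t * s := fun e => ne_one_of_two hs (left_eq_mul.1 e)
  have hne2 : s ≠ t * s := fun e => ne_one_of_two ht (right_eq_mul.1 e)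
  have htsT : T ≤ centralizer ({t * s} : Set G) :=
    le_cent_iff.2 fun x hx => ((le_cent_iff.1 htT) x hx).mul_right ((le_cent_iff.1 hsT) x hx)
  have hab : ∀ x ∈ T, ∀ y ∈ T, x * y = y * x := by
    by_contra hab
    push_neg at hab
    obtain ⟨x, hx, y, hy, hxy⟩ := hab
    set Z := Subgroup.center T with hZ
    have hcen : ∀ {z : G} (hz : z ∈ T), T ≤ centralizer ({z} : Set G) → (⟨z, hz⟩ : T) ∈ Z :=
      fun hz h => Subgroup.mem_center_iff.2 fun g => Subtype.ext ((le_cent_iff.1 h) g g.2).eq
    let four : Fin 4 → Z := ![1, ⟨_, hcen htm htT⟩, ⟨_, hcen hsm hsT⟩,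
      ⟨_, hcen (mul_mem htm hsm) htsT⟩]
    have hfour : Function.Injective four := by
      intro a b hab
      have h := congrArg (fun z : Z => ((z : T) : G)) hab
      fin_cases a <;> fin_cases b <;> simp [four] at h ⊢ <;>
        first
          | exact ne_one_of_two ht h | exact ne_one_of_two ht h.symm
          | exact ne_one_of_two hs h | exact ne_one_of_two hs h.symm
          | exact ne_one_of_two hts2 h | exact ne_one_of_two hts2 h.symm
          | exact hne h | exact hne h.symm | exact hne1 h | exact hne1 h.symm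
          | exact hne2 h | exact hne2 h.symm
          | exact ne_one_of_two hs h.1 | exact ne_one_of_two ht h.1
    have hZ4 : 4 ≤ Nat.card Z := by simpa using Nat.card_le_card_of_injective four hfour
    have hmul : Nat.card Z * Z.index = 16 := by rw [Subgroup.card_mul_index, hT]
    have hnc : ∀ {p : T}, p = ⟨x, hx⟩ → ¬ IsCyclic (T ⧸ Z) := by
      intro p _ hc
      exact hxy (congrArg Subtype.val (commutative_of_cyclic_center_quotient (QuotientGroup.mk' Z)
        (by rw [QuotientGroup.ker_mk']) (⟨x, hx⟩ : T) ⟨y, hy⟩))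
    have hi4 : Z.index = 4 := by
      have h4 : Z.index ≤ 4 := by nlinarith
      have hq : Nat.card (T ⧸ Z) = Z.index := rfl
      have h0 : 0 < Z.index := by nlinarith
      interval_cases hi : Z.index
      · exact absurd (isCyclic_of_le_three (hq.le.trans (by norm_num))) (hnc rfl)
      · exact absurd (isCyclic_of_le_three (hq.le.trans (by norm_num))) (hnc rfl)
      · omega
      · rfl
    have hZc : Nat.card Z = 4 := by rw [hi4] at hmul; omega
    have hsurj : Function.Surjective four :=
      (hfour.bijective_of_nat_card_le (by rw [hZc]; simp)).2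
    have hZmem : ∀ z ∈ Z, z = 1 ∨ orderOf ((z : T) : G) = 2 := by
      intro z hz
      obtain ⟨i, hi⟩ := hsurj ⟨z, hz⟩
      have hi' : ((four i : Z) : T) = z := congrArg Subtype.val hi
      subst hi'
      fin_cases i <;> simp [four, ht, hs, hts2]
    set X : T := ⟨x, hx⟩
    set Y : T := ⟨y, hy⟩
    have hXY : ¬ Commute X Y := fun e => hxy (congrArg Subtype.val e.eq)
    have hXZ : X ∉ Z := fun e => hXY (Subgroup.mem_center_iff.1 e Y).symm
    have hYZ : Y ∉ Z := fun e => hXY (Subgroup.mem_center_iff.1 e X)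
    have hXYZ : X * Y ∉ Z := fun e => hXY (by
      have h := Subgroup.mem_center_iff.1 e X
      rw [mul_assoc] at h
      exact mul_left_cancel h)
    have hXiYZ : X⁻¹ * Y ∉ Z := fun e => hXY (by
      have h := Subgroup.mem_center_iff.1 e X
      rw [mul_inv_cancel_left, mul_assoc] at h
      exact (eq_inv_mul_iff_mul_eq.1 h))
    let cs : Fin 4 → T ⧸ Z := ![((1 : T) : T ⧸ Z), X, Y, (X * Y : T)]
    have hcs : Function.Surjective cs := by
      refine (Function.Injective.bijective_of_nat_card_le (f := cs) ?_ (by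
        rw [show Nat.card (T ⧸ Z) = 4 from hi4]; simp)).2
      have hn : ∀ g a : T, g * a ∈ Z → a * g ∈ Z := fun g a h => by
        have := (inferInstance : Z.Normal).mem_comm h
        exact this
      intro a b hab
      fin_cases a <;> fin_cases b <;>
        first
          | rfl
          | (exfalso
             replace hab := QuotientGroup.eq.1 hab
             try simp only [inv_one, one_mul, mul_one, inv_mul_cancel_left, mul_inv_rev,
               inv_mul_cancel_right, inv_mem_iff] at hab
             first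
              | exact hXZ hab | exact hYZ hab | exact hXYZ hab | exact hXiYZ hab
              | exact hXiYZ (by simpa using inv_mem hab)
              | exact hXYZ (inv_mem_iff.1 (by simpa [mul_inv_rev] using hab))
              | exact hXZ (inv_mem_iff.1 (by simpa [mul_assoc] using hn _ _ hab))
              | exact hXZ (by simpa [mul_assoc] using hn _ _ hab))
    set c : T := X * Y * X⁻¹ * Y⁻¹ with hc
    have hcZ : c ∈ Z := by
      have hcomm : ∀ a b : T ⧸ Z, a * b = b * a := by
        have h := IsPGroup.commutative_of_card_eq_prime_sq (p := 2) (G := T ⧸ Z)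
          (by rw [show Nat.card (T ⧸ Z) = 4 from hi4]; norm_num)
        exact h
      rw [← QuotientGroup.eq_one_iff, hc, QuotientGroup.mk_mul, QuotientGroup.mk_mul,
        QuotientGroup.mk_mul, QuotientGroup.mk_inv, QuotientGroup.mk_inv, hcomm (X : T ⧸ Z) Y,
        mul_inv_cancel_right, mul_inv_cancel]
    have hc1 : c ≠ 1 := fun e => hXY (by
      have : X * Y = Y * X := by
        calc X * Y = c * (Y * X) := by rw [hc]; group
          _ = Y * X := by rw [e, one_mul]
      exact this)
    have hc2 : orderOf ((c : T) : G) = 2 := (hZmem c hcZ).resolve_left hc1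
    have hcc : ∀ g : T, g * c * g⁻¹ = c := fun g => by
      rw [Subgroup.mem_center_iff.1 hcZ g, mul_inv_cancel_right]
    have hcinv : c⁻¹ = c := Subtype.ext (by rw [Subgroup.coe_inv]; exact inv_of_two hc2)
    have hzr : ∀ (a b z : T), z ∈ Z → (a * z) * b * (a * z)⁻¹ * b⁻¹ = a * b * a⁻¹ * b⁻¹ := by
      intro a b z hz
      have h := Subgroup.mem_center_iff.1 hz b
      calc (a * z) * b * (a * z)⁻¹ * b⁻¹ = a * (z * b) * z⁻¹ * a⁻¹ * b⁻¹ := by group
        _ = a * (b * z) * z⁻¹ * a⁻¹ * b⁻¹ := by rw [h]
        _ = a * b * a⁻¹ * b⁻¹ := by group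
    have hzl : ∀ (a b z : T), z ∈ Z → a * (b * z) * a⁻¹ * (b * z)⁻¹ = a * b * a⁻¹ * b⁻¹ := by
      intro a b z hz
      have h := Subgroup.mem_center_iff.1 hz a⁻¹
      calc a * (b * z) * a⁻¹ * (b * z)⁻¹ = a * b * (z * a⁻¹) * z⁻¹ * b⁻¹ := by group
        _ = a * b * (a⁻¹ * z) * z⁻¹ * b⁻¹ := by rw [h]
        _ = a * b * a⁻¹ * b⁻¹ := by group
    have hall : ∀ a b : T, a * b * a⁻¹ * b⁻¹ = 1 ∨ a * b * a⁻¹ * b⁻¹ = c := by
      intro a b
      obtain ⟨i, hi⟩ := hcs a
      obtain ⟨k, hk⟩ := hcs b
      let rep : Fin 4 → T := ![1, X, Y, X * Y]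
      have hrep : ∀ i, cs i = (rep i : T ⧸ Z) := fun i => by fin_cases i <;> rfl
      rw [hrep, QuotientGroup.eq] at hi hk
      rw [show a = rep i * ((rep i)⁻¹ * a) by group, hzr _ _ _ hi,
        show b = rep k * ((rep k)⁻¹ * b) by group, hzl _ _ _ hk]
      have e1 : Y * X * Y⁻¹ * X⁻¹ = c := by rw [← hcinv, hc]; group
      have e2 : X * (X * Y) * X⁻¹ * (X * Y)⁻¹ = c := by
        rw [← hcc X, hc]; group
      have e3 : X * Y * X * (X * Y)⁻¹ * X⁻¹ = c := by
        rw [← hcc X, ← e1]; group
      have e4 : Y * (X * Y) * Y⁻¹ * (X * Y)⁻¹ = c := by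
        rw [← e1]; group
      have e5 : X * Y * Y * (X * Y)⁻¹ * Y⁻¹ = c := by
        rw [hc]; group
      fin_cases i <;> fin_cases k <;> simp only [rep] <;>
        first
          | (left; simp; done) | (left; group; done)
          | (right; simpa using hc.symm) | (right; simpa using e1) | (right; exact e2)
          | (right; exact e3) | (right; exact e4) | (right; exact e5)
    obtain ⟨r, hr2, hrT, hrne⟩ : ∃ r, orderOf r = 2 ∧ T ≤ centralizer ({r} : Set G) ∧
        r ≠ ((c : T) : G) := by
      by_cases h : ((c : T) : G) = t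
      · exact ⟨s, hs, hsT, fun e => hne (h.symm.trans e.symm)⟩
      · exact ⟨t, ht, htT, fun e => h e.symm⟩
    obtain ⟨n, hn, hnc'⟩ := burnside hF hT hc2 hr2
      (le_cent_iff.2 fun g hg => congrArg Subtype.val (Subgroup.mem_center_iff.1 hcZ ⟨g, hg⟩)) hrT
    have hnm : ∀ g ∈ T, n * g * n⁻¹ ∈ T := fun g hg => ((Subgroup.mem_normalizer_iff.1 hn) g).1 hg
    have e : n * ((c : T) : G) * n⁻¹ = (((⟨_, hnm x hx⟩ : T) * ⟨_, hnm y hy⟩ *
        (⟨_, hnm x hx⟩ : T)⁻¹ * (⟨_, hnm y hy⟩ : T)⁻¹ : T) : G) := by
      rw [hc]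
      simp only [Subgroup.coe_mul, Subgroup.coe_inv, X, Y]
      group
    rcases hall ⟨_, hnm x hx⟩ ⟨_, hnm y hy⟩ with h | h <;> rw [h, hnc'] at e
    · exact ne_one_of_two hr2 e
    · exact hrne e
  have hTc : ∀ r ∈ T, T ≤ centralizer ({r} : Set G) := fun r hr =>
    le_cent_iff.2 fun a ha => hab a ha r hr
  let sq : T →* T :=
    { toFun := fun a => a * a
      map_one' := one_mul 1
      map_mul' := fun a b => by
        have hc' : ∀ a b : T, a * b = b * a := fun a b => Subtype.ext (hab a a.2 b b.2)
        rw [mul_assoc, ← mul_assoc b a b, hc' b a, mul_assoc a b b, ← mul_assoc] }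
  have hker : ∀ a : T, a ∈ sq.ker ↔ a = 1 ∨ orderOf (a : G) = 2 := by
    intro a
    rw [MonoidHom.mem_ker]
    constructor
    · intro h
      by_cases h1 : a = 1
      · exact Or.inl h1
      · exact Or.inr (two_of_mul_self (congrArg Subtype.val h) fun e => h1 (Subtype.ext e))
    · rintro (rfl | h)
      · exact map_one sq
      · exact Subtype.ext (mul_self_of_two h)
  have hI : Nat.card {r : G // orderOf r = 2 ∧ T ≤ centralizer ({r} : Set G)} + 1 =
      Nat.card sq.ker := by
    have e : {r : G // orderOf r = 2 ∧ T ≤ centralizer ({r} : Set G)} ≃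
        {a : sq.ker // a ≠ 1} :=
      { toFun := fun r => ⟨⟨⟨r.1, mem_of_centralizes hF hT r.2.1 r.2.2⟩, (hker _).2 (Or.inr r.2.1)⟩,
          fun h => ne_one_of_two r.2.1 (congrArg (fun a : sq.ker => ((a : T) : G)) h)⟩
        invFun := fun a => ⟨((a.1 : T) : G),
          ((hker _).1 a.1.2).resolve_left fun h => a.2 (Subtype.ext h), hTc _ (a.1 : T).2⟩
        left_inv := fun r => rfl
        right_inv := fun a => rfl }
    letI := Fintype.ofFinite sq.ker
    rw [Nat.card_congr e, Nat.card_eq_fintype_card, Nat.card_eq_fintype_card,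
      Fintype.card_subtype_compl, Fintype.card_subtype_eq]
    have : 0 < Fintype.card sq.ker := Fintype.card_pos
    omega
  let three : Fin 3 → {r : G // orderOf r = 2 ∧ T ≤ centralizer ({r} : Set G)} :=
    ![⟨t, ht, htT⟩, ⟨s, hs, hsT⟩, ⟨t * s, hts2, htsT⟩]
  have hthree : Function.Injective three := by
    intro a b hab'
    have h := congrArg Subtype.val hab'
    fin_cases a <;> fin_cases b <;> simp [three] at h ⊢ <;>
      first
        | exact hne h | exact hne h.symm | exact hne1 h | exact hne1 h.symm
        | exact hne2 h | exact hne2 h.symm | exact ne_one_of_two hs h | exact ne_one_of_two ht h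
        | exact ne_one_of_two hs h.1 | exact ne_one_of_two ht h.1
  have h3 : 3 ≤ Nat.card {r : G // orderOf r = 2 ∧ T ≤ centralizer ({r} : Set G)} := by
    simpa using Nat.card_le_card_of_injective three hthree
  have hcnt : Nat.card {r : G // orderOf r = 2 ∧ T ≤ centralizer ({r} : Set G)} = 3 := by
    have hd := card_fused_dvd hF hT ht htT
    have hk : Nat.card sq.ker ∣ 16 := hT ▸ Subgroup.card_subgroup_dvd_card _
    rw [← hI] at hk
    obtain ⟨i, hi, e⟩ := (Nat.dvd_prime_pow Nat.prime_two (m := 4)).1 (by norm_num; exact hk)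
    have hor : Nat.card {r : G // orderOf r = 2 ∧ T ≤ centralizer ({r} : Set G)} = 3 ∨
        Nat.card {r : G // orderOf r = 2 ∧ T ≤ centralizer ({r} : Set G)} = 7 ∨
        Nat.card {r : G // orderOf r = 2 ∧ T ≤ centralizer ({r} : Set G)} = 15 := by
      interval_cases i <;> omega
    rcases hor with h | h | h
    · exact h
    · rw [h] at hd; norm_num at hd
    · rw [h] at hd; norm_num at hd
  have hsurj : Function.Surjective three := (hthree.bijective_of_nat_card_le (by rw [hcnt]; simp)).2
  have hlist : ∀ r ∈ T, orderOf r = 2 → r = t ∨ r = s ∨ r = t * s := by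
    intro r hr hr2
    obtain ⟨i, hi⟩ := hsurj ⟨r, hr2, hTc r hr⟩
    have := congrArg Subtype.val hi
    fin_cases i <;> simp [three] at this <;> simp [this]
  refine ⟨hab, hlist, fun D hDT hD => ?_⟩
  have hk4 : Nat.card sq.ker = 4 := by omega
  have hr4 : Nat.card sq.range = 4 := by
    have := sq.ker.card_mul_index
    rw [Subgroup.index_ker, hk4, hT] at this
    omega
  have hconj : ∀ n ∈ normalizer (T : Set G), ∀ a : G, a ∈ T → n * a * n⁻¹ ∈ T := fun n hn a ha =>
    ((Subgroup.mem_normalizer_iff.1 hn) a).1 ha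
  have hle : sq.range ≤ sq.ker := by
    intro q hq
    rw [MonoidHom.mem_ker]
    by_contra hne'
    let ψ : sq.range →* T := sq.comp sq.range.subtype
    have h16 : Nat.card ψ.range * Nat.card ψ.ker = 4 := by
      rw [mul_comm, ← hr4, ← Subgroup.index_ker, Subgroup.card_mul_index]
    have hker2 : 2 ≤ Nat.card ψ.ker := by
      obtain ⟨w, hw, hw2⟩ := exists_two (sq.range) (by rw [hr4]; norm_num)
      have : (⟨w, hw⟩ : sq.range) ∈ ψ.ker := by
        rw [MonoidHom.mem_ker]
        exact mul_self_of_two hw2
      refine Finite.one_lt_card_iff_nontrivial.2 ⟨⟨_, this⟩, 1, fun e => ?_⟩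
      exact ne_one_of_two hw2 (congrArg (fun a : ψ.ker => ((a : sq.range) : T)) e)
    have hw : orderOf ((q * q : T) : G) = 2 := by
      refine (((hker (q * q)).1 ?_)).resolve_left hne'
      rw [MonoidHom.mem_ker]
      by_contra h8
      obtain ⟨p, rfl⟩ := hq
      have hp16 : p ^ 16 = 1 := hT ▸ pow_card_eq_one'
      have e : orderOf p = 16 := by
        refine orderOf_eq_prime_pow (p := 2) (n := 3) ?_ (by norm_num; exact hp16)
        intro h
        refine h8 ?_
        show p * p * (p * p) * (p * p * (p * p)) = 1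
        rw [← h, show (2 : ℕ) ^ 3 = 8 by norm_num, pow_succ, pow_succ, pow_succ, pow_succ, pow_succ, pow_succ,
          pow_succ, pow_one]
        group
      have hcyc : IsCyclic T := isCyclic_of_orderOf_eq_card p (by rw [e, hT])
      letI : Fintype T := Fintype.ofFinite T
      letI : DecidableEq T := Classical.decEq T
      have := IsCyclic.card_pow_eq_one_le (α := T) (n := 2) (by norm_num)
      have hle4 : Nat.card sq.ker ≤ 2 := by
        refine le_trans (le_of_eq ?_) this
        rw [← Fintype.card_subtype, ← Nat.card_eq_fintype_card]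
        exact Nat.card_congr (Equiv.subtypeEquivRight fun a => by
          rw [MonoidHom.mem_ker, pow_two]; rfl)
      omega
    have hqq : T ≤ centralizer ({((q * q : T) : G)} : Set G) := hTc _ (q * q).2
    have himg : 3 ≤ Nat.card ψ.range := by
      refine hcnt ▸ Nat.card_le_card_of_injective (fun r => ⟨⟨r.1, mem_of_centralizes hF hT r.2.1 r.2.2⟩, ?_⟩)
        fun a b h => Subtype.ext (congrArg (fun a : ψ.range => ((a : T) : G)) h)
      obtain ⟨n, hn, hnr⟩ := burnside hF hT hw r.2.1 hqq r.2.2
      obtain ⟨p, hp⟩ := hq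
      refine ⟨⟨sq ⟨n * (p : G) * n⁻¹, hconj n hn _ p.2⟩, ⟨_, rfl⟩⟩, Subtype.ext ?_⟩
      subst hp
      show (n * (p : G) * n⁻¹) * (n * (p : G) * n⁻¹) * ((n * (p : G) * n⁻¹) * (n * (p : G) * n⁻¹)) = r.1
      rw [← hnr]
      show _ = n * ((p : G) * (p : G) * ((p : G) * (p : G))) * n⁻¹
      group
    nlinarith
  have heq : sq.range = sq.ker := Subgroup.eq_of_le_of_card_ge hle (by omega)
  obtain ⟨p, hp⟩ : (⟨s, hsm⟩ : T) ∈ sq.range := heq ▸ (hker _).2 (Or.inr hs)
  have hidx : (D.subgroupOf T).index = 2 := by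
    have := (D.subgroupOf T).card_mul_index
    rw [Nat.card_congr (Subgroup.subgroupOfEquivOfLe hDT).toEquiv, hD, hT] at this
    omega
  have := Subgroup.mul_self_mem_of_index_two hidx p
  rw [show p * p = ⟨s, hsm⟩ from hp, Subgroup.mem_subgroupOf] at this
  exact this

/-- No subgroup of order 16 centralizes two involutions. -/
theorem not_sixteen {T : Subgroup G} (hT : Nat.card T = 16) {t s : G} (ht : orderOf t = 2)
    (hs : orderOf s = 2) (hne : t ≠ s) (htT : T ≤ centralizer ({t} : Set G))
    (hsT : T ≤ centralizer ({s} : Set G)) : False := by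
  have := Fact.mk Nat.prime_two
  obtain ⟨hab, -, hD⟩ := sixteen_facts hF hT ht hs hne htT hsT
  have key : ∀ r, orderOf r = 2 → r * t = t * r → r = t ∨ r = s ∨ r = t * s := by
    intro r hr hrt
    obtain ⟨T', hT', hrT', htT'⟩ := exists_sixteen hF ht (D := zpowers r) (n := 1)
      (by rw [Nat.card_zpowers, hr]; norm_num)
      (zpowers_le.2 (mem_centralizer_singleton_iff.2 hrt))
    set C := centralizer ({t} : Set G)
    have hidx : ∀ {U : Subgroup G}, Nat.card U = 16 → U ≤ C → (U.subgroupOf C).index = 3 := by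
      intro U hU hUC
      have := (U.subgroupOf C).card_mul_index
      rw [Nat.card_congr (Subgroup.subgroupOfEquivOfLe hUC).toEquiv, hU, hF.card_cent t ht] at this
      omega
    set D := T ⊓ T' with hDdef
    have hD8 : s ∈ D := by
      have h := Subgroup.index_inf_le (H := T.subgroupOf C) (K := T'.subgroupOf C)
      rw [hidx hT htT, hidx hT' htT'] at h
      have h2 := (T.subgroupOf C ⊓ T'.subgroupOf C).card_mul_index
      rw [hF.card_cent t ht] at h2
      have hc : Nat.card (T.subgroupOf C ⊓ T'.subgroupOf C : Subgroup C) = Nat.card D := by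
        rw [show T.subgroupOf C ⊓ T'.subgroupOf C = D.subgroupOf C from
          (Subgroup.comap_inf T T' C.subtype).symm]
        exact Nat.card_congr (Subgroup.subgroupOfEquivOfLe (inf_le_left.trans htT)).toEquiv
      rw [hc] at h2
      have hdvd : Nat.card D ∣ 2 ^ 4 := by
        have := Subgroup.card_dvd_of_le (inf_le_left : D ≤ T)
        rw [hT] at this; norm_num; exact this
      obtain ⟨i, hi, e⟩ := (Nat.dvd_prime_pow Nat.prime_two).1 hdvd
      interval_cases i
      · rw [e] at h2; norm_num at h2; omega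
      · rw [e] at h2; norm_num at h2; omega
      · rw [e] at h2; norm_num at h2; omega
      · exact hD D inf_le_left (by rw [e]; norm_num)
      · have he : D = T := Subgroup.eq_of_le_of_card_ge inf_le_left (by rw [e, hT]; norm_num)
        rw [he]
        exact mem_of_centralizes hF hT hs hsT
    have hab' : ∀ x ∈ T', ∀ y ∈ T', x * y = y * x := by
      let S : Sylow 2 G := Sylow.ofCard T (by rw [hT, hF.card_eq, two_part.1]; norm_num)
      let S' : Sylow 2 G := Sylow.ofCard T' (by rw [hT', hF.card_eq, two_part.1]; norm_num)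
      let e := S.equiv S'
      intro x hx y hy
      obtain ⟨a, ha⟩ := e.surjective ⟨x, by simpa [S'] using hx⟩
      obtain ⟨b, hb⟩ := e.surjective ⟨y, by simpa [S'] using hy⟩
      have h : a * b = b * a :=
        Subtype.ext (hab a (by simpa [S] using a.2) b (by simpa [S] using b.2))
      have h' := congrArg e h
      rw [map_mul, map_mul, ha, hb] at h'
      exact congrArg Subtype.val h'
    have hsT' : T' ≤ centralizer ({s} : Set G) :=
      le_cent_iff.2 fun a ha => hab' a ha s (mem_inf.1 hD8).2
    exact (sixteen_facts hF hT' ht hs hne htT' hsT').2.1 r (hrT' (mem_zpowers r)) hr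
  classical
  have := hF.six t ht
  let f : {r : G // orderOf r = 2 ∧ r ≠ t ∧ r * t = t * r} → Bool := fun r => decide (r.1 = s)
  have hf : Function.Injective f := by
    rintro ⟨a, ha, ha1, ha2⟩ ⟨b, hb, hb1, hb2⟩ h
    simp only [f, decide_eq_decide] at h
    refine Subtype.ext ?_
    show a = b
    rcases key a ha ha2 with rfl | rfl | rfl
    · exact absurd rfl ha1
    · exact (h.1 rfl).symm
    · rcases key b hb hb2 with rfl | rfl | rfl
      · exact absurd rfl hb1
      · exact absurd (h.2 rfl) fun e => ne_one_of_two ht (mul_eq_right.1 e)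
      · rfl
  have h2 := Nat.card_le_card_of_injective f hf
  rw [Nat.card_eq_fintype_card (α := Bool), Fintype.card_bool] at h2
  omega

/-- The centralizer of two commuting involutions has no subgroup of order 8. -/
theorem not_eight {t s : G} (ht : orderOf t = 2) (hs : orderOf s = 2) (hne : t ≠ s)
    (hts : Commute t s) {M : Subgroup G} (hMt : M ≤ centralizer ({t} : Set G))
    (hMs : M ≤ centralizer ({s} : Set G)) : ¬ 8 ∣ Nat.card M := by
  classical
  intro h8
  have := Fact.mk Nat.prime_two
  set J := centralizer ({t} : Set G) ⊓ centralizer ({s} : Set G)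
  have hJ8 : 8 ∣ Nat.card J := h8.trans (Subgroup.card_dvd_of_le (le_inf hMt hMs))
  have hn16 : ∀ U : Subgroup G, U ≤ J → Nat.card U ≠ 16 := fun U hU h =>
    not_sixteen hF h ht hs hne (hU.trans inf_le_left) (hU.trans inf_le_right)
  obtain ⟨P⟩ := (inferInstance : Nonempty (Sylow 2 J))
  set D := (P : Subgroup J).map J.subtype with hDdef
  have hDJ : D ≤ J := Subgroup.map_subtype_le _
  have hDP : Nat.card D = Nat.card P :=
    (Nat.card_congr ((P : Subgroup J).equivMapOfInjective _ J.subtype_injective).toEquiv).symm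
  have hD : Nat.card D = 8 := by
    obtain ⟨n, hn⟩ := IsPGroup.iff_card.1 P.2
    have hd1 : 2 ^ n ∣ 48 := by
      rw [← hn, ← hDP, ← hF.card_cent t ht]
      exact Subgroup.card_dvd_of_le (hDJ.trans inf_le_left)
    have hd2 : 2 ^ 3 ∣ Nat.card P := P.pow_dvd_card_of_pow_dvd_card (by norm_num; exact hJ8)
    rw [hn] at hd2
    have h3 : 3 ≤ n := (Nat.pow_dvd_pow_iff_le_right (by norm_num)).1 hd2
    have hn5 : n < 6 := Nat.lt_of_not_le fun h => by
      have := (pow_dvd_pow 2 h).trans hd1; norm_num at this
    have := hn16 D hDJ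
    interval_cases n <;> norm_num at hn hd1 <;> omega
  have hmem : ∀ {x : G} (hx : x ∈ J), orderOf x = 2 → (∀ a ∈ J, Commute a x) → x ∈ D := by
    intro x hx hx2 hc
    have hnrm : (zpowers (⟨x, hx⟩ : J)).Normal := by
      refine ⟨fun n hn g => ?_⟩
      obtain ⟨i, rfl⟩ := mem_zpowers_iff.1 hn
      have h : Commute g (⟨x, hx⟩ : J) := Subtype.ext (hc g g.2).eq
      rw [(h.zpow_right i).eq, mul_inv_cancel_right]
      exact mem_zpowers_iff.2 ⟨i, rfl⟩
    have hp : IsPGroup 2 (zpowers (⟨x, hx⟩ : J)) := IsPGroup.of_card (n := 1)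
      (by rw [Nat.card_zpowers, ← Subgroup.orderOf_coe, hx2]; norm_num)
    refine ⟨⟨x, hx⟩, ?_, rfl⟩
    have hsup := P.2.to_sup_of_normal_right (K := zpowers (⟨x, hx⟩ : J)) hp
    have he := P.is_maximal' hsup le_sup_left
    exact he ▸ Subgroup.mem_sup_right (mem_zpowers _)
  have hJt : ∀ a ∈ J, Commute a t := fun a ha => le_cent_iff.1 inf_le_left a ha
  have hJs : ∀ a ∈ J, Commute a s := fun a ha => le_cent_iff.1 inf_le_right a ha
  have htJ : t ∈ J := mem_inf.2 ⟨mem_centralizer_singleton_iff.2 rfl,
    mem_centralizer_singleton_iff.2 hts.eq⟩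
  have hsJ : s ∈ J := mem_inf.2 ⟨mem_centralizer_singleton_iff.2 hts.eq.symm,
    mem_centralizer_singleton_iff.2 rfl⟩
  have htD := hmem htJ ht hJt
  have hsD := hmem hsJ hs hJs
  have htsD := mul_mem htD hsD
  -- the structure of `D`
  have hts2 := two_mul ht hs hne hts
  let Z := Subgroup.center D
  have hcomm : ∀ a ∈ D, ∀ b ∈ D, a * b = b * a := by
    by_contra hn
    push_neg at hn
    obtain ⟨a, ha, b, hb, hab⟩ := hn
    have hz : ∀ {z : G} (hz : z ∈ D), (∀ g ∈ J, Commute g z) → (⟨z, hz⟩ : D) ∈ Z := fun hz h =>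
      Subgroup.mem_center_iff.2 fun g => Subtype.ext (h g (hDJ g.2)).eq
    let four : Fin 4 → Z := ![1, ⟨_, hz htD hJt⟩, ⟨_, hz hsD hJs⟩,
      ⟨_, hz htsD fun g hg => (hJt g hg).mul_right (hJs g hg)⟩]
    have hfour : Function.Injective four := by
      intro a b hab
      have h := congrArg (fun z : Z => ((z : D) : G)) hab
      fin_cases a <;> fin_cases b <;> simp [four] at h ⊢ <;>
        first
          | exact ne_one_of_two ht h | exact ne_one_of_two ht h.symm
          | exact ne_one_of_two hs h | exact ne_one_of_two hs h.symm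
          | exact ne_one_of_two hts2 h | exact ne_one_of_two hts2 h.symm
          | exact hne h | exact hne h.symm
          | exact ne_one_of_two hs h.1 | exact ne_one_of_two ht h.1
    have h4 : 4 ≤ Nat.card Z := by simpa using Nat.card_le_card_of_injective four hfour
    have hmul : Nat.card Z * Z.index = 8 := by rw [Subgroup.card_mul_index, hD]
    have hcyc : IsCyclic (D ⧸ Z) :=
      isCyclic_of_le_three (show Z.index ≤ 3 by nlinarith)
    exact hab (congrArg Subtype.val (commutative_of_cyclic_center_quotient (QuotientGroup.mk' Z)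
      (by rw [QuotientGroup.ker_mk']) (⟨a, ha⟩ : D) ⟨b, hb⟩))
  let sq : D →* D :=
    { toFun := fun a => a * a
      map_one' := one_mul 1
      map_mul' := fun a b => by
        have hc' : ∀ a b : D, a * b = b * a := fun a b => Subtype.ext (hcomm a a.2 b b.2)
        rw [mul_assoc, ← mul_assoc b a b, hc' b a, mul_assoc a b b, ← mul_assoc] }
  have hr2 : Nat.card sq.range ≤ 2 := by
    have h := sq.ker.card_mul_index
    rw [Subgroup.index_ker, hD] at h
    let four : Fin 4 → sq.ker := ![1, ⟨⟨t, htD⟩, Subtype.ext (mul_self_of_two ht)⟩,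
      ⟨⟨s, hsD⟩, Subtype.ext (mul_self_of_two hs)⟩,
      ⟨⟨t * s, htsD⟩, Subtype.ext (mul_self_of_two hts2)⟩]
    have hfour : Function.Injective four := by
      intro a b hab
      have h := congrArg (fun z : sq.ker => ((z : D) : G)) hab
      fin_cases a <;> fin_cases b <;> simp [four] at h ⊢ <;>
        first
          | exact ne_one_of_two ht h | exact ne_one_of_two ht h.symm
          | exact ne_one_of_two hs h | exact ne_one_of_two hs h.symm
          | exact ne_one_of_two hts2 h | exact ne_one_of_two hts2 h.symm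
          | exact hne h | exact hne h.symm
          | exact ne_one_of_two hs h.1 | exact ne_one_of_two ht h.1
    have h4 : 4 ≤ Nat.card sq.ker := by simpa using Nat.card_le_card_of_injective four hfour
    nlinarith
  -- the action of an element of a bigger 2-subgroup
  have key : ∀ r, orderOf r = 2 → r ∈ D → D ≤ centralizer ({r} : Set G) →
      (∀ u, orderOf u = 2 → (∃ d : D, ((sq d : D) : G) = u) → u = r) ∧
      ((∀ a ∈ D, a * a = 1) → False) := by
    intro r hr hrD hDr
    obtain ⟨T, hT, hDT, hTr⟩ := exists_sixteen hF hr (n := 3) (by rw [hD]; norm_num) hDr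
    have hidx : (D.subgroupOf T).index = 2 := by
      have := (D.subgroupOf T).card_mul_index
      rw [Nat.card_congr (Subgroup.subgroupOfEquivOfLe hDT).toEquiv, hD, hT] at this
      omega
    have hnm : ∀ g ∈ T, ∀ a ∈ D, g * a * g⁻¹ ∈ D := fun g hg a ha => by
      have := (Subgroup.normal_of_index_eq_two hidx).conj_mem ⟨a, hDT ha⟩
        (Subgroup.mem_subgroupOf.2 ha) ⟨g, hg⟩
      exact Subgroup.mem_subgroupOf.1 this
    refine ⟨fun u hu ⟨d, hd⟩ => ?_, fun hel => ?_⟩
    · by_contra hur
      refine not_sixteen hF hT hu hr hur (le_cent_iff.2 fun g hg => ?_) hTr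
      let x : sq.range := ⟨sq ⟨_, hnm g hg d d.2⟩, ⟨_, rfl⟩⟩
      let y : sq.range := ⟨sq d, ⟨_, rfl⟩⟩
      have hgu : g * u * g⁻¹ = ((x : D) : G) := by
        rw [← hd]
        show g * ((d : G) * (d : G)) * g⁻¹ = g * (d : G) * g⁻¹ * (g * (d : G) * g⁻¹)
        group
      have hy1 : y ≠ 1 := fun e => ne_one_of_two hu (by
        rw [← hd]; exact congrArg (fun z : sq.range => ((z : D) : G)) e)
      have hxy : x = y := by
        by_contra hxy
        by_cases hx1 : x = 1
        · have h1 : g * u * g⁻¹ = 1 := by rw [hgu, hx1]; rfl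
          exact ne_one_of_two hu (conj_eq_one_iff.1 h1)
        · have h3 : 3 ≤ Nat.card sq.range := by
            have hinj : Function.Injective (![1, x, y] : Fin 3 → sq.range) := by
              intro a b hab
              fin_cases a <;> fin_cases b <;> simp at hab ⊢ <;>
                first
                  | exact hxy hab | exact hxy hab.symm | exact hx1 hab | exact hx1 hab.symm
                  | exact hy1 hab | exact hy1 hab.symm
            simpa using Nat.card_le_card_of_injective _ hinj
          omega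
      rw [hxy, hd] at hgu
      exact mul_inv_eq_iff_eq_mul.1 hgu
    · obtain ⟨g, hg, hgD⟩ : ∃ g ∈ T, g ∉ D := by
        by_contra h
        push_neg at h
        have := Nat.card_mono (D : Set G).toFinite h
        simp only [SetLike.coe_sort_coe] at this
        rw [hD, hT] at this
        omega
      let φ : D →* D :=
        { toFun := fun a => ⟨g * (a : G) * g⁻¹ * (a : G), mul_mem (hnm g hg a a.2) a.2⟩
          map_one' := Subtype.ext (by simp)
          map_mul' := fun a b => Subtype.ext (by
            simp only [Subgroup.coe_mul]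
            have h := hcomm _ (hnm g hg b b.2) _ a.2
            calc g * ((a : G) * b) * g⁻¹ * ((a : G) * b)
                = g * (a : G) * g⁻¹ * ((g * (b : G) * g⁻¹) * a) * b := by group
              _ = g * (a : G) * g⁻¹ * ((a : G) * (g * (b : G) * g⁻¹)) * b := by rw [h]
              _ = g * (a : G) * g⁻¹ * (a : G) * (g * (b : G) * g⁻¹ * b) := by group) }
      have hfix : ∀ a, a ∈ φ.ker → Commute g (a : G) := by
        intro a ha
        have h : g * (a : G) * g⁻¹ * a = 1 := congrArg Subtype.val (MonoidHom.mem_ker.1 ha)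
        have h2 : g * (a : G) * g⁻¹ = a := by
          rw [eq_inv_of_mul_eq_one_left h, inv_eq_of_mul_eq_one_left (hel a a.2)]
        exact mul_inv_eq_iff_eq_mul.1 h2
      have hrk : φ.range ≤ φ.ker := by
        rintro _ ⟨a, rfl⟩
        rw [MonoidHom.mem_ker]
        refine Subtype.ext ?_
        show g * (g * (a : G) * g⁻¹ * a) * g⁻¹ * (g * (a : G) * g⁻¹ * a) = 1
        have hgg : (⟨g, hg⟩ : T) * ⟨g, hg⟩ ∈ D.subgroupOf T :=
          Subgroup.mul_self_mem_of_index_two hidx _
        rw [Subgroup.mem_subgroupOf] at hgg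
        have e : g * g * (a : G) * (g * g)⁻¹ = a := by
          rw [show g * g * (a : G) = a * (g * g) from hcomm _ hgg _ a.2, mul_inv_cancel_right]
        calc g * (g * (a : G) * g⁻¹ * a) * g⁻¹ * (g * (a : G) * g⁻¹ * a)
            = g * g * (a : G) * (g * g)⁻¹ * ((g * (a : G) * g⁻¹) * (g * (a : G) * g⁻¹)) * a := by
              group
          _ = a * 1 * a := by rw [e, hel _ (hnm g hg a a.2)]
          _ = 1 := by rw [mul_one, hel a a.2]
      have h4 : 4 ≤ Nat.card φ.ker := by
        have h := φ.ker.card_mul_index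
        rw [Subgroup.index_ker, hD] at h
        have hle := Nat.card_mono (φ.ker : Set D).toFinite hrk
        simp only [SetLike.coe_sort_coe] at hle
        have hd : Nat.card φ.ker ∣ 8 := ⟨_, h.symm⟩
        have h9 : 3 ≤ Nat.card φ.ker := by nlinarith
        obtain ⟨i, hi, e⟩ := (Nat.dvd_prime_pow Nat.prime_two (m := 3)).1 (by norm_num; exact hd)
        rw [e] at h9 ⊢
        interval_cases i <;> simp only [Nat.reducePow] at h9 ⊢ <;> omega
      obtain ⟨w, hw, hw1, hwr⟩ : ∃ w ∈ φ.ker, w ≠ 1 ∧ ((w : D) : G) ≠ r := by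
        by_contra h
        push_neg at h
        have hinj : Function.Injective fun w : φ.ker => decide ((w : D) = 1) := by
          intro a b hab
          simp only [decide_eq_decide] at hab
          by_cases ha : (a : D) = 1
          · exact Subtype.ext (ha.trans (hab.1 ha).symm)
          · exact Subtype.ext (Subtype.ext ((h a a.2 ha).trans
              (h b b.2 fun hb => ha (hab.2 hb)).symm))
        have h2 := Nat.card_le_card_of_injective _ hinj
        rw [Nat.card_eq_fintype_card (α := Bool), Fintype.card_bool] at h2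
        omega
      refine not_sixteen hF hT (two_of_mul_self (hel w w.2) fun e => hw1 (Subtype.ext e)) hr hwr
        (le_cent_iff.2 fun a ha => ?_) hTr
      by_cases haD : a ∈ D
      · exact hcomm a haD w w.2
      · have hga : g⁻¹ * a ∈ D := by
          have := (Subgroup.mul_mem_iff_of_index_two hidx (a := (⟨g, hg⟩ : T)⁻¹)
            (b := (⟨a, ha⟩ : T))).2 (by
              simp [Subgroup.mem_subgroupOf, hgD, haD])
          exact Subgroup.mem_subgroupOf.1 this
        rw [show a = g * (g⁻¹ * a) by group]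
        exact (hfix w hw).mul_left (hcomm _ hga w w.2)
  obtain ⟨hut, hno⟩ := key t ht htD (le_cent_iff.2 fun a ha => hJt a (hDJ ha))
  obtain ⟨hus, -⟩ := key s hs hsD (le_cent_iff.2 fun a ha => hJs a (hDJ ha))
  refine hno fun a ha => ?_
  by_contra ha1
  have hu : orderOf ((sq ⟨a, ha⟩ : D) : G) = 2 := by
    refine two_of_mul_self ?_ ha1
    -- `sq ∘ sq` is trivial: `t` is a value of no bigger square
    by_contra h4
    have h8 : orderOf (⟨a, ha⟩ : D) = 8 := by
      refine orderOf_eq_prime_pow (p := 2) (n := 2) ?_ (by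
        rw [show (2 : ℕ) ^ (2 + 1) = Nat.card D by rw [hD]; norm_num]
        exact pow_card_eq_one')
      intro h
      refine h4 ?_
      have h' := congrArg Subtype.val h
      show a * a * (a * a) = 1
      simp only [SubgroupClass.coe_pow, OneMemClass.coe_one] at h'
      rw [← h', show (2 : ℕ) ^ 2 = 4 by norm_num, pow_succ, pow_succ, pow_succ, pow_one]
      group
    have := (isCyclic_of_orderOf_eq_card (⟨a, ha⟩ : D) (by rw [h8, hD]))
    letI : Fintype D := Fintype.ofFinite D
    have hle := IsCyclic.card_pow_eq_one_le (α := D) (n := 2) (by norm_num)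
    let three : Fin 3 → {x : D // x ^ 2 = 1} := ![⟨1, one_pow 2⟩,
      ⟨⟨t, htD⟩, by rw [pow_two]; exact Subtype.ext (mul_self_of_two ht)⟩,
      ⟨⟨s, hsD⟩, by rw [pow_two]; exact Subtype.ext (mul_self_of_two hs)⟩]
    have h3 : Function.Injective three := by
      intro x y hxy
      have h := congrArg (fun z : {x : D // x ^ 2 = 1} => ((z : D) : G)) hxy
      fin_cases x <;> fin_cases y <;> simp [three] at h ⊢ <;>
        first
          | exact ne_one_of_two ht h | exact ne_one_of_two ht h.symm
          | exact ne_one_of_two hs h | exact ne_one_of_two hs h.symm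
          | exact hne h | exact hne h.symm
    have := Nat.card_le_card_of_injective _ h3
    rw [Nat.card_eq_fintype_card (α := {x : D // x ^ 2 = 1}), Fintype.card_subtype] at this
    simp at this
    omega
  exact hne ((hut _ hu ⟨⟨a, ha⟩, rfl⟩).symm.trans (hus _ hu ⟨⟨a, ha⟩, rfl⟩))

end Cfsg.Agent.FGS75.L33
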